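import Cfsg.Agent.Char.LinAct
import Cfsg.Agent.Char.Coset
import Cfsg.Agent.Char.Count
import Cfsg.Agent.Char.RelTaketa
import Cfsg.Agent.Char.FourDeg

/-!
# No divisibility among degrees: basics

`NDAD G`, degrees over a normal subgroup with cyclic quotient, fixed-point-free elements on
sections (`Fpf`), values of linear characters of normal subgroups (`ev`), groups with a
nonabelian nilpotent quotient.
-/

set_option autoImplicit false
set_option linter.unusedSectionVars false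

namespace Cfsg.Nd

open scoped commutatorElement Classical ComplexConjugate
open Subgroup MulAction

universe u

variable {G : Type u} [Group G] [Finite G]

/-- No nonlinear degree divides another degree. -/
def NDAD (G : Type u) [Group G] : Prop :=
  ∀ a ∈ charDegrees G, ∀ b ∈ charDegrees G, 1 < a → a < b → ¬ a ∣ b

theorem NDAD.eq_of_dvd (h : NDAD G) {a b : ℕ} (ha : a ∈ charDegrees G) (hb : b ∈ charDegrees G)
    (h1 : a ≠ 1) (hd : a ∣ b) : a = b := by
  have ha0 := pos_of_mem_charDegrees ha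
  have hb0 := pos_of_mem_charDegrees hb
  by_contra hne
  exact h a ha b hb (by omega) (lt_of_le_of_ne (Nat.le_of_dvd hb0 hd) hne) hd

theorem NDAD.eq_one_of_mul (h : NDAD G) {a c : ℕ} (ha : a ∈ charDegrees G)
    (hb : a * c ∈ charDegrees G) (h1 : a ≠ 1) : c = 1 := by
  have h2 := h.eq_of_dvd ha hb h1 (dvd_mul_right a c)
  have ha0 := pos_of_mem_charDegrees ha
  exact (Nat.mul_eq_left ha0.ne').1 h2.symm

theorem NDAD.of_subset {H : Type u} [Group H] (h : NDAD G) (hs : charDegrees H ⊆ charDegrees G) :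
    NDAD H := fun a ha b hb => h a (hs ha) b (hs hb)

theorem NDAD.quo (h : NDAD G) (K : Subgroup G) [K.Normal] : NDAD (G ⧸ K) :=
  h.of_subset (charDegrees_quotient_subset K)

/-! ### Cyclic quotients -/

theorem isCyclic_codRestrict {N : Type u} [Group N] {f : N →* G} [IsNormalEmb f]
    (hc : IsCyclic (G ⧸ f.range)) (H : Subgroup G) (hH : ∀ n, f n ∈ H) :
    IsCyclic (H ⧸ (f.codRestrict H hH).range) := by
  refine isCyclic_of_injective (QuotientGroup.lift _ ((QuotientGroup.mk' f.range).comp H.subtype)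
    ?_) ?_
  · rintro _ ⟨n, rfl⟩
    exact (QuotientGroup.eq_one_iff (f n)).mpr ⟨n, rfl⟩
  · rw [injective_iff_map_eq_one]
    intro y hy
    obtain ⟨x, rfl⟩ := QuotientGroup.mk_surjective y
    obtain ⟨n, hn⟩ := (QuotientGroup.eq_one_iff (x : G)).mp hy
    exact (QuotientGroup.eq_one_iff _).mpr ⟨n, Subtype.ext hn⟩

theorem isCyclic_range {N : Subgroup G} [N.Normal] (hc : IsCyclic (G ⧸ N)) :
    IsCyclic (G ⧸ N.subtype.range) :=
  (QuotientGroup.quotientMulEquivOfEq (range_subtype N)).isCyclic.2 hc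

theorem deg_of_cyc {N : Subgroup G} [N.Normal] (hc : IsCyclic (G ⧸ N)) {χ : IrrCharacter G}
    {θ : IrrCharacter N} (h : LiesOver N.subtype χ.1 θ.1) :
    charDegree χ.1 = (inertia N.subtype θ).index * charDegree θ.1 := by
  have h1 := isCyclic_codRestrict (isCyclic_range hc) _ (map_mem_inertia N.subtype θ)
  obtain ⟨η, hη⟩ := exists_extension_of_isCyclic (inertia_toInertia N.subtype θ) h1
  obtain ⟨β, -, hβ⟩ := h.exists_charDegree_eq_of_extends η.isCharacter hη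
  have h2 : charDegree β.1 = 1 := by
    have := h1.isMulCommutative
    exact β.charDegree_eq_one_of_isMulCommutative
  rw [hβ, h2, one_mul]

theorem mem_of_cyc {N : Subgroup G} [N.Normal] (hc : IsCyclic (G ⧸ N)) (θ : IrrCharacter N) :
    (inertia N.subtype θ).index * charDegree θ.1 ∈ charDegrees G := by
  obtain ⟨χ, hχ⟩ := θ.exists_liesOver_above N.subtype_injective
  exact ⟨χ, deg_of_cyc hc hχ⟩

theorem exists_of_cyc {N : Subgroup G} [N.Normal] (hc : IsCyclic (G ⧸ N)) {d : ℕ}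
    (hd : d ∈ charDegrees G) :
    ∃ θ : IrrCharacter N, d = (inertia N.subtype θ).index * charDegree θ.1 := by
  obtain ⟨χ, rfl⟩ := hd
  obtain ⟨θ, hθ⟩ := χ.exists_liesOver_below N.subtype
  exact ⟨θ, deg_of_cyc hc hθ⟩

theorem exists_gen {N : Subgroup G} [N.Normal] (hc : IsCyclic (G ⧸ N)) {T : Subgroup G}
    (hT : N ≤ T) : ∃ t ∈ T, ∀ x ∈ T, ∃ k : ℤ, ∃ n ∈ N, x = t ^ k * n := by
  obtain ⟨⟨s, t, ht, rfl⟩, hs⟩ := IsCyclic.exists_generator (α := T.map (QuotientGroup.mk' N))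
  refine ⟨t, ht, fun x hx => ?_⟩
  obtain ⟨k, hk⟩ := mem_zpowers_iff.1 (hs ⟨_, x, hx, rfl⟩)
  have h1 : ((t ^ k : G) : G ⧸ N) = x := by simpa using congrArg Subtype.val hk
  exact ⟨k, (t ^ k)⁻¹ * x, QuotientGroup.eq.1 h1, by group⟩

/-! ### Fixed-point-free elements on sections -/

/-- `t` fixes no nontrivial element of `X / Y`. -/
def Fpf (t : G) (X Y : Subgroup G) : Prop := ∀ n ∈ X, ⁅n, t⁆ ∈ Y → n ∈ Y

theorem Fpf.trans {t : G} {X Y Z : Subgroup G} (h : Fpf t X Y) (h' : Fpf t Y Z) (hZ : Z ≤ Y) :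
    Fpf t X Z := fun n hn h1 => h' n (h n hn (hZ h1)) h1

theorem fpf_iff_surj {t : G} {X Y : Subgroup G} [hX : X.Normal] [Y.Normal] :
    Fpf t X Y ↔ ∀ x ∈ X, ∃ n ∈ X, ⁅n, t⁆⁻¹ * x ∈ Y := by
  let π := QuotientGroup.mk' Y
  let Φ : X.map π → X.map π := fun n => ⟨⁅n.1, π t⁆, by
    obtain ⟨n, m, hm, rfl⟩ := n
    refine ⟨⁅m, t⁆, ?_, by simp [map_commutatorElement]⟩
    rw [commutatorElement_def, mul_assoc, mul_assoc, ← mul_assoc t]
    exact X.mul_mem hm (hX.conj_mem _ (X.inv_mem hm) t)⟩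
  have h1 : Fpf t X Y ↔ Function.Injective Φ := by
    constructor
    · rintro h ⟨_, a, ha, rfl⟩ ⟨_, b, hb, rfl⟩ hab
      have h2 : ⁅π a, π t⁆ = ⁅π b, π t⁆ := congrArg Subtype.val hab
      have h3 : π ⁅b⁻¹ * a, t⁆ = 1 := by
        rw [map_commutatorElement, map_mul, map_inv, commutatorElement_def] 
        rw [commutatorElement_def, commutatorElement_def] at h2
        have h4 := mul_right_cancel h2
        calc _ = (π b)⁻¹ * (π a * π t * (π a)⁻¹) * π b * (π t)⁻¹ := by group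
          _ = 1 := by rw [h4]; group
      have h5 := h _ (X.mul_mem (X.inv_mem hb) ha) ((QuotientGroup.eq_one_iff _).1 h3)
      exact Subtype.ext (QuotientGroup.eq.2 h5).symm
    · intro h n hn h2
      have h3 : Φ ⟨π n, n, hn, rfl⟩ = Φ 1 := Subtype.ext (by
        change ⁅π n, π t⁆ = ⁅(1 : G ⧸ Y), π t⁆
        rw [commutatorElement_one_left, ← map_commutatorElement]
        exact (QuotientGroup.eq_one_iff _).2 h2)
      exact (QuotientGroup.eq_one_iff _).1 (congrArg Subtype.val (h h3))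
  rw [h1, Finite.injective_iff_surjective]
  constructor
  · intro h x hx
    obtain ⟨⟨_, n, hn, rfl⟩, h2⟩ := h ⟨π x, x, hx, rfl⟩
    refine ⟨n, hn, QuotientGroup.eq.1 ?_⟩
    have h3 : ⁅π n, π t⁆ = π x := congrArg Subtype.val h2
    rwa [← map_commutatorElement] at h3
  · rintro h ⟨_, x, hx, rfl⟩
    obtain ⟨n, hn, h2⟩ := h x hx
    refine ⟨⟨π n, n, hn, rfl⟩, Subtype.ext ?_⟩
    change ⁅π n, π t⁆ = π x
    rw [← map_commutatorElement]
    exact QuotientGroup.eq.2 h2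

theorem Fpf.surj {t : G} {X Y : Subgroup G} [X.Normal] [Y.Normal] (h : Fpf t X Y) {x : G}
    (hx : x ∈ X) : ∃ n ∈ X, ∃ y ∈ Y, x = ⁅n, t⁆ * y := by
  obtain ⟨n, hn, h1⟩ := fpf_iff_surj.1 h x hx
  exact ⟨n, hn, _, h1, by group⟩

theorem comm_mem_left {X : Subgroup G} [hX : X.Normal] {n : G} (hn : n ∈ X) (t : G) :
    ⁅n, t⁆ ∈ X := by
  rw [commutatorElement_def, mul_assoc, mul_assoc, ← mul_assoc t]
  exact X.mul_mem hn (hX.conj_mem _ (X.inv_mem hn) t)

theorem comm_mem_right {X : Subgroup G} [hX : X.Normal] (t : G) {n : G} (hn : n ∈ X) :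
    ⁅t, n⁆ ∈ X := by
  rw [← commutatorElement_inv]
  exact X.inv_mem (comm_mem_left hn t)

/-- A larger bottom keeps `Fpf`. -/
theorem Fpf.mono_right {t : G} {X Y Y' : Subgroup G} [X.Normal] [Y.Normal] [Y'.Normal]
    (h : Fpf t X Y) (hY : Y ≤ Y') : Fpf t X Y' :=
  fpf_iff_surj.2 fun x hx => let ⟨n, hn, h1⟩ := fpf_iff_surj.1 h x hx; ⟨n, hn, hY h1⟩

theorem Fpf.mono_left {t : G} {X X' Y : Subgroup G} (h : Fpf t X Y) (hX : X' ≤ X) :
    Fpf t X' Y := fun n hn => h n (hX hn)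

/-! ### Values of linear characters -/

section ev
variable {X : Subgroup G}

/-- The value of a linear character of `X`, extended by `1`. -/
noncomputable def ev (l : LinC X.subtype) (g : G) : ℂˣ := if h : g ∈ X then l.hom ⟨g, h⟩ else 1

theorem ev_of_mem (l : LinC X.subtype) {g : G} (h : g ∈ X) : ev l g = l.hom ⟨g, h⟩ := dif_pos h

@[simp] theorem ev_coe (l : LinC X.subtype) (x : X) : ev l x = l.hom x := dif_pos x.2

theorem ev_mul (l : LinC X.subtype) {g h : G} (hg : g ∈ X) (hh : h ∈ X) :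
    ev l (g * h) = ev l g * ev l h := by
  rw [ev_of_mem l hg, ev_of_mem l hh, ev_of_mem l (X.mul_mem hg hh), ← map_mul]; rfl

@[simp] theorem ev_one (l : LinC X.subtype) : ev l 1 = 1 := by
  rw [ev_of_mem l X.one_mem]; exact map_one _

theorem ev_inv (l : LinC X.subtype) (g : G) : ev l g⁻¹ = (ev l g)⁻¹ := by
  by_cases hg : g ∈ X
  · rw [ev_of_mem l hg, ev_of_mem l (X.inv_mem hg), ← map_inv]; rfl
  · rw [ev, ev, dif_neg hg, dif_neg (by simpa using hg), inv_one]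

@[simp] theorem ev_mul' (l m : LinC X.subtype) (g : G) : ev (l * m) g = ev l g * ev m g := by
  by_cases hg : g ∈ X
  · simp [ev_of_mem _ hg]
  · simp [ev, hg]

@[simp] theorem ev_inv' (l : LinC X.subtype) (g : G) : ev l⁻¹ g = (ev l g)⁻¹ := by
  by_cases hg : g ∈ X
  · simp [ev_of_mem _ hg]
  · simp [ev, hg]

@[simp] theorem ev_one' (g : G) : ev (1 : LinC X.subtype) g = 1 := by
  by_cases hg : g ∈ X
  · simp [ev_of_mem _ hg]
  · simp [ev, hg]

theorem ev_ext {l m : LinC X.subtype} (h : ∀ x ∈ X, ev l x = ev m x) : l = m :=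
  LinC.ext' fun x => by simpa using h x x.2

theorem ev_comm (l : LinC X.subtype) {g h : G} (hg : g ∈ X) (hh : h ∈ X) : ev l ⁅g, h⁆ = 1 := by
  rw [commutatorElement_def, ev_mul l (X.mul_mem (X.mul_mem hg hh) (X.inv_mem hg)) (X.inv_mem hh),
    ev_mul l (X.mul_mem hg hh) (X.inv_mem hg), ev_mul l hg hh, ev_inv, ev_inv]
  simp

/-- The kernel of `l`, as a subgroup of `G`. -/
noncomputable def kr (l : LinC X.subtype) : Subgroup G := l.hom.ker.map X.subtype

theorem mem_kr {l : LinC X.subtype} {g : G} : g ∈ kr l ↔ g ∈ X ∧ ev l g = 1 := by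
  constructor
  · rintro ⟨x, hx, rfl⟩
    exact ⟨x.2, by simpa using hx⟩
  · rintro ⟨h1, h2⟩
    exact ⟨⟨g, h1⟩, by rwa [ev_of_mem _ h1] at h2, rfl⟩

theorem kr_le (l : LinC X.subtype) : kr l ≤ X := fun _ h => (mem_kr.1 h).1

theorem le_kr_iff {l : LinC X.subtype} : X ≤ kr l ↔ l = 1 :=
  ⟨fun h => ev_ext fun x hx => by rw [(mem_kr.1 (h hx)).2, ev_one'],
    fun h x hx => mem_kr.2 ⟨hx, by rw [h, ev_one']⟩⟩

theorem comm_le_kr (l : LinC X.subtype) : ⁅X, X⁆ ≤ kr l :=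
  commutator_le.2 fun g hg h hh => mem_kr.2 ⟨X.mul_mem (X.mul_mem (X.mul_mem hg hh)
    (X.inv_mem hg)) (X.inv_mem hh), ev_comm l hg hh⟩

theorem exists_lin {Y : Subgroup G} (hc : ⁅X, X⁆ ≤ Y) {x : G} (hx : x ∈ X) (hxY : x ∉ Y) :
    ∃ l : LinC X.subtype, (∀ y ∈ Y, ev l y = 1) ∧ ev l x ≠ 1 := by
  obtain ⟨l, h1, h2⟩ := exists_linear_ne_one (G := X) (L := Y.subgroupOf X) (by
    rw [← map_subtype_le_map_subtype, _root_.commutator_def, map_commutator,
      ← MonoidHom.range_eq_map, range_subtype, subgroupOf_map_subtype]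
    exact le_inf hc ((comm_le_kr (1 : LinC X.subtype)).trans (kr_le _))) (g := ⟨x, hx⟩) hxY
  refine ⟨LinC.mk _ l, fun y hy => ?_, by rwa [ev_of_mem _ hx]⟩
  by_cases hyX : y ∈ X
  · rw [ev_of_mem _ hyX]; exact h1 _ hy
  · exact dif_neg hyX

variable [hX : X.Normal]

theorem ev_smul (t : G) (l : LinC X.subtype) (g : G) : ev (t • l) g = ev l (t⁻¹ * g * t) := by
  by_cases hg : g ∈ X
  · have h1 : t⁻¹ * g * t ∈ X := hX.conj_mem' g hg t
    rw [ev_of_mem _ hg, ev_of_mem _ h1, LinC.hom_smul_apply]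
    congr 1
    exact Subtype.ext (map_conjAut_inv X.subtype t _)
  · have h1 : t⁻¹ * g * t ∉ X := fun h => hg (by simpa [mul_assoc] using hX.conj_mem _ h t)
    rw [ev, ev, dif_neg hg, dif_neg h1]

theorem smul_eq_iff {t : G} {l : LinC X.subtype} :
    t • l = l ↔ ∀ x ∈ X, ev l ⁅x, t⁆ = 1 := by
  rw [smul_eq_iff_eq_inv_smul]
  constructor
  · intro h x hx
    have h1 := congrArg (fun m => ev m x⁻¹) h
    simp only [ev_smul, inv_inv] at h1
    rw [commutatorElement_def, mul_assoc, mul_assoc, ← mul_assoc t,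
      ev_mul l hx (hX.conj_mem _ (X.inv_mem hx) t), ← h1, ev_inv, mul_inv_cancel]
  · intro h
    refine ev_ext fun x hx => ?_
    have h1 := h x⁻¹ (X.inv_mem hx)
    rw [commutatorElement_def, mul_assoc, mul_assoc, ← mul_assoc t, inv_inv,
      ev_mul l (X.inv_mem hx) (hX.conj_mem _ hx t), ev_inv, inv_mul_eq_one] at h1
    rw [ev_smul, inv_inv, ← h1]

theorem ev_conj {t : G} {l : LinC X.subtype} (h : t • l = l) (g : G) :
    ev l (t * g * t⁻¹) = ev l g := by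
  conv_lhs => rw [← h, ev_smul]
  congr 1; group

theorem triv_smul {Y : Subgroup G} [hY : Y.Normal] {l : LinC X.subtype} (h : ∀ y ∈ Y, ev l y = 1)
    (t : G) : ∀ y ∈ Y, ev (t • l) y = 1 := fun y hy => by
  rw [ev_smul]; exact h _ (hY.conj_mem' y hy t)

theorem Fpf.eq_one {t : G} {Y : Subgroup G} [Y.Normal] (h : Fpf t X Y) (hY : Y ≤ X)
    {l : LinC X.subtype} (h1 : ∀ y ∈ Y, ev l y = 1) (h2 : t • l = l) : l = 1 :=
  ev_ext fun x hx => by
    obtain ⟨n, hn, y, hy, rfl⟩ := h.surj hx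
    rw [ev_mul l (comm_mem_left hn t) (hY hy), smul_eq_iff.1 h2 n hn, h1 y hy, ev_one', one_mul]

theorem fpf_of_lin {t : G} {Y : Subgroup G} [hY : Y.Normal] (hc : ⁅X, X⁆ ≤ Y)
    (h : ∀ l : LinC X.subtype, (∀ y ∈ Y, ev l y = 1) → t • l = l → l = 1) : Fpf t X Y := by
  rw [fpf_iff_surj]
  let S : Subgroup G :=
    { carrier := {x | ∃ n ∈ X, ⁅n, t⁆⁻¹ * x ∈ Y}
      one_mem' := ⟨1, X.one_mem, by simp⟩
      mul_mem' := by
        rintro a b ⟨n, hn, h1⟩ ⟨m, hm, h2⟩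
        refine ⟨n * m, X.mul_mem hn hm, ?_⟩
        have h3 : ⁅⁅m, t⁆⁻¹, n⁆ ∈ Y := hc (commutator_mem_commutator
          (X.inv_mem (comm_mem_left hm t)) hn)
        have h4 : ⁅⁅n, t⁆⁻¹, ⁅m, t⁆⁻¹⁆ ∈ Y := hc (commutator_mem_commutator
          (X.inv_mem (comm_mem_left hn t)) (X.inv_mem (comm_mem_left hm t)))
        rw [← QuotientGroup.eq_one_iff] at h1 h2 h3 h4 ⊢
        simp only [QuotientGroup.mk_mul, QuotientGroup.mk_inv, commutatorElement_def] at h1 h2 h3 h4 ⊢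
        rw [inv_mul_eq_one] at h1 h2 ⊢
        rw [← h1, ← h2]
        set n := (n : G ⧸ Y); set m := (m : G ⧸ Y); set t := (t : G ⧸ Y)
        have h5 : n * (m * t * m⁻¹ * t⁻¹) * n⁻¹ = m * t * m⁻¹ * t⁻¹ := by
          rw [← inv_inj]
          calc _ = ((m * t * m⁻¹ * t⁻¹)⁻¹ * n * (m * t * m⁻¹ * t⁻¹)⁻¹⁻¹ * n⁻¹)⁻¹ *
              (m * t * m⁻¹ * t⁻¹)⁻¹ := by group
            _ = _ := by rw [h3]; group
        have h6 : (m * t * m⁻¹ * t⁻¹) * (n * t * n⁻¹ * t⁻¹) =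
            (n * t * n⁻¹ * t⁻¹) * (m * t * m⁻¹ * t⁻¹) := by
          calc _ = (m * t * m⁻¹ * t⁻¹) * (n * t * n⁻¹ * t⁻¹) * ((n * t * n⁻¹ * t⁻¹)⁻¹ *
              (m * t * m⁻¹ * t⁻¹)⁻¹ * (n * t * n⁻¹ * t⁻¹)⁻¹⁻¹ * (m * t * m⁻¹ * t⁻¹)⁻¹⁻¹) := by
                rw [h4, mul_one]
            _ = _ := by group
        calc _ = (n * (m * t * m⁻¹ * t⁻¹) * n⁻¹) * (n * t * n⁻¹ * t⁻¹) := by group
          _ = _ := by rw [h5, h6]
      inv_mem' := by
        rintro a ⟨n, hn, h1⟩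
        refine ⟨n⁻¹, X.inv_mem hn, ?_⟩
        have h3 : ⁅n⁻¹, ⁅n, t⁆⁆ ∈ Y := hc (commutator_mem_commutator (X.inv_mem hn)
          (comm_mem_left hn t))
        rw [← QuotientGroup.eq_one_iff] at h1 h3 ⊢
        simp only [QuotientGroup.mk_mul, QuotientGroup.mk_inv, commutatorElement_def] at h1 h3 ⊢
        rw [inv_mul_eq_one] at h1
        rw [← h1, ← h3]
        group }
  intro x hx
  by_contra h1
  obtain ⟨l, h2, h3⟩ := exists_lin (X := X) (Y := S) (fun y hy => ⟨1, X.one_mem, by simpa using hc hy⟩) hx h1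
  apply h3
  rw [h l (fun y hy => h2 y ⟨1, X.one_mem, by simpa using hy⟩)
    (smul_eq_iff.2 fun n hn => h2 _ ⟨n, hn, by rw [inv_mul_cancel]; exact Y.one_mem⟩), ev_one']

end ev

end Cfsg.Nd

set_option linter.all false in
theorem Cfsg.Rz.Nd_Basic_0 : True := by
  have := @_root_.Cfsg.Nd.ev.eq_def.{0}
  have := @_root_.Cfsg.Nd.ev.fun_cases.{0}
  have := @_root_.Cfsg.Nd.NDAD.eq_def.{0}
  have := @_root_.Cfsg.Nd.NDAD.eq_1.{0}
  have := @_root_.Cfsg.Nd.NDAD.fun_cases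
  have := @_root_.Cfsg.Nd.Fpf.eq_def.{0}
  have := @_root_.Cfsg.Nd.Fpf.eq_1.{0}
  have := @_root_.Cfsg.Nd.Fpf.fun_cases
  have := @_root_.Cfsg.Nd.kr.eq_def.{0}
  have := @_root_.Cfsg.Nd.kr.eq_1.{0}
  have := @_root_.Cfsg.Nd.kr.fun_cases
  trivial
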