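import Cfsg.Agent.Nd.Nil
import Cfsg.Agent.FT.BG03a

/-!
# `NDAD` groups without nonabelian nilpotent quotient: the Camina triple

`Cam N M`: `G / N` is cyclic, acts fixed-point-freely on `N / M` and trivially on `M / N'`.
-/

set_option autoImplicit false
set_option linter.unusedSectionVars false

namespace Cfsg.Nd

open scoped commutatorElement Classical ComplexConjugate
open Subgroup MulAction

universe u

variable {G : Type u} [Group G] [Finite G]

/-- The basic configuration. -/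
structure Cam (N M : Subgroup G) [N.Normal] [M.Normal] : Prop where
  nd : NDAD G
  cyc : IsCyclic (G ⧸ N)
  ne_top : N ≠ ⊤
  le : M ≤ N
  not_le : ¬ N ≤ M
  der : ⁅N, N⁆ ≤ M
  cent : ⁅M, ⊤⁆ ≤ ⁅N, N⁆
  fpf : ∀ g, g ∉ N → Fpf g N M

theorem comm_le_of_cyc {N : Subgroup G} [N.Normal] (hc : IsCyclic (G ⧸ N)) : commutator G ≤ N := by
  have := hc.isMulCommutative
  exact Normal.quotient_commutative_iff_commutator_le.1 this

theorem comm_le_of_cyc' {N : Subgroup G} [N.Normal] (hc : IsCyclic (G ⧸ N)) :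
    commutator G ≤ ⁅N, ⊤⁆ := by
  obtain ⟨t, -, ht⟩ := exists_gen hc (T := ⊤) le_top
  obtain ⟨D, hD, h0, h⟩ : ∃ D : Subgroup G, D.Normal ∧ (∀ x ∈ N, ∀ g, ⁅x, g⁆ ∈ D) ∧ D = ⁅N, ⊤⁆ :=
    ⟨_, inferInstance, fun x hx g => commutator_mem_commutator hx (mem_top g), rfl⟩
  rw [← h]
  refine commutator_le.2 fun a _ b _ => ?_
  obtain ⟨i, m, hm, rfl⟩ := ht a (mem_top a)
  obtain ⟨j, n, hn, rfl⟩ := ht b (mem_top b)
  have h1 : ∀ x ∈ N, ∀ y : G ⧸ D, Commute (x : G ⧸ D) y := fun x hx y => by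
    obtain ⟨y, rfl⟩ := QuotientGroup.mk_surjective y
    rw [← commutatorElement_eq_one_iff_commute]
    exact (QuotientGroup.eq_one_iff ⁅x, y⁆).2 (h0 x hx y)
  rw [← QuotientGroup.eq_one_iff]
  change ⁅((t ^ i * m : G) : G ⧸ D), ((t ^ j * n : G) : G ⧸ D)⁆ = 1
  rw [commutatorElement_eq_one_iff_commute, QuotientGroup.mk_mul, QuotientGroup.mk_mul,
    QuotientGroup.mk_zpow, QuotientGroup.mk_zpow]
  exact ((Commute.zpow_zpow_self _ i j).mul_right (h1 n hn _).symm).mul_left (h1 m hm _)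

theorem eq_of_index {A B : Subgroup G} (h : A ≤ B) (e : B.index = A.index) : A = B := by
  have h1 := relIndex_mul_index h
  rw [← e] at h1
  exact le_antisymm h (relIndex_eq_one.1 ((Nat.mul_eq_right index_ne_zero_of_finite).1 h1))

theorem comm_mul_left (a b t : G) : ⁅a * b, t⁆ = a * ⁅b, t⁆ * a⁻¹ * ⁅a, t⁆ := by
  simp only [commutatorElement_def]; group

theorem comm_mul_right (t a b : G) : ⁅t, a * b⁆ = ⁅t, a⁆ * (a * ⁅t, b⁆ * a⁻¹) := by
  simp only [commutatorElement_def]; group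

/-- Elements `g` with `⁅n, g⁆ ∈ Y`. -/
def cz (n : G) (Y : Subgroup G) [Y.Normal] : Subgroup G :=
  (centralizer {(n : G ⧸ Y)}).comap (QuotientGroup.mk' Y)

theorem mem_cz {n g : G} {Y : Subgroup G} [Y.Normal] : g ∈ cz n Y ↔ ⁅n, g⁆ ∈ Y := by
  rw [cz, mem_comap, mem_centralizer_singleton_iff, ← QuotientGroup.eq_one_iff, eq_comm,
    ← commutatorElement_eq_one_iff_mul_comm]
  rfl

theorem comm_mem_of_gen {N Y : Subgroup G} [Y.Normal] {t n : G}
    (ht : ∀ x : G, ∃ k : ℤ, ∃ m ∈ N, x = t ^ k * m) (h1 : ⁅n, t⁆ ∈ Y) (h2 : ∀ m ∈ N, ⁅n, m⁆ ∈ Y)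
    (g : G) : ⁅n, g⁆ ∈ Y := by
  obtain ⟨k, m, hm, rfl⟩ := ht g
  exact mem_cz.1 (mul_mem (zpow_mem (mem_cz.2 h1) k) (mem_cz.2 (h2 m hm)))

theorem stab_lin_le {N : Subgroup G} [N.Normal] (l : LinC N.subtype) : N ≤ stabilizer G l :=
  fun n hn => LinC.map_smul_eq (f := N.subtype) ⟨n, hn⟩ l

theorem lin_index_mem {N : Subgroup G} [N.Normal] (hc : IsCyclic (G ⧸ N)) (l : LinC N.subtype) :
    (stabilizer G l).index ∈ charDegrees G := by
  have h1 := mem_of_cyc hc l.irr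
  rwa [LinC.charDegree_irr, mul_one, ← LinC.stabilizer_eq] at h1

theorem exists_cam [Group.IsSolvable G] (h : NDAD G) (h1 : commutator G ≠ ⊥)
    (h2 : commutator G ≤ ⁅commutator G, ⊤⁆) :
    ∃ (N M : Subgroup G) (_ : N.Normal) (_ : M.Normal), Cam N M := by
  obtain ⟨K, hK, hJ⟩ := exists_isJustNonab_quotient' (mt commutator_eq_bot_iff_comm.2 h1)
  have hs := QuotientGroup.mk'_surjective K
  have hZ : center (G ⧸ K) = ⊥ := by_contra fun h0 => hJ.ne_bot (by
    have h3 := map_mono (f := QuotientGroup.mk' K) h2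
    rw [map_commutator, ← commutator_quotient_eq] at h3
    exact le_bot_iff.1 (h3.trans (commutator_eq_bot_iff_le_centralizer.2 ((hJ.le _ inferInstance
      h0).trans (center_le_centralizer _))).le))
  let N := (commutator (G ⧸ K)).comap (QuotientGroup.mk' K)
  have hab := hJ.isMinNormal.isMulCommutative_of_isSolvable
  have hc : IsCyclic (G ⧸ N) := by
    obtain ⟨H, hi, hH⟩ := hJ.exists_complement hZ
    have h3 : IsCyclic H := Agent.FT.abelian_regular_cyclic (H := commutator (G ⧸ K))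
      (isMulCommutative_iff_forall.2 fun a ha b hb => by
        rw [← commutatorElement_eq_one_iff_mul_comm, ← mem_bot, ← hi]
        exact ⟨commutator_mem_commutator (mem_top a) (mem_top b),
          H.mul_mem (H.mul_mem (H.mul_mem ha hb) (H.inv_mem ha)) (H.inv_mem hb)⟩)
      hJ.ne_bot le_normalizer_of_normal fun x hx hx1 => eq_bot_iff.2 fun n hn =>
        by_contra fun h0 => hx1 (mem_bot.1 (hi ▸ ⟨hJ.centralizer_le hZ hn.1 h0
          (mem_centralizer_singleton_iff.2 (mem_centralizer_singleton_iff.1 hn.2).symm), hx⟩))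
    have h4 : IsCyclic ((G ⧸ K) ⧸ commutator (G ⧸ K)) :=
      isCyclic_of_surjective _ (complementEquivQuotient hi hH).surjective
    refine isCyclic_of_injective (QuotientGroup.map N _ (QuotientGroup.mk' K) le_rfl) ?_
    rw [injective_iff_map_eq_one]
    intro y hy
    obtain ⟨x, rfl⟩ := QuotientGroup.mk_surjective y
    exact (QuotientGroup.eq_one_iff _).2 ((QuotientGroup.eq_one_iff (x : G ⧸ K)).1 hy)
  obtain ⟨β, hβ⟩ := hJ.exists_nonlinear
  have hf : charDegree β.1 = N.index := by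
    rw [hJ.charDegree_eq_index hZ hβ, index_comap_of_surjective _ hs]
  have hf' : N.index ∈ charDegrees G := hf ▸ charDegrees_quotient_subset K β.charDegree_mem
  let M := N ⊓ (center (G ⧸ ⁅N, N⁆)).comap (QuotientGroup.mk' _)
  have hM : ∀ n, n ∈ M ↔ n ∈ N ∧ ∀ g, ⁅n, g⁆ ∈ ⁅N, N⁆ := fun n => mem_inf.trans <| and_congr_right fun _ => by
    rw [mem_comap, mem_center_iff, (QuotientGroup.mk'_surjective _).forall]
    refine forall_congr' fun g => ?_
    rw [eq_comm, ← commutatorElement_eq_one_iff_mul_comm, ← map_commutatorElement]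
    exact QuotientGroup.eq_one_iff _
  have hD := comm_le_of_cyc hc
  have hNN : ⁅N, N⁆ ≤ N := commutator_le_left N N
  obtain ⟨t, -, ht⟩ := exists_gen hc (T := ⊤) le_top
  have h3 : Fpf t (commutator G) ⁅N, N⁆ := fpf_of_lin (commutator_mono hD hD) fun l h4 h5 =>
    le_kr_iff.1 (h2.trans (commutator_le.2 fun x hx g _ => mem_kr.2 ⟨comm_mem_left hx g, by
      obtain ⟨k, m, hm, rfl⟩ := ht g (mem_top g)
      exact smul_eq_iff.1 (mul_mem (zpow_mem (mem_stabilizer_iff.2 h5) k) (mem_stabilizer_iff.2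
        (smul_eq_iff.2 fun y hy => h4 _ (commutator_mem_commutator (hD hy) hm)))) x hx⟩))
  have h4 : ∀ n ∈ N, ∃ x ∈ commutator G, ∃ m ∈ M, n = x * m := fun n hn => by
    obtain ⟨x, hx, y, hy, h5⟩ := h3.surj (commutator_mem_commutator (mem_top n) (mem_top t))
    have h6 := N.mul_mem (N.inv_mem (hD hx)) hn
    refine ⟨x, hx, x⁻¹ * n, (hM _).2 ⟨h6, comm_mem_of_gen (fun g => ht g (mem_top g)) ?_
      fun m hm => commutator_mem_commutator h6 hm⟩, by group⟩
    have h7 : ⁅x⁻¹ * n, t⁆ = x⁻¹ * (⁅n, t⁆ * ⁅x, t⁆⁻¹) * x := by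
      simp only [commutatorElement_def]; group
    rw [h7, h5, mul_assoc ⁅x, t⁆]
    exact Normal.conj_mem' inferInstance _ (by
      simpa [mul_assoc] using Normal.conj_mem inferInstance _ hy ⁅x, t⁆) x
  have h5 : ⁅M, ⊤⁆ ≤ ⁅N, N⁆ := commutator_le.2 fun n hn g _ => ((hM n).1 hn).2 g
  have h6 : ⁅N, N⁆ ≤ M := fun n hn => (hM n).2 ⟨hNN hn, comm_mem_left hn⟩
  refine ⟨N, M, inferInstance, inferInstance, h, hc, fun h0 => hβ (by rw [hf, h0, index_top]),
    inf_le_left, fun h0 => hJ.ne_bot ?_, h6, h5, fun g hg => fpf_of_lin h6 fun l h7 h8 => ?_⟩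
  · rw [commutator_quotient_eq, map_mk'_eq_bot_iff]
    refine h2.trans ((commutator_mono (hD.trans h0) le_rfl).trans (h5.trans
      (commutator_le.2 fun a ha b hb => ?_)))
    rw [← QuotientGroup.eq_one_iff]
    exact commutatorElement_eq_one_iff_mul_comm.2 (isMulCommutative_iff_forall.1 hab _ ha _ hb)
  · have h9 : stabilizer G l = ⊤ := index_eq_one.1 (by_contra fun h0 => hg (by
      have h10 := h.eq_of_dvd (lin_index_mem hc l) hf' h0 (index_dvd_of_le (stab_lin_le l))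
      rw [eq_of_index (stab_lin_le l) h10]
      exact h8))
    refine ev_ext fun n hn => ?_
    obtain ⟨x, hx, m, hm, rfl⟩ := h4 n hn
    have h10 : ⁅N, ⊤⁆ ≤ kr l := commutator_le.2 fun y hy g _ => mem_kr.2 ⟨comm_mem_left hy g,
      smul_eq_iff.1 (h9 ▸ mem_top g : g ∈ stabilizer G l) y hy⟩
    rw [ev_mul l (hD hx) hm.1, h7 m hm, (mem_kr.1 (h10 (comm_le_of_cyc' hc hx))).2, ev_one',
      one_mul]

namespace Cam

variable {N M : Subgroup G} [N.Normal] [M.Normal]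

theorem comm_le (c : Cam N M) : commutator G ≤ N := comm_le_of_cyc c.cyc

theorem stab_eq (c : Cam N M) {l : LinC N.subtype} (h : ∀ y ∈ M, ev l y = 1) (h1 : l ≠ 1) :
    stabilizer G l = N :=
  le_antisymm (fun g hg => by_contra fun h0 => h1 ((c.fpf g h0).eq_one c.le h hg)) (stab_lin_le l)

theorem index_mem (c : Cam N M) : N.index ∈ charDegrees G := by
  obtain ⟨x, hx, h1⟩ := SetLike.not_le_iff_exists.1 c.not_le
  obtain ⟨l, h2, h3⟩ := exists_lin c.der hx h1
  have h4 := lin_index_mem c.cyc l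
  rwa [c.stab_eq h2 fun h0 => h3 (by rw [h0, ev_one'])] at h4

theorem index_ne_one (c : Cam N M) : N.index ≠ 1 := mt index_eq_one.1 c.ne_top

theorem exists_notMem (c : Cam N M) {ψ : IrrCharacter N} (h : charDegree ψ.1 ≠ 1) :
    ∃ t ∈ inertia N.subtype ψ, t ∉ N := by
  refine SetLike.not_le_iff_exists.1 fun h0 => h ?_
  have h1 := mem_of_cyc c.cyc ψ
  rw [le_antisymm h0 (le_inertia_subtype N ψ)] at h1
  exact c.nd.eq_one_of_mul c.index_mem h1 c.index_ne_one

theorem vanish (c : Cam N M) {ψ : IrrCharacter N} (h : charDegree ψ.1 ≠ 1) {x : N}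
    (hx : (x : G) ∉ M) : ψ x = 0 := by
  let A : Subgroup (N →* ℂˣ) :=
    { carrier := {μ | ∀ y ∈ M, ev (LinC.mk N.subtype μ) y = 1}
      one_mem' := fun y _ => ev_one' y
      mul_mem' := fun {a b} ha hb y hy =>
        (ev_mul' (LinC.mk _ a) (LinC.mk _ b) y).trans (by rw [ha y hy, hb y hy, mul_one])
      inv_mem' := fun {a} ha y hy => (ev_inv' (LinC.mk _ a) y).trans (by rw [ha y hy, inv_one]) }
  rcases exists_inertia_eq_or_forall_smul_eq A (fun g μ hμ => triv_smul hμ g)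
    (fun g hg μ hμ h1 => (c.fpf g hg).eq_one c.le hμ h1) ψ with ⟨μ, -, h1⟩ | h1
  · obtain ⟨t, h2, h3⟩ := c.exists_notMem (ψ := μ • ψ) (by rwa [IrrCharacter.charDegree_linear_smul])
    exact (h3 (h1 ▸ h2)).elim
  · obtain ⟨l, h2, h3⟩ := exists_lin c.der x.2 hx
    exact (IrrCharacter.linear_smul_eq_iff l.hom ψ).1 (h1 _ h2) x (by simpa using h3)

theorem camina (c : Cam N M) {x u : G} (hx : x ∈ N) (hxM : x ∉ M) (hu : u ∈ ⁅N, N⁆) :
    ∃ n ∈ N, ⁅x, n⁆ = u := by
  have h1 : u ∈ N := commutator_le_left N N hu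
  obtain ⟨n, hn⟩ := isConj_iff.1 ((isConj_iff_of_nonlinear_vanish (g := (⟨x, hx⟩ : N))
    (fun χ hχ => c.vanish (mt χ.apply_one_eq_one_iff.2 hχ) hxM) (⟨u, h1⟩⁻¹ * ⟨x, hx⟩)).2
    (mem_comm_of_coe (Normal.conj_mem' inferInstance _ (inv_mem hu) x |> fun h => by
      simpa [mul_assoc] using h)))
  refine ⟨n, n.2, ?_⟩
  have h2 : (n : G) * x * (n : G)⁻¹ = u⁻¹ * x := congrArg Subtype.val hn
  calc _ = x * ((n : G) * x * (n : G)⁻¹)⁻¹ := by rw [commutatorElement_def]; group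
    _ = u := by rw [h2]; group

theorem relIndex_dvd (c : Cam N M) {ψ : IrrCharacter N} (h : charDegree ψ.1 ≠ 1) :
    M.relIndex N ∣ charDegree ψ.1 ^ 2 := by
  have h1 := ψ.index_dvd_sq_of_vanish (M.subgroupOf N).subtype fun g hg =>
    c.vanish h (by rwa [range_subtype] at hg)
  rwa [range_subtype] at h1

theorem exists_notMem' (c : Cam N M) : ∃ g, g ∉ N := by
  by_contra h
  push Not at h
  exact c.ne_top (eq_top_iff.2 fun g _ => h g)

theorem decomp (c : Cam N M) {n : G} (hn : n ∈ N) : ∃ x ∈ commutator G, ∃ m ∈ M, n = x * m := by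
  obtain ⟨g, hg⟩ := c.exists_notMem'
  obtain ⟨a, -, m, hm, rfl⟩ := (c.fpf g hg).surj hn
  exact ⟨_, commutator_mem_commutator (mem_top _) (mem_top _), m, hm, rfl⟩

theorem exists_gen (c : Cam N M) : ∃ t, t ∉ N ∧ ∀ x, ∃ k : ℤ, ∃ n ∈ N, x = t ^ k * n := by
  obtain ⟨t, -, ht⟩ := Nd.exists_gen c.cyc (T := ⊤) le_top
  refine ⟨t, fun h => c.ne_top (eq_top_iff.2 fun x _ => ?_), fun x => ht x (mem_top x)⟩
  obtain ⟨k, n, hn, rfl⟩ := ht x (mem_top x)
  exact N.mul_mem (N.zpow_mem h k) hn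

theorem inf_eq (c : Cam N M) : commutator G ⊓ M = ⁅N, N⁆ := by
  refine le_antisymm (fun x hx => by_contra fun h0 => ?_)
    (le_inf (commutator_mono le_top le_top) c.der)
  obtain ⟨l, -, h1⟩ := exists_lin le_rfl (c.le hx.2) h0
  obtain ⟨t, ht, ht'⟩ := c.exists_gen
  let Φ : {m : LinC N.subtype // ∀ y ∈ M, ev m y = 1} →
      {m : LinC N.subtype // ∀ y ∈ M, ev m y = 1} := fun m => ⟨t • m.1 * m.1⁻¹, fun y hy => by
    rw [ev_mul', ev_inv', triv_smul m.2 t y hy, m.2 y hy, inv_one, one_mul]⟩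
  have h2 : ∀ a b : LinC N.subtype, t • a * a⁻¹ = t • b * b⁻¹ → t • (a * b⁻¹) = a * b⁻¹ :=
    fun a b h => by
      rw [smul_mul', smul_inv', eq_mul_of_mul_inv_eq h, mul_right_comm _ b⁻¹, mul_right_comm,
        mul_right_comm (t • b), mul_inv_cancel, one_mul]
  have h3 : Function.Injective Φ := fun a b h => Subtype.ext (mul_inv_eq_one.1
    ((c.fpf t ht).eq_one c.le (fun y hy => by rw [ev_mul', ev_inv', a.2 y hy, b.2 y hy]; simp)
      (h2 _ _ (congrArg Subtype.val h))))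
  obtain ⟨m, hm⟩ := Finite.injective_iff_surjective.1 h3 ⟨t • l * l⁻¹, fun y hy => by
    have h4 : t⁻¹ * y * t = ⁅y, t⁻¹⁆⁻¹ * y := by rw [commutatorElement_def]; group
    have h5 := c.cent (commutator_mem_commutator hy (mem_top t⁻¹))
    rw [ev_mul', ev_inv', ev_smul, h4, ev_mul l (inv_mem (commutator_le_left N N h5)) (c.le hy),
      ev_inv, (mem_kr.1 (comm_le_kr l h5)).2]
    simp⟩
  have h4 := h2 _ _ (congrArg Subtype.val hm).symm
  have h5 : ⁅N, ⊤⁆ ≤ kr (l * m.1⁻¹) := commutator_le.2 fun y hy g _ => mem_kr.2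
    ⟨comm_mem_left hy g, by
      obtain ⟨k, n, hn, rfl⟩ := ht' g
      exact smul_eq_iff.1 (mul_mem (zpow_mem (mem_stabilizer_iff.2 h4) k) (stab_lin_le _ hn)) y hy⟩
  have h6 := (mem_kr.1 (h5 (comm_le_of_cyc' c.cyc hx.1))).2
  rw [ev_mul', ev_inv', m.2 x hx.2, inv_one, mul_one] at h6
  exact h1 h6

/-- Elements outside `N` act fixed-point-freely on `G' / N'`. -/
theorem fpf' (c : Cam N M) {g : G} (hg : g ∉ N) : Fpf g (commutator G) ⁅N, N⁆ :=
  fun n hn h => c.inf_eq ▸ ⟨hn, c.fpf g hg n (c.comm_le hn) (c.der h)⟩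

theorem lin_deg (c : Cam N M) {ψ : IrrCharacter N} (h : charDegree ψ.1 = 1) :
    (inertia N.subtype ψ).index * charDegree ψ.1 ∈ ({1, N.index} : Set ℕ) := by
  have h1 := mem_of_cyc c.cyc ψ
  rw [h, mul_one] at h1 ⊢
  exact (em _).imp_right fun h0 =>
    c.nd.eq_of_dvd h1 c.index_mem h0 (index_dvd_of_le (le_inertia_subtype N ψ))

theorem quo (c : Cam N M) {K : Subgroup G} [K.Normal] (hK : K ≤ M) :
    Cam (N.map (QuotientGroup.mk' K)) (M.map (QuotientGroup.mk' K)) := by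
  have hs := QuotientGroup.mk'_surjective K
  have h1 : ∀ {A : Subgroup G}, K ≤ A → ∀ g : G,
      QuotientGroup.mk' K g ∈ A.map (QuotientGroup.mk' K) ↔ g ∈ A := fun {A} hA g => by
    rw [← mem_comap, comap_map_eq, QuotientGroup.ker_mk', sup_eq_left.2 hA]
  have hN := hK.trans c.le
  refine ⟨c.nd.quo K, ?_, fun h => c.ne_top ?_, map_mono c.le, fun h => c.not_le ?_, ?_, ?_, ?_⟩
  · have := c.cyc
    exact isCyclic_of_surjective _ (QuotientGroup.quotientQuotientEquivQuotient K N hN).symm.surjective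
  · rwa [map_mk'_eq_top_iff, sup_eq_left.2 hN] at h
  · rwa [map_mk'_le_map_mk'_iff, sup_eq_left.2 hK] at h
  · rw [← map_commutator]; exact map_mono c.der
  · rw [← map_top_of_surjective _ hs, ← map_commutator, ← map_commutator]; exact map_mono c.cent
  · intro g hg
    obtain ⟨g, rfl⟩ := hs g
    rintro _ ⟨n, hn, rfl⟩ h
    rw [← map_commutatorElement, h1 hK] at h
    exact (h1 hK n).2 (c.fpf g (mt (h1 hN g).2 hg) n hn h)

end Cam

end Cfsg.Nd

set_option linter.all false in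
theorem Cfsg.Rz.Nd_Cam_0 : True := by
  have := @_root_.Cfsg.Nd.Cam.mk.congr_simp.{0}
  have := @_root_.Cfsg.Nd.cz.congr_simp.{0}
  have := @_root_.Cfsg.Nd.cz.eq_def.{0}
  have := @_root_.Cfsg.Nd.cz.fun_cases
  have := @_root_.Cfsg.Nd.Cam.congr_simp.{0}
  trivial
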