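import Cfsg.Agent.Nd.Cam

/-!
# Abelian sections as additive groups
-/

set_option autoImplicit false
set_option linter.unusedSectionVars false

namespace Cfsg.Nd

open scoped commutatorElement Classical
open Subgroup MulAction

universe u

variable {G : Type u} [Group G] [Finite G]

/-- `π` identifies the section `X / Y` with the additive group `S`. -/
structure IsSec {S : Type u} [AddCommGroup S] (X Y : Subgroup G) (π : G → S) : Prop where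
  le : Y ≤ X
  map_mul : ∀ x ∈ X, ∀ y ∈ X, π (x * y) = π x + π y
  eq_zero : ∀ x ∈ X, π x = 0 ↔ x ∈ Y
  surj : ∀ s, ∃ x ∈ X, π x = s

theorem exists_sec {X Y : Subgroup G} [Y.Normal] (h : Y ≤ X) (hc : ⁅X, X⁆ ≤ Y) :
    ∃ (S : Type u) (_ : AddCommGroup S) (π : G → S), IsSec X Y π := by
  let _ : CommGroup (X.map (QuotientGroup.mk' Y)) :=
    { mul_comm := by
        rintro ⟨_, a, ha, rfl⟩ ⟨_, b, hb, rfl⟩
        refine Subtype.ext (commutatorElement_eq_one_iff_mul_comm.1 ?_)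
        exact (QuotientGroup.eq_one_iff ⁅a, b⁆).2 (hc (commutator_mem_commutator ha hb)) }
  refine ⟨Additive (X.map (QuotientGroup.mk' Y)), inferInstance,
    fun g => if hg : g ∈ X then Additive.ofMul ⟨_, g, hg, rfl⟩ else 0, h, fun x hx y hy => ?_,
    fun x hx => ?_, ?_⟩
  · rw [dif_pos hx, dif_pos hy, dif_pos (X.mul_mem hx hy)]; rfl
  · rw [dif_pos hx, ofMul_eq_zero, Subtype.ext_iff]
    exact QuotientGroup.eq_one_iff x
  · rintro ⟨_, x, hx, rfl⟩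
    exact ⟨x, hx, dif_pos hx⟩

namespace IsSec

variable {S : Type u} [AddCommGroup S] {X Y : Subgroup G} {π : G → S}

theorem zero (h : IsSec X Y π) {y : G} (hy : y ∈ Y) : π y = 0 := (h.eq_zero y (h.le hy)).2 hy

theorem one (h : IsSec X Y π) : π 1 = 0 := h.zero Y.one_mem

theorem inv (h : IsSec X Y π) {x : G} (hx : x ∈ X) : π x⁻¹ = -π x :=
  eq_neg_of_add_eq_zero_left (by rw [← h.map_mul _ (X.inv_mem hx) _ hx, inv_mul_cancel, h.one])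

theorem eq_iff (h : IsSec X Y π) {x y : G} (hx : x ∈ X) (hy : y ∈ X) : π x = π y ↔ x⁻¹ * y ∈ Y := by
  rw [← h.eq_zero _ (X.mul_mem (X.inv_mem hx) hy), h.map_mul _ (X.inv_mem hx) _ hy, h.inv hx,
    neg_add_eq_zero]

/-- The homomorphism given by `π`. -/
def hom (h : IsSec X Y π) : X →* Multiplicative S :=
  MonoidHom.mk' (fun x => Multiplicative.ofAdd (π x)) fun x y => congrArg _ (h.map_mul x x.2 y y.2)

theorem hom_surj (h : IsSec X Y π) : Function.Surjective h.hom := fun s =>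
  let ⟨x, hx, h1⟩ := h.surj s.toAdd; ⟨⟨x, hx⟩, congrArg Multiplicative.ofAdd h1⟩

theorem finite (h : IsSec X Y π) : Finite S :=
  (Finite.of_surjective _ h.hom_surj : Finite (Multiplicative S))

theorem card (h : IsSec X Y π) : Nat.card S = Y.relIndex X := by
  have h1 : h.hom.ker = Y.subgroupOf X := Subgroup.ext fun x => h.eq_zero x x.2
  rw [relIndex, ← h1, index_ker, MonoidHom.range_eq_top.2 h.hom_surj, card_top]
  rfl

theorem ind (h : IsSec X Y π) {P : S → Prop} (hP : ∀ x ∈ X, P (π x)) (s : S) : P s := by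
  obtain ⟨x, hx, rfl⟩ := h.surj s
  exact hP x hx

theorem lift (h : IsSec X Y π) {T : Type*} [AddCommGroup T] (F : G → T)
    (h1 : ∀ x ∈ X, ∀ y ∈ X, F (x * y) = F x + F y) (h2 : ∀ y ∈ Y, F y = 0) :
    ∃ φ : S →+ T, ∀ x ∈ X, φ (π x) = F x := by
  choose σ h3 h4 using h.surj
  have h5 : ∀ x ∈ X, F (σ (π x)) = F x := fun x hx => by
    have h5 := (h.eq_iff (h3 _) hx).1 (h4 _)
    conv_rhs => rw [← mul_inv_cancel_left (σ (π x)) x, h1 _ (h3 _) _ (h.le h5), h2 _ h5, add_zero]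
  refine ⟨AddMonoidHom.mk' (fun s => F (σ s)) fun a b => ?_, h5⟩
  rw [← h1 _ (h3 a) _ (h3 b), ← h5 _ (X.mul_mem (h3 a) (h3 b)), h.map_mul _ (h3 a) _ (h3 b), h4, h4]

theorem lift₂ (h : IsSec X Y π) {S' : Type u} [AddCommGroup S'] {X' Y' : Subgroup G} {π' : G → S'}
    (h' : IsSec X' Y' π') {T : Type*} [AddCommGroup T] (F : G → G → T)
    (h1 : ∀ x ∈ X, ∀ y ∈ X, ∀ z ∈ X', F (x * y) z = F x z + F y z)
    (h2 : ∀ y ∈ Y, ∀ z ∈ X', F y z = 0)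
    (h3 : ∀ x ∈ X, ∀ y ∈ X', ∀ z ∈ X', F x (y * z) = F x y + F x z)
    (h4 : ∀ x ∈ X, ∀ y ∈ Y', F x y = 0) :
    ∃ φ : S →+ S' →+ T, ∀ x ∈ X, ∀ y ∈ X', φ (π x) (π' y) = F x y := by
  choose ψ hψ using fun x (hx : x ∈ X) => h'.lift (F x) (h3 x hx) (h4 x hx)
  obtain ⟨φ, hφ⟩ := h.lift (fun x => if hx : x ∈ X then ψ x hx else 0) (fun x hx y hy => by
    rw [dif_pos hx, dif_pos hy, dif_pos (X.mul_mem hx hy)]
    exact AddMonoidHom.ext (h'.ind fun z hz => by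
      rw [AddMonoidHom.add_apply, hψ _ _ z hz, hψ _ _ z hz, hψ _ _ z hz, h1 x hx y hy z hz]))
    fun y hy => by
      rw [dif_pos (h.le hy)]
      exact AddMonoidHom.ext (h'.ind fun z hz => by rw [hψ _ _ z hz, h2 y hy z hz]; rfl)
  exact ⟨φ, fun x hx y hy => by rw [hφ x hx, dif_pos hx, hψ _ _ y hy]⟩

theorem conj_eq (h : IsSec X Y π) [X.Normal] {g x : G} (hx : x ∈ X) (h1 : ⁅x, g⁆ ∈ Y) :
    π (g * x * g⁻¹) = π x := by
  have h2 : g * x * g⁻¹ = ⁅x, g⁆⁻¹ * x := by rw [commutatorElement_def]; group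
  rw [h2, h.map_mul _ (h.le (Y.inv_mem h1)) _ hx, h.zero (Y.inv_mem h1), zero_add]

theorem comm_eq (h : IsSec X Y π) [hX : X.Normal] (g : G) {x : G} (hx : x ∈ X) :
    π ⁅x, g⁆ = π x - π (g * x * g⁻¹) := by
  have h2 : ⁅x, g⁆ = x * (g * x * g⁻¹)⁻¹ := by rw [commutatorElement_def]; group
  rw [h2, h.map_mul _ hx _ (X.inv_mem (hX.conj_mem x hx g)), h.inv (hX.conj_mem x hx g),
    sub_eq_add_neg]

theorem exists_conj (h : IsSec X Y π) [hX : X.Normal] [hY : Y.Normal] (g : G) :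
    ∃ σ : S →+ S, Function.Bijective σ ∧ ∀ x ∈ X, σ (π x) = π (g * x * g⁻¹) := by
  obtain ⟨σ, hσ⟩ := h.lift (fun x => π (g * x * g⁻¹)) (fun x hx y hy => by
    rw [← h.map_mul _ (hX.conj_mem x hx g) _ (hX.conj_mem y hy g)]; congr 1; group)
    fun y hy => h.zero (hY.conj_mem y hy g)
  have := h.finite
  refine ⟨σ, Finite.surjective_iff_bijective.1 (h.ind fun x hx =>
    ⟨π (g⁻¹ * x * g), by rw [hσ _ (hX.conj_mem' x hx g)]; congr 1; group⟩), hσ⟩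

theorem fpf (h : IsSec X Y π) [X.Normal] {g : G} {σ : S →+ S}
    (hσ : ∀ x ∈ X, σ (π x) = π (g * x * g⁻¹)) (hf : Fpf g X Y) : ∀ s, σ s = s → s = 0 :=
  h.ind fun x hx h1 => h.zero (hf x hx ((h.eq_zero _ (comm_mem_left hx g)).1 (by
    rw [h.comm_eq g hx, ← hσ x hx, h1, sub_self])))

theorem exists_char (h : IsSec X Y π) {l : LinC X.subtype} (hl : ∀ y ∈ Y, ev l y = 1) :
    ∃ φ : S →+ Additive ℂˣ, ∀ x ∈ X, φ (π x) = Additive.ofMul (ev l x) :=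
  h.lift _ (fun x hx y hy => by rw [ev_mul l hx hy]; rfl) fun y hy => by rw [hl y hy]; rfl

theorem eq_top (h : IsSec X Y π) (D : AddSubgroup S) (hD : ∀ l : LinC X.subtype,
    (∀ y ∈ Y, ev l y = 1) → l ≠ 1 → ∃ x ∈ X, π x ∈ D ∧ ev l x ≠ 1) : D = ⊤ := by
  let E := (D.toSubgroup.comap h.hom).map X.subtype
  have h1 : ∀ x ∈ X, x ∈ E ↔ π x ∈ D := fun x hx =>
    ⟨by rintro ⟨y, hy, rfl⟩; exact hy, fun h0 => ⟨⟨x, hx⟩, h0, rfl⟩⟩
  refine eq_top_iff.2 fun s _ => h.ind (P := fun s => s ∈ D) (fun x hx => by_contra fun h0 => ?_) s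
  obtain ⟨l, h2, h3⟩ := exists_lin (Y := E) (commutator_le.2 fun a ha b hb => (h1 _ (X.mul_mem
    (X.mul_mem (X.mul_mem ha hb) (X.inv_mem ha)) (X.inv_mem hb))).2 (by
      rw [h.map_mul _ (X.mul_mem (X.mul_mem ha hb) (X.inv_mem ha)) _ (X.inv_mem hb),
        h.map_mul _ (X.mul_mem ha hb) _ (X.inv_mem ha), h.map_mul _ ha _ hb, h.inv ha, h.inv hb]
      simp)) hx (mt (h1 x hx).1 h0)
  obtain ⟨y, hy, h4, h5⟩ := hD l (fun y hy => h2 y ((h1 y (h.le hy)).2 (h.zero hy ▸ D.zero_mem)))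
    fun h0 => h3 (by rw [h0, ev_one'])
  exact h5 (h2 y ((h1 y hy).2 h4))

theorem exists_br (h : IsSec X Y π) {S' S'' : Type u} [AddCommGroup S'] [AddCommGroup S'']
    {X' Y' X'' Y'' : Subgroup G} {π' : G → S'} {π'' : G → S''} (h' : IsSec X' Y' π')
    (h'' : IsSec X'' Y'' π'') [hX : X''.Normal] (h1 : ⁅X, X'⁆ ≤ X'') (h2 : ⁅Y, X'⁆ ≤ Y'')
    (h3 : ⁅X, Y'⁆ ≤ Y'') (h4 : ⁅X'', X⁆ ≤ Y'') (h5 : ⁅X'', X'⁆ ≤ Y'') :
    ∃ β : S →+ S' →+ S'', ∀ x ∈ X, ∀ y ∈ X', β (π x) (π' y) = π'' ⁅x, y⁆ := by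
  have h6 : ∀ {x y}, x ∈ X → y ∈ X' → ⁅x, y⁆ ∈ X'' := fun hx hy =>
    h1 (commutator_mem_commutator hx hy)
  refine h.lift₂ h' (fun x y => π'' ⁅x, y⁆) (fun x hx y hy z hz => ?_)
    (fun y hy z hz => h''.zero (h2 (commutator_mem_commutator hy hz))) (fun x hx y hy z hz => ?_)
    fun x hx y hy => h''.zero (h3 (commutator_mem_commutator hx hy))
  · rw [comm_mul_left, h''.map_mul _ (hX.conj_mem _ (h6 hy hz) x) _ (h6 hx hz),
      h''.conj_eq (h6 hy hz) (h4 (commutator_mem_commutator (h6 hy hz) hx)), add_comm]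
  · rw [comm_mul_right, h''.map_mul _ (h6 hx hy) _ (hX.conj_mem _ (h6 hx hz) y),
      h''.conj_eq (h6 hx hz) (h5 (commutator_mem_commutator (h6 hx hz) hy))]

end IsSec

theorem hall_witt (x y z : G) :
    ⁅⁅x, y⁆, y * z * y⁻¹⁆ * ⁅⁅y, z⁆, z * x * z⁻¹⁆ * ⁅⁅z, x⁆, x * y * x⁻¹⁆ = 1 := by
  simp only [commutatorElement_def]; group

/-- If all characters over the second layer are fully ramified, `|Q' : [Q', Q]|` is a proper
divisor of `|Q : Q'|`. -/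
theorem exists_br_surj {Q : Subgroup G} [Q.Normal]
    (h : ∀ l : LinC (⁅Q, Q⁆ : Subgroup G).subtype, (∀ y ∈ ⁅⁅Q, Q⁆, Q⁆, ev l y = 1) → l ≠ 1 →
      ∀ x ∈ Q, x ∉ ⁅Q, Q⁆ → ∃ y ∈ Q, ⁅x, y⁆ ∈ ⁅Q, Q⁆ ∧ ev l ⁅x, y⁆ ≠ 1)
    {W A : Type u} [AddCommGroup W] [AddCommGroup A] {π : G → W} {π' : G → A}
    (hW : IsSec Q ⁅Q, Q⁆ π) (hA : IsSec ⁅Q, Q⁆ ⁅⁅Q, Q⁆, Q⁆ π') :
    ∃ β : W →+ W →+ A, (∀ x ∈ Q, ∀ y ∈ Q, β (π x) (π y) = π' ⁅x, y⁆) ∧ (∀ w, β w w = 0) ∧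
      ∀ w, w ≠ 0 → Function.Surjective (β w) := by
  obtain ⟨β, hβ⟩ := hW.exists_br hW hA le_rfl le_rfl (commutator_comm _ _).le le_rfl le_rfl
  refine ⟨β, hβ, hW.ind fun x hx => by rw [hβ x hx x hx, commutatorElement_self, hA.one],
    hW.ind fun x hx h0 => AddMonoidHom.range_eq_top.1 (hA.eq_top _ fun l h1 h2 => ?_)⟩
  obtain ⟨y, hy, h3, h4⟩ := h l h1 h2 x hx (mt hW.zero h0)
  exact ⟨_, h3, ⟨π y, hβ x hx y hy⟩, h4⟩

end Cfsg.Nd

set_option linter.all false in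
theorem Cfsg.Rz.Nd_Sec_0 : True := by
  have := @_root_.Cfsg.Nd.IsSec.hom.congr_simp.{0}
  have := @_root_.Cfsg.Nd.IsSec.hom.eq_def.{0}
  have := @_root_.Cfsg.Nd.IsSec.hom.eq_1.{0}
  have := @_root_.Cfsg.Nd.IsSec.hom.fun_cases
  have := @_root_.Cfsg.Nd.IsSec.mk.congr_simp.{0}
  trivial
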