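import Cfsg.Agent.Nd.Mod
import Cfsg.Agent.Nd.Sec

/-!
# The coprime case: `|N'|` and `|N : M|` are coprime
-/

set_option autoImplicit false
set_option linter.unusedSectionVars false

namespace Cfsg.Nd

open scoped commutatorElement Classical ComplexConjugate
open Subgroup MulAction

universe u

variable {G : Type u} [Group G] [Finite G]

theorem relIndex_eq_card (Y X : Subgroup G) [Y.Normal] :
    Y.relIndex X = Nat.card (X.map (QuotientGroup.mk' Y)) := by
  rw [← relIndex_ker, QuotientGroup.ker_mk']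

theorem Fpf.not_dvd {p : ℕ} [Fact p.Prime] {t : G} (ht : IsPGroup p (zpowers t)) {X Y : Subgroup G}
    [X.Normal] [Y.Normal] (h : Fpf t X Y) : ¬ p ∣ Y.relIndex X := fun hp => by
  let π := QuotientGroup.mk' Y
  let _ := MulDistribMulAction.compHom (X.map π)
    ((MulAut.conjNormal (H := X.map π)).comp (π.comp (zpowers t).subtype))
  obtain ⟨⟨_, n, hn, rfl⟩, h1, h2⟩ := ht.exists_fixed_point_of_prime_dvd_card_of_fixed_point
    (X.map π) (relIndex_eq_card Y X ▸ hp) (a := 1) fun g => smul_one g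
  have h3 : π t * π n * (π t)⁻¹ = π n := congrArg Subtype.val (h1 ⟨t, mem_zpowers t⟩)
  refine h2 (Subtype.ext ((QuotientGroup.eq_one_iff n).2 (h n hn ?_)).symm)
  rw [← QuotientGroup.eq_one_iff]
  exact commutatorElement_eq_one_iff_mul_comm.2 (mul_inv_eq_iff_eq_mul.1 h3).symm

theorem index_stab_sub {V : Type*} [MulAction G V] {U L : Subgroup G} [U.Normal] (h : L ⊔ U = ⊤)
    {v : V} (hv : U ≤ stabilizer G v) : (stabilizer L v).index = (stabilizer G v).index := by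
  rw [index_stabilizer, index_stabilizer]
  congr 1
  refine Set.Subset.antisymm (orbit_subgroup_subset L v) ?_
  rintro _ ⟨g, rfl⟩
  obtain ⟨l, hl, u, hu, rfl⟩ := mem_sup_of_normal_right.1 (h ▸ mem_top g)
  exact ⟨⟨l, hl⟩, by simp [mul_smul, mem_stabilizer_iff.1 (hv hu)]⟩

theorem relIndex_eq_index {U L I : Subgroup G} [U.Normal] (h : L ⊔ U = ⊤) (hI : U ≤ I) :
    I.relIndex L = I.index := by
  have h1 := index_stab_sub h (v := ((1 : G) : G ⧸ I)) (by rwa [stabilizer_quotient])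
  have h2 : (stabilizer G ((1 : G) : G ⧸ I)).relIndex L = _ := h1
  rwa [stabilizer_quotient] at h2

theorem dvd_relIndex_sub_one {R X Y : Subgroup G} [X.Normal] [Y.Normal]
    (h : ∀ x ∈ R, x ≠ 1 → Fpf x X Y) : Nat.card R ∣ Y.relIndex X - 1 := by
  by_cases h0 : X ≤ Y
  · rw [relIndex_eq_one.2 h0]; exact dvd_zero _
  have h1 : ∀ x ∈ R, x ∈ Y → x = 1 := fun x hx hY => by_contra fun h1 =>
    h0 fun n hn => h x hx h1 n hn (comm_mem_right n hY)
  have h2 : Y.relIndex R = Nat.card R := by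
    rw [← inf_relIndex_right, show Y ⊓ R = ⊥ from eq_bot_iff.2 fun x hx => h1 x hx.2 hx.1,
      relIndex_bot_left]
  rw [← h2, relIndex_eq_card, relIndex_eq_card]
  refine Agent.FT.SemiRegular.card_dvd ?_ le_normalizer_of_normal
  rintro _ ⟨x, hx, rfl⟩ h3
  rw [eq_bot_iff]
  rintro _ ⟨⟨n, hn, rfl⟩, h4⟩
  refine (QuotientGroup.eq_one_iff n).2 (h x hx (fun h5 => h3 (by rw [h5, map_one])) n hn ?_)
  rw [← QuotientGroup.eq_one_iff]
  exact commutatorElement_eq_one_iff_mul_comm.2 (mem_centralizer_singleton_iff.1 h4)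

theorem sq_le_of_dvd {r a e : ℕ} (ha : 1 < a) (he : 1 < e) (h1 : r ∣ a - 1) (h2 : r ∣ a * e - 1) :
    (r + 1) ^ 2 ≤ a * e := by
  obtain ⟨a, rfl⟩ := Nat.exists_eq_add_of_lt ha
  obtain ⟨e, rfl⟩ := Nat.exists_eq_add_of_lt he
  have h3 : (1 + a + 1) * (1 + e + 1) - 1 = (1 + a + 1 - 1) * (1 + e + 1) + (1 + e) :=
    Nat.sub_eq_of_eq_add (by simp only [Nat.add_sub_cancel]; ring)
  rw [h3] at h2
  have h4 := Nat.le_of_dvd (by omega) ((Nat.dvd_add_right (h1.mul_right _)).1 h2)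
  have h5 := Nat.le_of_dvd (by omega) h1
  rw [sq]
  exact Nat.mul_le_mul (by omega) (by omega)

theorem exists_card_eq {W A : Type*} [AddCommGroup W] [AddCommGroup A] [Finite W] {φ : W →+ A}
    (h : Function.Surjective φ) : Nat.card W = Nat.card A * Nat.card φ.ker := by
  rw [← φ.ker.index_mul_card, AddSubgroup.index_ker, AddMonoidHom.range_eq_top.2 h,
    AddSubgroup.card_top]

theorem exists_ext {U L : Subgroup G} [U.Normal] (h : L ⊔ U = ⊤) (hi : U ⊓ L = ⊥)
    (l : LinC U.subtype) : ∃ m : inertia U.subtype l.irr →* ℂˣ,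
      ∀ u : U, m (toInertia U.subtype l.irr u) = l.hom u := by
  obtain ⟨m, hm, -⟩ := exists_monoidHom_extension_of_supplement (f := toInertia U.subtype l.irr)
    l.hom (fun g n => by
      have h1 := mem_inertia_iff_forall_conjAut.1
        ((inertia_toInertia U.subtype l.irr).symm ▸ mem_top g) n
      exact Units.ext h1) (L.subgroupOf _) (by
      rw [range_toInertia, range_subtype]
      exact subgroupOf_sup_subgroupOf_of_le (le_inertia_subtype U _) h) fun n hn => by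
      rw [(Subtype.ext (mem_bot.1 (hi ▸ ⟨n.2, hn⟩)) : n = 1), map_one]
  exact ⟨m, hm⟩

theorem comm_le_kr_of_compl {U L : Subgroup G} [U.Normal] (h : L ⊔ U = ⊤) (hi : U ⊓ L = ⊥)
    {l : LinC U.subtype} (hc : ⁅stabilizer G l, stabilizer G l⁆ ≤ U) :
    ⁅stabilizer G l, stabilizer G l⁆ ≤ kr l := by
  obtain ⟨m, hm⟩ := exists_ext h hi l
  rw [LinC.stabilizer_eq] at hc ⊢
  refine commutator_le.2 fun a ha b hb => ?_
  have h1 := hc (commutator_mem_commutator ha hb)
  refine mem_kr.2 ⟨h1, ?_⟩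
  rw [ev_of_mem _ h1, ← hm]
  exact linear_apply_of_mem_commutator m
    (commutator_mem_commutator (mem_top (⟨a, ha⟩ : inertia U.subtype l.irr)) (mem_top ⟨b, hb⟩))

namespace Cam

variable {N M : Subgroup G} [N.Normal] [M.Normal]

theorem coprime (c : Cam N M) : N.index.Coprime (M.relIndex N) := by
  refine Nat.coprime_of_dvd fun p hp h1 => ?_
  have := Fact.mk hp
  obtain ⟨P⟩ : Nonempty (Sylow p G) := inferInstance
  obtain ⟨t, ht, h2⟩ := SetLike.not_le_iff_exists.1 fun h0 : (P : Subgroup G) ≤ N =>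
    P.not_dvd_index (h1.trans (index_dvd_of_le h0))
  exact (c.fpf t h2).not_dvd (P.2.to_le (zpowers_le.2 ht))

theorem relIndex_eq (c : Cam N M) : ⁅N, N⁆.relIndex (commutator G) = M.relIndex N := by
  have h1 : commutator G ⊔ M = N := le_antisymm (sup_le c.comm_le c.le) fun n hn => by
    obtain ⟨x, hx, m, hm, rfl⟩ := c.decomp hn
    exact mul_mem_sup hx hm
  rw [← c.inf_eq, inf_relIndex_left, ← h1, relIndex_sup_right]

theorem one_lt (c : Cam N M) : M.relIndex N ≠ 1 := mt relIndex_eq_one.1 c.not_le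

theorem fpf_of_coprime (c : Cam N M) {U : Subgroup G} [U.Normal] (hU : U ≤ ⁅N, N⁆) {x : G}
    (hx : x ∈ N) (hxM : x ∉ M) (hc : (Nat.card U).Coprime (orderOf x)) : Fpf x U ⊥ := by
  refine fpf_iff_surj.2 fun u hu => ?_
  obtain ⟨n, -, hn⟩ := c.camina hx hxM (hU (inv_mem hu))
  have h1 : ⁅n, x⁆ = u := by rw [← commutatorElement_inv, hn, inv_inv]
  obtain ⟨m, hm, h2⟩ := (isCoprimeAction_zpowers (le_normalizer_of_normal (mem_top x))
    hc).exists_mul_mem_centralizer (x := n⁻¹) fun a ha => by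
      rw [inv_inv]
      exact mem_cz.1 (zpowers_le.2 (mem_cz.2 (h1 ▸ hu)) ha)
  have h3 := h2 x (mem_zpowers x)
  refine ⟨m, hm, mem_bot.2 ?_⟩
  rw [← h1, inv_mul_eq_one, commutatorElement_def, commutatorElement_def]
  calc _ = n * (n⁻¹ * m * x) * m⁻¹ * x⁻¹ := by group
    _ = _ := by rw [← h3]; group

theorem deg_of_le_ker (c : Cam N M) {χ : IrrCharacter G} (h : ⁅N, N⁆ ≤ charKer χ.1) :
    charDegree χ.1 ∈ ({1, N.index} : Set ℕ) := by
  obtain ⟨θ, hθ⟩ := χ.exists_liesOver_below N.subtype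
  rw [deg_of_cyc c.cyc hθ]
  exact c.lin_deg (θ.commutator_le_charKer_iff'.1 fun x hx =>
    (χ.isCharacter.comp N.subtype).charKer_le_of_ip_ne_zero θ hθ (by
      rw [χ.isCharacter.charKer_comp]; exact h (coe_mem_comm hx)))

/-- The splitting in the coprime case. -/
theorem exists_split [Group.IsSolvable G] (c : Cam N M)
    (hc : (Nat.card (⁅N, N⁆ : Subgroup G)).Coprime (M.relIndex N)) :
    ∃ (R L : Subgroup G) (t : L) (_ : (R.subgroupOf L).Normal), R ≤ L ∧ R ⊔ ⁅N, N⁆ = commutator G ∧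
      Nat.card R = M.relIndex N ∧ L ⊔ ⁅N, N⁆ = ⊤ ∧ ⁅N, N⁆ ⊓ L = ⊥ ∧
      (∀ x ∈ R, x ≠ 1 → Fpf x ⁅N, N⁆ ⊥) ∧
      FrH (R.subgroupOf L) (centralizer {t}) (M.subgroupOf L) := by
  have hU : ⁅N, N⁆ ≤ commutator G := commutator_mono le_top le_top
  obtain ⟨R, h1, h2, h3, h4⟩ := exists_complement_in_of_coprime hU le_normalizer_of_normal
    (c.relIndex_eq ▸ hc)
  rw [c.relIndex_eq] at h4
  have h5 : ∀ x ∈ R, x ∈ M → x = 1 := fun x hx hM => mem_bot.1 (h2 ▸ ⟨c.inf_eq ▸ ⟨h1 hx, hM⟩, hx⟩)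
  have h6 : ∀ x ∈ R, x ≠ 1 → Fpf x ⁅N, N⁆ ⊥ := fun x hx h0 =>
    c.fpf_of_coprime le_rfl (c.comm_le (h1 hx)) (mt (h5 x hx) h0)
      (hc.coprime_dvd_right (h4 ▸ R.orderOf_dvd_natCard hx))
  have h7 : R ≠ ⊥ := fun h0 => c.one_lt (by rw [← h4, h0, card_bot])
  let L := normalizer (R : Set G)
  have h8 : L ⊔ ⁅N, N⁆ = ⊤ := eq_top_iff.2 fun g _ => by
    obtain ⟨n, hn, h8⟩ := exists_map_conj_eq_of_coprime_of_le_normalizer (N := ⁅N, N⁆) (H := R)
      (K := R.map (MulAut.conj g).toMonoidHom) le_normalizer_of_normal (h4 ▸ hc)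
      (by rwa [card_map_of_injective (MulAut.conj g).injective, h4]) (by
        rw [h3, ← map_conj_eq_of_normal g ⁅N, N⁆, ← map_conj_sup, h3, map_conj_eq_of_normal])
      (Or.inl inferInstance)
    rw [map_conj_map_conj] at h8
    rw [sup_comm, ← inv_mul_cancel_left n g]
    exact mul_mem_sup (inv_mem hn) (mem_normalizer_of_map_conj_le h8.le)
  have h9 : ⁅N, N⁆ ⊓ L = ⊥ := eq_bot_iff.2 fun u hu => by
    obtain ⟨⟨x, hx⟩, h9⟩ := ne_bot_iff_exists_ne_one.1 h7
    refine h6 x hx (fun h0 => h9 (Subtype.ext h0)) u hu.1 (h2 ▸ ⟨comm_mem_left hu.1 x, ?_⟩)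
    exact R.mul_mem ((mem_normalizer_iff.1 hu.2 x).1 hx) (R.inv_mem hx)
  obtain ⟨t, ht, -⟩ := c.exists_gen
  obtain ⟨l, hl, u, hu, rfl⟩ := mem_sup_of_normal_right.1 (h8 ▸ mem_top t)
  have h10 : l ∉ N := fun h0 => ht (N.mul_mem h0 (commutator_le_left N N hu))
  have h11 : ∀ x ∈ commutator G, x ∈ L → x ∈ R := fun x hx hL => by
    obtain ⟨r, hr, v, hv, rfl⟩ := mem_sup_of_normal_right.1 (h3 ▸ hx)
    have h11 : v = 1 := mem_bot.1 (h9 ▸ ⟨hv, (L.mul_mem_cancel_left (le_normalizer hr)).1 hL⟩)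
    rwa [h11, mul_one]
  have h12 : ∀ b : L, (b : G) ∉ N → Fpf b (R.subgroupOf L) ⊥ := fun b hb r hr h0 =>
    Subtype.ext (mem_bot.1 (h2 ▸ ⟨c.fpf' hb r (h1 hr) (by
      rw [show ⁅(r : G), (b : G)⁆ = 1 from congrArg Subtype.val (mem_bot.1 h0)]
      exact one_mem _), hr⟩))
  have h13 : ∀ g ∈ R.subgroupOf L, g ∈ centralizer {(⟨l, hl⟩ : L)} → g = 1 := fun g hg h0 =>
    h12 ⟨l, hl⟩ h10 g hg (commutatorElement_eq_one_iff_mul_comm.2
      (mem_centralizer_singleton_iff.1 h0))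
  have h14 : ∀ a b : L, ⁅a, b⁆ ∈ R.subgroupOf L := fun a b =>
    h11 _ (commutator_mem_commutator (mem_top (a : G)) (mem_top (b : G))) ⁅a, b⁆.2
  have h15 : M.subgroupOf L ≤ center L := fun z hz => mem_center_iff.2 fun g =>
    (commutatorElement_eq_one_iff_mul_comm.1 (Subtype.ext (mem_bot.1 (h9 ▸
      ⟨c.cent (commutator_mem_commutator hz (mem_top (g : G))), ⁅z, g⁆.2⟩)))).symm
  refine ⟨R, L, ⟨l, hl⟩, inferInstance, le_normalizer, h3, h4, h8, h9, h6, fun a ha b hb => ?_,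
    fun g => ?_, h15, h15.trans (center_le_centralizer _), fun b hb h0 => h12 b fun h16 => h0 ?_,
    h13, fun h0 => h7 ?_⟩
  · exact commutatorElement_eq_one_iff_mul_comm.1 (h13 _ (h14 a b)
      (mul_mem (mul_mem (mul_mem ha hb) (inv_mem ha)) (inv_mem hb)))
  · obtain ⟨r, hr, y, hy, h16⟩ := (h12 ⟨l, hl⟩ h10).surj (h14 g ⟨l, hl⟩)
    refine ⟨r, hr, r⁻¹ * g, mem_centralizer_singleton_iff.2 ?_, by group⟩
    rw [mem_bot.1 hy, mul_one, commutatorElement_def, commutatorElement_def, mul_left_inj] at h16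
    calc _ = r⁻¹ * (g * ⟨l, hl⟩ * g⁻¹) * g := by group
      _ = _ := by rw [h16]; group
  · refine c.fpf l h10 b h16 ?_
    rw [show ⁅(b : G), l⁆ = 1 from congrArg Subtype.val (commutatorElement_eq_one_iff_mul_comm.2
      (mem_centralizer_singleton_iff.1 hb))]
    exact one_mem _
  · rwa [subgroupOf_eq_bot, disjoint_iff, inf_eq_left.2 le_normalizer] at h0

theorem not_inertia_le (c : Cam N M) {U : Subgroup G} [U.Normal] {φ : IrrCharacter U}
    (h : charDegree φ.1 ≠ 1) : ¬ inertia U.subtype φ ≤ N := fun h0 => by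
  obtain ⟨χ, hχ⟩ := φ.exists_liesOver_above U.subtype_injective
  obtain ⟨k, hk⟩ := index_dvd_of_le h0
  have h1 := χ.charDegree_mem
  rw [hχ.charDegree_eq, hk, mul_left_comm, mul_assoc] at h1
  exact h (Nat.eq_one_of_mul_eq_one_left (c.nd.eq_one_of_mul c.index_mem h1 c.index_ne_one))

theorem three_of_coprime [Group.IsSolvable G] (c : Cam N M) {U : Subgroup G} [U.Normal]
    (hUe : ⁅N, N⁆ = U) (hc : (Nat.card U).Coprime (M.relIndex N)) :
    ∃ d, charDegrees G ⊆ {1, N.index, d} := by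
  obtain ⟨R, L, t, hRn, h1, h2, h3, h4, h5, h6, hF⟩ := c.exists_split (hUe ▸ hc)
  have hk := fun χ => c.deg_of_le_ker (χ := χ)
  have hUN : ⁅N, N⁆ ≤ N := commutator_le_left N N
  have hUM := c.der
  have hri := c.relIndex_eq
  rw [hUe] at h2 h4 h5 h6 hk hUN hUM hri
  by_cases hU : U = ⊥
  · refine ⟨1, ?_⟩
    rintro _ ⟨χ, rfl⟩
    exact (hk χ (hU ▸ bot_le)).imp_right Or.inl
  have hR : R ≠ ⊥ := fun h0 => c.one_lt (by rw [← h3, h0, card_bot])
  have h7 : ∀ (X : Subgroup G) [X.Normal], X ≤ U → ∀ l : LinC X.subtype, l ≠ 1 →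
      ∀ x ∈ R, x ∈ stabilizer G l → x = 1 := fun X _ hX l hl x hx h0 => by_contra fun h7 =>
    hl (((h6 x hx h7).mono_left hX).eq_one bot_le (fun y hy => by rw [mem_bot.1 hy, ev_one]) h0)
  have h8 : ∀ (X : Subgroup G) [X.Normal], X ≤ U → ∀ l : LinC X.subtype, l ≠ 1 →
      U ≤ stabilizer G l → ∀ x ∈ commutator G, x ∈ stabilizer G l → x ∈ U :=
    fun X _ hX l hl h0 x hx h8 => by
      obtain ⟨r, hr, u, hu, rfl⟩ := mem_sup_of_normal_right.1 (h2 ▸ hx)
      rwa [h7 X hX l hl r hr ((mul_mem_cancel_right (h0 hu)).1 h8), one_mul]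
  have h9 : ∀ l : LinC U.subtype, l ≠ 1 → ⁅stabilizer G l, stabilizer G l⁆ ≤ kr l := fun l hl =>
    comm_le_kr_of_compl h4 h5 fun x hx => h8 U le_rfl l hl (stab_lin_le l) x
      (commutator_mono le_top le_top hx) ((comm_le_kr (1 : LinC (stabilizer G l).subtype)).trans
        (kr_le _) hx)
  have h10 : ∀ l : LinC U.subtype, (stabilizer L l).index = (stabilizer G l).index := fun l =>
    index_stab_sub h4 (stab_lin_le l)
  have h11 : ∀ l : LinC U.subtype, l ≠ 1 → M.relIndex N ∣ (stabilizer G l).index := fun l hl => by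
    rw [← hri, index_eq_relIndex_mul_index_map _ (commutator G), ← inf_relIndex_right (stabilizer G l),
      le_antisymm (fun x hx => h8 U le_rfl l hl (stab_lin_le l) x hx.2 hx.1)
        (le_inf (stab_lin_le l) (le_sup_right.trans h2.le))]
    exact dvd_mul_right _ _
  have h12 : R.subgroupOf L ⊔ M.subgroupOf L = N.subgroupOf L := by
    refine le_antisymm (sup_le (comap_mono ((le_sup_left.trans h2.le).trans c.comm_le))
      (comap_mono c.le)) fun n hn => ?_
    obtain ⟨x, hx, m, hm, h12⟩ := c.decomp hn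
    obtain ⟨r, hr, u, hu, rfl⟩ := mem_sup_of_normal_right.1 (h2 ▸ hx)
    rw [← mul_inv_cancel_left ⟨r, h1 hr⟩ n]
    refine mul_mem_sup hr (mem_subgroupOf.2 ?_)
    change r⁻¹ * L.subtype n ∈ M
    rw [h12, mul_assoc, inv_mul_cancel_left]
    exact M.mul_mem (hUM hu) hm
  have hcard : Nat.card (LinC U.subtype) = ⁅U, U⁆.relIndex U :=
    (relIndex_commutator_eq_card_linear U).symm
  have hM : ModH (LinC U.subtype) (R.subgroupOf L) (centralizer {t}) (M.subgroupOf L) :=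
    { hF with
      cop := by
        rw [card_subgroupOf_of_le h1, h3, hcard]
        exact (hc.coprime_dvd_left (relIndex_dvd_card _ _)).symm
      semi := fun ρ hρ h0 v hv => by_contra fun h13 =>
        h0 (Subtype.ext (h7 U le_rfl v h13 ρ hρ hv))
      anti := fun v w hv hw h0 => eq_of_index h0 (by
        have h13 := index_dvd_of_le h0
        rw [h10, h10] at h13 ⊢
        exact c.nd.eq_of_dvd (Nd.index_mem (h9 w hw)) (Nd.index_mem (h9 v hv))
          (fun h14 => c.one_lt (Nat.dvd_one.1 (h14 ▸ h11 w hw))) h13)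
      nf := fun v hv h0 => by
        rw [h12, h10, ← relIndex, relIndex_eq_index h4 hUN] at h0
        exact c.one_lt (c.coprime.symm.eq_one_of_dvd
          (c.nd.eq_of_dvd c.index_mem (Nd.index_mem (h9 v hv)) c.index_ne_one h0 ▸ h11 v hv)) }
  have hnil : Group.IsNilpotent U := Agent.FT.SemiRegular.isNilpotent (R := R)
    (fun x hx h0 => eq_bot_iff.2 fun n hn => h6 x hx h0 n hn.1
      (commutatorElement_eq_one_iff_mul_comm.2 (mem_centralizer_singleton_iff.1 hn.2)))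
    le_normalizer_of_normal hR
  have hlt : ∀ X : Subgroup G, X.Normal → X ≤ U → X ≤ ⁅X, U⁆ → X = ⊥ :=
    fun X _ hX h0 => by_contra fun h13 =>
      (commutator_lt_of_le_isNilpotent hX le_rfl le_normalizer_of_normal h13).not_ge h0
  have : Nontrivial (LinC U.subtype) := by
    rw [← Finite.one_lt_card_iff_nontrivial, hcard]
    exact Nat.one_lt_iff_ne_zero_and_ne_one.2 ⟨index_ne_zero_of_finite,
      fun h0 => hU (hlt U inferInstance le_rfl (relIndex_eq_one.1 h0))⟩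
  obtain ⟨T, hTB, hT1, hT2, hT3⟩ := hM.main
  have h13 : ∀ l : LinC U.subtype, l ≠ 1 → (stabilizer G l).index = T.index := fun l hl => by
    obtain ⟨ρ, -, h13⟩ := hT1 l hl
    rw [← h10, ← h13, stabilizer_smul_eq_stabilizer_map_conj, index_map_conj]
  obtain ⟨l₀, hl₀⟩ := exists_ne (1 : LinC U.subtype)
  have h14 : T.index ∈ charDegrees G := h13 l₀ hl₀ ▸ Nd.index_mem (h9 l₀ hl₀)
  have h15 : T.index ≠ 1 := fun h0 => c.one_lt (Nat.dvd_one.1 (h0 ▸ h13 l₀ hl₀ ▸ h11 l₀ hl₀))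
  have hab : ⁅U, U⁆ = ⊥ := by_contra fun hab => by
    have h16 : ⁅U, U⁆ ≤ U := commutator_le_left U U
    obtain ⟨W, _, π, hW⟩ := exists_sec h16 le_rfl
    obtain ⟨A, _, π', hA⟩ := exists_sec (commutator_le_left ⁅U, U⁆ U)
      (commutator_mono le_rfl h16)
    refine (exists_br_surj (fun l h17 hl => ?_) hW hA).elim fun β ⟨_, h17, h18⟩ => ?_
    swap
    · have := hW.finite
      have := hA.finite
      have : Nontrivial W := by
        rw [← Finite.one_lt_card_iff_nontrivial, hW.card, ← hcard]; exact Finite.one_lt_card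
      obtain ⟨w, hw⟩ := exists_ne (0 : W)
      have h19 := exists_card_eq (h18 w hw)
      rw [card_subgroupOf_of_le h1, hcard, ← hW.card, h19] at hT3
      refine hT3.not_ge (sq_le_of_dvd ?_ (Finite.one_lt_card_iff_nontrivial.2
        ((AddSubgroup.nontrivial_iff_exists_ne_zero _).2 ⟨w, h17 w, hw⟩)) ?_ ?_)
      · rw [hA.card]
        exact Nat.one_lt_iff_ne_zero_and_ne_one.2 ⟨index_ne_zero_of_finite,
          fun h0 => hab (hlt _ inferInstance h16 (relIndex_eq_one.1 h0))⟩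
      · rw [hA.card]
        exact dvd_relIndex_sub_one fun x hx h0 => ((h6 x hx h0).mono_left h16).mono_right bot_le
      · rw [← h19, hW.card]
        exact dvd_relIndex_sub_one fun x hx h0 => (h6 x hx h0).mono_right bot_le
    have h18 : ∀ q ∈ U, q • l = l := fun q hq =>
      smul_eq_iff.2 fun x hx => h17 _ (commutator_mem_commutator hx hq)
    refine (fr_of_unique h16 h18 (eq_of_fix h16 (fun s hs t ht => h8 _ h16 l hl h18 _
      (commutator_mem_commutator (mem_top s) (mem_top t)) (mul_mem (mul_mem (mul_mem hs ht)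
        (inv_mem hs)) (inv_mem ht))) fun φ hφ => ?_).2).2
    have h19 := hφ.ne_one le_rfl hl
    obtain ⟨g, h20, h21⟩ := SetLike.not_le_iff_exists.1 (c.not_inertia_le h19)
    obtain ⟨g, hg, u, hu, rfl⟩ := mem_sup_of_normal_right.1 (h4 ▸ mem_top g)
    obtain ⟨ρ, hρ, h22, h23⟩ := hF.exists_conj (t := ⟨g, hg⟩)
      (h12 ▸ fun h0 => h21 (N.mul_mem h0 (hUN hu)))
    let D := ((inertia U.subtype φ).subgroupOf L).map (MulAut.conj ρ).toMonoidHom
    have h24 : D ≤ centralizer {t} := hF.le_of_mem (fun x hx h0 => by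
      have h24 : ρ⁻¹ * x * ρ = 1 := Subtype.ext (h7 _ h16 l hl _ (hRn.conj_mem' x hx ρ)
        (hφ.inertia_le h16 (mem_subgroupOf.1 (mem_map_conj.1 h0))))
      exact conj_eq_one_iff.1 (by rwa [inv_inv])) h22 h23
      (conj_mem_map_conj.2 ((mul_mem_cancel_right (le_inertia_subtype U φ hu)).1 h20))
    obtain ⟨b, h25, h26⟩ := SetLike.not_le_iff_exists.1 fun h0 : D ≤ T => by
      obtain ⟨χ, hχ⟩ := φ.exists_liesOver_above U.subtype_injective
      obtain ⟨k, hk⟩ := index_dvd_of_le h0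
      rw [index_map_conj, ← relIndex, relIndex_eq_index h4 (le_inertia_subtype U φ)] at hk
      have h1 := χ.charDegree_mem
      rw [hχ.charDegree_eq, hk, mul_left_comm, mul_assoc] at h1
      exact h19 (Nat.eq_one_of_mul_eq_one_left (c.nd.eq_one_of_mul h14 h1 h15))
    refine ⟨_, mem_subgroupOf.1 (mem_map_conj.1 h25), fpf_of_lin le_rfl fun v _ hv => by_contra fun h0 =>
      h26 (hT2 b (h24 h25) (ρ • v) (fun h27 => h0 (by rw [← inv_smul_smul ρ v, h27, smul_one])) ?_)⟩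
    have h27 : (ρ⁻¹ * b * ρ) • v = v := hv
    rw [← smul_left_cancel_iff ρ⁻¹, ← mul_smul, ← mul_smul, h27, inv_smul_smul]
  refine ⟨T.index, ?_⟩
  rintro _ ⟨χ, rfl⟩
  obtain ⟨θ, hθ⟩ := χ.exists_liesOver_below U.subtype
  have : IsMulCommutative U := isMulCommutative_iff_forall.2 fun a ha b hb =>
    commutatorElement_eq_one_iff_mul_comm.1 (mem_bot.1 (hab ▸ commutator_mem_commutator ha hb))
  obtain ⟨l, rfl⟩ := LinC.exists_irr_eq (f := U.subtype) θ
  by_cases hl : l = 1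
  · rw [hl, LinC.irr_one] at hθ
    exact (hk χ fun u hu => χ.mem_charKer.2 ((χ.liesOver_one_iff U.subtype).1 hθ ⟨u, hu⟩)).imp_right
      Or.inl
  · exact Or.inr (Or.inr ((deg_eq_index (h9 l hl) hθ).trans (h13 l hl)))

end Cam

end Cfsg.Nd
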