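import Cfsg.Agent.Nd.Cop

/-!
# The case division for solvable `NDAD` groups
-/

set_option autoImplicit false
set_option linter.unusedSectionVars false

namespace Cfsg.Nd

open scoped commutatorElement Classical ComplexConjugate
open Subgroup MulAction

universe u

variable {G : Type u} [Group G] [Finite G]

theorem Cam.exists_compl {N M : Subgroup G} [N.Normal] [M.Normal] (c : Cam N M) {p : ℕ}
    [hp : Fact p.Prime] (h : p ∣ M.relIndex N) :
    ∃ H : Subgroup N, H.Normal ∧ ¬ p ∣ Nat.card H ∧ ∃ k, H.index = p ^ k :=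
  hasNormalPComplement_iff.1 (hasNormalPComplement_of_forall_dvd_charDegree fun _ h1 =>
    hp.out.dvd_of_dvd_pow (h.trans (c.relIndex_dvd h1)))

theorem Cam.three_of_inv {N M : Subgroup G} [N.Normal] [M.Normal] (c : Cam N M) {p : ℕ}
    [hp : Fact p.Prime] (h : p ∣ M.relIndex N) (h' : p ∣ Nat.card (⁅N, N⁆ : Subgroup G))
    (hi : ∀ ψ : IrrCharacter N, charDegree ψ.1 ≠ 1 → inertia N.subtype ψ = ⊤) :
    ∃ d, charDegrees G ⊆ {1, N.index, d} := by
  obtain ⟨H, hH, h1, h2⟩ := c.exists_compl h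
  have h3 : NDAD N := c.nd.of_subset (by
    rintro _ ⟨ψ, rfl⟩
    by_cases h3 : charDegree ψ.1 = 1
    · exact h3 ▸ one_mem_charDegrees
    · have h4 := mem_of_cyc c.cyc ψ
      rwa [hi ψ h3, index_top, one_mul] at h4)
  have := (isPGroup_quotient_iff_index.2 h2).isNilpotent
  obtain ⟨d, hd⟩ := h3.two_of_nil (L := H) fun h0 => h1 (by
    rw [← map_derivedSeries_one, card_map_subtype] at h'
    exact h'.trans (card_dvd_of_le h0))
  refine ⟨d, fun a ha => ?_⟩
  obtain ⟨ψ, rfl⟩ := exists_of_cyc c.cyc ha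
  by_cases h4 : charDegree ψ.1 = 1
  · exact (c.lin_deg h4).imp_right Or.inl
  · rw [hi ψ h4, index_top, one_mul]
    exact (hd ψ.charDegree_mem).imp_right Or.inr

theorem NDAD.cases [Group.IsSolvable G] (h : NDAD G) : (∃ d e, charDegrees G ⊆ {1, d, e}) ∨
    ∃ (N M : Subgroup G) (_ : N.Normal) (_ : M.Normal) (p : ℕ), Cam N M ∧ p.Prime ∧
      p ∣ M.relIndex N ∧ p ∣ Nat.card (⁅N, N⁆ : Subgroup G) := by
  by_cases h1 : commutator G = ⊥
  · exact Or.inl ⟨1, 1, fun a ha => Or.inl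
      (comm_iff_charDegrees_subset.1 (commutator_eq_bot_iff_comm.1 h1) ha)⟩
  by_cases h2 : commutator G ≤ ⁅commutator G, ⊤⁆
  · obtain ⟨N, M, _, _, c⟩ := exists_cam h h1 h2
    by_cases h3 : (Nat.card (⁅N, N⁆ : Subgroup G)).Coprime (M.relIndex N)
    · exact Or.inl ⟨_, c.three_of_coprime rfl h3⟩
    · obtain ⟨p, hp, h4, h5⟩ := Nat.Prime.not_coprime_iff_dvd.1 h3
      exact Or.inr ⟨N, M, _, _, p, c, hp, h5, h4⟩
  · obtain ⟨D, hD, h3⟩ : ∃ D : Subgroup G, D.Normal ∧ D = ⁅commutator G, ⊤⁆ := ⟨_, inferInstance, rfl⟩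
    have : IsMulCommutative ((G ⧸ D) ⧸ center (G ⧸ D)) :=
      Normal.quotient_commutative_iff_commutator_le.2 (by
        rw [commutator_quotient_eq, ← centralizer_univ, ← coe_top,
          ← commutator_eq_bot_iff_le_centralizer,
          ← map_top_of_surjective _ (QuotientGroup.mk'_surjective D), ← map_commutator,
          map_mk'_eq_bot_iff, h3])
    have : Group.IsNilpotent ((G ⧸ D) ⧸ center (G ⧸ D)) := isNilpotent_of_isMulCommutative
    have : Group.IsNilpotent (G ⧸ D) := Subgroup.isNilpotent_of_ker_le_center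
      (QuotientGroup.mk' (center (G ⧸ D))) (by rw [QuotientGroup.ker_mk'])
    obtain ⟨d, hd⟩ := h.two_of_nil (L := D) (h3 ▸ h2)
    exact Or.inl ⟨d, d, fun a ha => (hd ha).imp_right Or.inl⟩

theorem reach {d : ℕ} (hd : d ∈ charDegrees G) {p q : degreePrimes G} (hp : p.1 ∣ d)
    (hq : q.1 ∣ d) : ((degreeGraph G).induce (degreePrimes G)).Reachable p q := by
  by_cases h : p = q
  · rw [h]
  · have h1 : p.1 ≠ q.1 := fun h0 => h (Subtype.ext h0)
    exact SimpleGraph.Adj.reachable ⟨h1, p.2.1, q.2.1, d, hd,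
      ((Nat.coprime_primes p.2.1 q.2.1).2 h1).mul_dvd_of_dvd_of_dvd hp hq⟩

theorem three_of_two [Group.IsSolvable G] (h : NDAD G)
    (h2 : Nat.card ((degreeGraph G).induce (degreePrimes G)).ConnectedComponent = 2) :
    Nat.card (charDegrees G) = 3 := by
  have h3 : ¬ ((degreeGraph G).induce (degreePrimes G)).Preconnected := fun h0 => by
    have := h0.subsingleton_connectedComponent
    have := Finite.card_le_one_iff_subsingleton.2 this
    omega
  have h4 : ∃ d e, charDegrees G ⊆ {1, d, e} := by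
    refine h.cases.elim id ?_
    rintro ⟨N, M, _, _, p, c, hp, h4, h5⟩
    have := Fact.mk hp
    refine ⟨_, c.three_of_inv h4 h5 fun ψ h6 => index_eq_one.1 (by_contra fun h7 => h3 ?_)⟩
    obtain ⟨r, hr, h8⟩ := Nat.exists_prime_and_dvd h7
    have h9 := mem_of_cyc c.cyc ψ
    have h10 := fun (θ : IrrCharacter N) h0 => hp.dvd_of_dvd_pow (h4.trans (c.relIndex_dvd (ψ := θ) h0))
    have h11 : ∀ q : degreePrimes G, ((degreeGraph G).induce (degreePrimes G)).Reachable q
        ⟨r, hr, _, h9, h8.mul_right _⟩ := fun q => by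
      obtain ⟨hq, d, hd, h11⟩ := q.2
      obtain ⟨θ, rfl⟩ := exists_of_cyc c.cyc hd
      by_cases h12 : charDegree θ.1 = 1
      · rcases c.lin_deg h12 with h13 | h13
        · exact (hq.one_lt.ne' (Nat.dvd_one.1 (h13 ▸ h11))).elim
        · exact reach c.index_mem (h13 ▸ h11) (h8.trans (index_dvd_of_le (le_inertia_subtype N ψ)))
      · exact (reach hd h11 (q := ⟨p, hp, _, hd, (h10 θ h12).mul_left _⟩)
          ((h10 θ h12).mul_left _)).trans (reach h9 ((h10 ψ h6).mul_left _) (h8.mul_right _))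
    exact fun a b => (h11 a).trans (h11 b).symm
  obtain ⟨d, e, h4⟩ := h4
  have h5 := (Set.ncard_le_ncard h4 (Set.toFinite _)).trans (Set.ncard_insert_le _ _)
  have h6 := Set.ncard_insert_le d {e}
  rw [Set.ncard_singleton] at h6
  rw [Nat.card_coe_set_eq]
  by_contra h7
  have h8 := ncard_charDegrees_diff_le (G := G) (k := 1) (by omega)
  rw [Set.ncard_le_one ((Set.toFinite _).subset h4).sdiff] at h8
  refine h3 fun a b => ?_
  obtain ⟨ha, x, hx, h9⟩ := a.2
  obtain ⟨hb, y, hy, h10⟩ := b.2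
  exact reach hx h9 (h8 y ⟨hy, fun h0 => hb.one_lt.ne' (Nat.dvd_one.1 (h0 ▸ h10))⟩ x
    ⟨hx, fun h0 => ha.one_lt.ne' (Nat.dvd_one.1 (h0 ▸ h9))⟩ ▸ h10)

end Cfsg.Nd
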