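import Cfsg.Agent.Realize

/-!
# Nonsingular alternating maps

The determinant of an alternating matrix is a square; with the Chevalley-Warning theorem this bounds
the target of an alternating map all of whose partial maps are onto.
-/

set_option autoImplicit false

namespace Cfsg.Nd

open Matrix
open scoped Classical

theorem alt_diag {K ι : Type*} [CommRing K] [Fintype ι] {M : Matrix ι ι K}
    (h : ∀ v, v ⬝ᵥ M *ᵥ v = 0) (i : ι) : M i i = 0 := by
  simpa using h (Pi.single i 1)

theorem alt_symm {K ι : Type*} [CommRing K] [Fintype ι] {M : Matrix ι ι K}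
    (h : ∀ v, v ⬝ᵥ M *ᵥ v = 0) (i j : ι) : M j i = -M i j := by
  have h1 := h (Pi.single i 1 + Pi.single j 1)
  simp only [mulVec_add, add_dotProduct, dotProduct_add, mulVec_single_one, single_one_dotProduct,
    col_apply, alt_diag h] at h1
  linear_combination h1

theorem alt_of {K ι : Type*} [CommRing K] [Fintype ι] {M : Matrix ι ι K} (h1 : ∀ i, M i i = 0)
    (h2 : ∀ i j, M j i = -M i j) (v : ι → K) : v ⬝ᵥ M *ᵥ v = 0 := by
  simp only [dotProduct, mulVec, Finset.mul_sum]
  rw [← Finset.sum_product']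
  refine Finset.sum_involution (fun x _ => x.swap) (fun x _ => ?_) (fun x _ h0 h => h0 ?_)
    (fun x _ => by simp) fun x _ => rfl
  · simp only [Prod.fst_swap, Prod.snd_swap]
    rw [h2 x.1 x.2]; ring
  · have h3 : x.2 = x.1 := congrArg Prod.fst h
    rw [h3, h1]; ring

theorem alt_submatrix {K ι σ : Type*} [CommRing K] [Fintype ι] [Fintype σ] {M : Matrix ι ι K}
    (h : ∀ v, v ⬝ᵥ M *ᵥ v = 0) (e : σ → ι) (v : σ → K) : v ⬝ᵥ M.submatrix e e *ᵥ v = 0 :=
  alt_of (M := M.submatrix e e) (fun i => alt_diag h (e i)) (fun i j => alt_symm h (e i) (e j)) v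

theorem isSquare_det {K : Type*} [Field K] (n : ℕ) : ∀ (ι : Type) [Fintype ι] [DecidableEq ι],
    Fintype.card ι = n → ∀ M : Matrix ι ι K, (∀ v, v ⬝ᵥ M *ᵥ v = 0) → IsSquare M.det := by
  induction n using Nat.strong_induction_on with
  | _ n ih =>
  intro ι _ _ hn M hM
  by_cases h0 : M = 0
  · rcases isEmpty_or_nonempty ι with h | h
    · simp
    · rw [h0, det_zero]; exact IsSquare.zero
  obtain ⟨i, j, hij⟩ : ∃ i j, M i j ≠ 0 := by
    by_contra h
    push Not at h
    exact h0 (Matrix.ext h)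
  have hne : i ≠ j := fun h => hij (h ▸ alt_diag hM i)
  let P : ι → Prop := fun x => x ∈ ({i, j} : Finset ι)
  have hc : Fintype.card {x // P x} = 2 := by
    rw [Fintype.card_coe, Finset.card_pair hne]
  let e : Fin 2 ⊕ {x // ¬ P x} ≃ ι :=
    (Equiv.sumCongr (Fintype.equivFinOfCardEq hc).symm (Equiv.refl _)).trans (Equiv.sumCompl P)
  have h1 := alt_submatrix hM e
  rw [← det_submatrix_equiv_self e, ← fromBlocks_toBlocks (M.submatrix e e)]
  rw [← fromBlocks_toBlocks (M.submatrix e e)] at h1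
  have hJ : (M.submatrix e e).toBlocks₁₁ ≠ 0 := fun h => hij (by
    simpa [toBlocks₁₁, e] using congrFun (congrFun h (Fintype.equivFinOfCardEq hc ⟨i, by simp [P]⟩))
      (Fintype.equivFinOfCardEq hc ⟨j, by simp [P]⟩))
  generalize (M.submatrix e e).toBlocks₁₁ = J, (M.submatrix e e).toBlocks₁₂ = B,
    (M.submatrix e e).toBlocks₂₁ = C, (M.submatrix e e).toBlocks₂₂ = D at h1 hJ
  have h2 : ∀ a, J a a = 0 := fun a => alt_diag h1 (Sum.inl a)
  have h3 : J 1 0 = -J 0 1 := alt_symm h1 (Sum.inl 0) (Sum.inl 1)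
  have h4 : J.det = J 0 1 * J 0 1 := by rw [det_fin_two, h2, h3]; ring
  have h5 : J 0 1 ≠ 0 := fun h => hJ (by
    ext a b
    fin_cases a <;> fin_cases b <;> simp [h2, h3, h])
  have := invertibleOfIsUnitDet J (by rw [h4]; exact (mul_ne_zero h5 h5).isUnit)
  rw [det_fromBlocks₁₁, h4]
  refine IsSquare.mul ⟨_, rfl⟩ (ih _ ?_ _ rfl _ fun v => ?_)
  · rw [← hn, ← Fintype.card_congr e, Fintype.card_sum, Fintype.card_fin]; omega
  · have h6 := h1 (Sum.elim ((-(⅟J * B)) *ᵥ v) v)
    rw [fromBlocks_mulVec, sumElim_dotProduct_sumElim] at h6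
    simp only [Sum.elim_comp_inl, Sum.elim_comp_inr, neg_mulVec, mulVec_neg, mulVec_mulVec,
      ← Matrix.mul_assoc, mul_invOf_self, Matrix.one_mul, neg_add_cancel,
      dotProduct_zero, zero_add] at h6
    rw [sub_mulVec, sub_eq_neg_add, h6]

theorem two_mul_le {K : Type*} [Field K] [Fintype K] {m n : ℕ} (hn : n ≠ 0)
    (M : Fin m → Matrix (Fin n) (Fin n) K) (h1 : ∀ k i, M k i i = 0)
    (h2 : ∀ k i j, M k j i = -M k i j) (h3 : ∀ t : Fin m → K, t ≠ 0 → (∑ k, t k • M k).det ≠ 0) :
    2 * m ≤ n := by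
  let R := MvPolynomial (Fin m) K
  let A : Matrix (Fin n) (Fin n) R := 
    Matrix.of fun i j => ∑ k, MvPolynomial.C (M k i j) * MvPolynomial.X k
  have hA : ∀ t : Fin m → K, MvPolynomial.eval t A.det = (∑ k, t k • M k).det := fun t => by
    rw [RingHom.map_det]
    congr 1
    ext i j
    simp [A, Matrix.sum_apply, mul_comm]
  obtain ⟨F, hF⟩ : IsSquare A.det := by
    obtain ⟨x, hx⟩ := isSquare_det n (Fin n) (Fintype.card_fin n)
      (A.map (algebraMap R (FractionRing R))) (alt_of (fun i => by simp [A, h1]) fun i j => by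
        simp only [map_apply, A, of_apply, h2 _ i j, map_neg, neg_mul, Finset.sum_neg_distrib])
    rw [← RingHom.mapMatrix_apply, ← RingHom.map_det, ← sq] at hx
    obtain ⟨y, rfl⟩ := IsIntegrallyClosed.exists_algebraMap_eq_of_isIntegral_pow (R := R)
      two_pos (hx ▸ isIntegral_algebraMap)
    exact ⟨y, FaithfulSMul.algebraMap_injective R (FractionRing R) (by rw [hx, map_mul, sq])⟩
  have hd : A.det.totalDegree ≤ n := by
    rw [det_apply']
    refine MvPolynomial.totalDegree_finsetSum_le fun σ _ => (MvPolynomial.totalDegree_mul _ _).trans ?_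
    rw [← map_intCast (MvPolynomial.C : K →+* R), MvPolynomial.totalDegree_C, zero_add]
    have h4 : ∀ i j, (A i j).totalDegree ≤ 1 := fun i j => by
      simp only [A, of_apply]
      refine MvPolynomial.totalDegree_finsetSum_le fun k _ =>
        (MvPolynomial.totalDegree_mul _ _).trans ?_
      rw [MvPolynomial.totalDegree_C, MvPolynomial.totalDegree_X]
    refine (MvPolynomial.totalDegree_finsetProd _ _).trans
      ((Finset.sum_le_sum fun i _ => h4 (σ i) i).trans (by simp))
  have h4 : ∀ t : Fin m → K, MvPolynomial.eval t F = 0 ↔ t = 0 := fun t => by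
    rw [← mul_self_eq_zero, ← map_mul, ← hF, hA]
    refine ⟨fun h => by_contra fun h0 => h3 t h0 h, fun h => ?_⟩
    have : Nonempty (Fin n) := ⟨⟨0, Nat.pos_of_ne_zero hn⟩⟩
    simp [h]
  by_contra h5
  have hF0 : F ≠ 0 := fun h => by
    have h6 := (h4 1).1 (by simp [h])
    have : Nonempty (Fin m) := ⟨⟨0, by omega⟩⟩
    exact one_ne_zero h6
  rw [hF, MvPolynomial.totalDegree_mul_of_isDomain hF0 hF0] at hd
  obtain ⟨p, hp⟩ := CharP.exists K
  have h6 := char_dvd_card_solutions p (f := F) (by rw [Fintype.card_fin]; omega)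
  simp only [h4, Fintype.card_unique, Nat.dvd_one] at h6
  exact CharP.char_ne_one K p h6

theorem sq_card_le_aux {W A : Type*} [AddCommGroup W] [AddCommGroup A] [Finite W] [Finite A]
    [Nontrivial W] (p : ℕ) [Fact p.Prime] [Module (ZMod p) W] [Module (ZMod p) A]
    (br : W →+ W →+ A) (h1 : ∀ x, br x x = 0)
    (h2 : ∀ x, x ≠ 0 → Function.Surjective (br x)) : Nat.card A ^ 2 ≤ Nat.card W := by
  have : Module.Finite (ZMod p) A := Module.Finite.of_finite
  have : Module.Finite (ZMod p) W := Module.Finite.of_finite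
  let b := Module.finBasis (ZMod p) W
  let c := Module.finBasis (ZMod p) A
  have hs : ∀ x y, br y x = -br x y := fun x y => by
    have h3 := h1 (x + y)
    simp only [map_add, AddMonoidHom.add_apply, h1, zero_add, add_zero] at h3
    exact eq_neg_of_add_eq_zero_left h3
  have h3 := two_mul_le (Module.finrank_pos (R := ZMod p) (M := W)).ne'
    (fun k => Matrix.of fun i j => c.repr (br (b i) (b j)) k) (fun k i => by simp [h1])
    (fun k i j => by simp [hs (b i)]) fun t ht h0 => by
      obtain ⟨v, hv, h4⟩ := exists_vecMul_eq_zero_iff.2 h0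
      let φ : A →ₗ[ZMod p] ZMod p := ∑ k, t k • c.coord k
      have h5 : (φ.comp ((br (b.equivFun.symm v)).toZModLinearMap p)) = 0 := b.ext fun j => by
        have h6 := congrFun h4 j
        have h7 : br (b.equivFun.symm v) (b j) = ∑ i, v i • br (b i) (b j) := by
          rw [b.equivFun_symm_apply, ← AddMonoidHom.flip_apply, map_sum]
          exact Finset.sum_congr rfl fun i _ => ((br.flip (b j)).toZModLinearMap p).map_smul _ _
        rw [LinearMap.comp_apply, AddMonoidHom.coe_toZModLinearMap, h7, map_sum]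
        simpa [φ, vecMul, dotProduct, Matrix.sum_apply] using h6
      refine ht (funext fun k => ?_)
      obtain ⟨y, hy⟩ := h2 (b.equivFun.symm v) (mt b.equivFun.symm.map_eq_zero_iff.1 hv) (c k)
      have h6 := LinearMap.congr_fun h5 y
      rw [LinearMap.comp_apply, AddMonoidHom.coe_toZModLinearMap, hy] at h6
      simpa [φ, Finsupp.single_apply] using h6
  rw [Module.natCard_eq_pow_finrank (K := ZMod p), Module.natCard_eq_pow_finrank (K := ZMod p) (V := W),
    ← pow_mul, mul_comm]
  exact Nat.pow_le_pow_right Nat.card_pos h3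

theorem sq_card_le {W A : Type*} [AddCommGroup W] [AddCommGroup A] [Finite W] [Finite A]
    [Nontrivial W] (br : W →+ W →+ A) (h1 : ∀ x, br x x = 0)
    (h2 : ∀ x, x ≠ 0 → Function.Surjective (br x)) : Nat.card A ^ 2 ≤ Nat.card W := by
  rcases subsingleton_or_nontrivial A with hA | hA
  · rw [Nat.card_unique, one_pow]; exact Nat.card_pos
  obtain ⟨p, hp, hd⟩ := Nat.exists_prime_and_dvd (Finite.one_lt_card (α := W)).ne'
  have := Fact.mk hp
  obtain ⟨x, hx⟩ := exists_prime_addOrderOf_dvd_card' p hd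
  have hpA : ∀ a : A, p • a = 0 := fun a => by
    obtain ⟨y, rfl⟩ := h2 x (fun h => hp.ne_one (by rw [← hx, h, addOrderOf_zero])) a
    rw [← AddMonoidHom.nsmul_apply, ← map_nsmul, ← hx, addOrderOf_nsmul_eq_zero, map_zero,
      AddMonoidHom.zero_apply]
  have hpW : ∀ y : W, p • y = 0 := fun y => by_contra fun h0 => by
    obtain ⟨a, ha⟩ := exists_ne (0 : A)
    obtain ⟨z, rfl⟩ := h2 _ h0 a
    exact ha (by rw [map_nsmul, AddMonoidHom.nsmul_apply, hpA])
  let _ : Module (ZMod p) A := AddCommGroup.zmodModule hpA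
  let _ : Module (ZMod p) W := AddCommGroup.zmodModule hpW
  exact sq_card_le_aux p br h1 h2

end Cfsg.Nd
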