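import Cfsg.Agent.Nd.Cop
import Cfsg.Agent.Nd.Pf

/-!
# Excluding the fourth layer: the multilinear algebra
-/

set_option autoImplicit false
set_option linter.unusedSectionVars false

namespace Cfsg.Nd

open scoped Classical

variable {W A : Type*} [AddCommGroup W] [AddCommGroup A] [Finite W] [Finite A]

theorem card_le_ker_mul (φ : A →+ W →+ Additive ℂˣ) (D : AddSubgroup W)
    (h : ∀ s, ∀ d ∈ D, φ s d = 0) : Nat.card A ≤ Nat.card φ.ker * D.index := by
  rw [← φ.ker.card_mul_index, AddSubgroup.index_ker]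
  refine Nat.mul_le_mul_left _ ?_
  have h1 := card_linear_trivial_on_of_commutator_le (G := Multiplicative W) (L := D.toSubgroup)
    (by rw [commutator_eq_bot_iff_comm.2 mul_comm]; exact bot_le)
  rw [AddSubgroup.index_toSubgroup] at h1
  rw [← h1]
  refine Nat.card_le_card_of_injective (fun ψ : φ.range => ⟨AddMonoidHom.toMultiplicativeLeft ψ.1,
    fun x hx => ?_⟩) fun a b hab => Subtype.ext (AddMonoidHom.toMultiplicativeLeft.injective
      (congrArg Subtype.val hab))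
  obtain ⟨_, s, rfl⟩ := ψ
  exact congrArg Additive.toMul (h s _ hx)

theorem card_le_ker_mul' {B : Type*} [AddCommGroup B] [Finite B] (φ : W →+ B) :
    Nat.card W ≤ Nat.card φ.ker * Nat.card B := by
  rw [← φ.ker.card_mul_index, AddSubgroup.index_ker]
  exact Nat.mul_le_mul_left _ (AddSubgroup.card_le_card_addGroup _)

/-- The multilinear data of the first four layers. -/
structure Lay (br : W →+ W →+ A) (P : A →+ W →+ W →+ Additive ℂˣ) (τ : A →+ A →+ Additive ℂˣ)
    (X : AddSubgroup W) : Prop where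
  alt : ∀ x, br x x = 0
  surj : ∀ x, x ≠ 0 → Function.Surjective (br x)
  jac : ∀ x y z u, P (br x y) z u + P (br y z) x u + P (br z x) y u = 0
  tau : ∀ s y y', P s y y' - P s y' y = τ s (br y y')
  mem : ∀ y, y ∈ X ↔ ∀ s w, P s w y = 0
  ne : ∃ v, v ∉ X
  lt : ∀ x, x ≠ 0 → Nat.card (P.flip x).ker < Nat.card X

variable {br : W →+ W →+ A} {P : A →+ W →+ W →+ Additive ℂˣ} {τ : A →+ A →+ Additive ℂˣ}
  {X : AddSubgroup W}

theorem br_symm (h : ∀ x, br x x = 0) (x y : W) : br y x = -br x y := by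
  have h3 := h (x + y)
  simp only [map_add, AddMonoidHom.add_apply, h, zero_add, add_zero] at h3
  exact eq_neg_of_add_eq_zero_left h3

theorem Lay.exists_mem [Nontrivial W] (h : Lay br P τ X) : ∃ x ∈ X, x ≠ 0 := by
  obtain ⟨w, hw⟩ := exists_ne (0 : W)
  exact (AddSubgroup.nontrivial_iff_exists_ne_zero X).1 (Finite.one_lt_card_iff_nontrivial.1
    ((Nat.succ_le_of_lt Nat.card_pos).trans_lt (h.lt w hw)))

theorem exists_br_ne [Nontrivial A] {x : W} (h : Function.Surjective (br x)) : ∃ v, br x v ≠ 0 := by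
  obtain ⟨a, ha⟩ := exists_ne (0 : A)
  obtain ⟨v, rfl⟩ := h a
  exact ⟨v, ha⟩

theorem Lay.tau_ne [Nontrivial W] [Nontrivial A] (h : Lay br P τ X) : τ ≠ 0 := by
  rintro rfl
  obtain ⟨x, hx, h0⟩ := h.exists_mem
  have h1 : ∀ s y y', P s y y' = P s y' y := fun s y y' => sub_eq_zero.1 (h.tau s y y')
  have h2 : ∀ y ∈ X, ∀ s u, P s y u = 0 := fun y hy s u => by rw [h1, (h.mem y).1 hy]
  have h3 : ∀ y ∈ X, y ≠ 0 → ∀ z, br y z = 0 → z ∈ X := fun y hy h3 z hz => (h.mem z).2 fun s w => by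
    obtain ⟨v, rfl⟩ := h.surj y h3 s
    have h4 := h.jac y z v w
    rw [hz, h2 y hy, br_symm h.alt y v] at h4
    simpa [h1 _ w] using h4
  have h4 := h.lt x h0
  rw [show (P.flip x).ker = ⊤ from (AddSubgroup.eq_top_iff' _).2 fun s =>
    AddMonoidHom.ext (h2 x hx s), AddSubgroup.card_top] at h4
  obtain ⟨v, hv⟩ := h.ne
  refine h4.not_ge (Nat.card_le_card_of_injective ((br.flip v).comp X.subtype) ?_)
  rw [injective_iff_map_eq_zero]
  exact fun y hy => by_contra fun h6 => hv (h3 y y.2 (fun h7 => h6 (Subtype.ext h7)) v hy)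

theorem Lay.false [Nontrivial W] [Nontrivial A] (h : Lay br P τ X) (t1 : ∀ s t, τ t s = -τ s t)
    (t2 : ∀ s, (∀ t, τ s t = 0) → s = 0) {k : W →+ W} (k1 : Function.Surjective k)
    (k2 : ∀ x y, br (k x) (k y) = br x y) (k3 : ∀ s w y, P s (k w) (k y) = P s w y)
    (k4 : ∀ w, k (k w) = w → w = 0) : False := by
  obtain ⟨x, hx, h0⟩ := h.exists_mem
  have hs := br_symm h.alt
  have f1 : ∀ y ∈ X, ∀ s u, P s y u = τ s (br y u) := fun y hy s u => by
    rw [← h.tau, (h.mem y).1 hy, sub_zero]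
  have f0 : ∀ s, (∀ u, τ s (br x u) = 0) → s = 0 := fun s h1 => t2 s ((h.surj x h0).forall.2 h1)
  have f2 : ∀ y ∈ X, br x y = 0 := fun y hy => t2 _ fun s => by
    rw [t1, ← f1 x hx, (h.mem y).1 hy, neg_zero]
  have f3 : ∀ y ∈ X, ∀ z, br y z = 0 → ∀ v u, P (br y v) z u = τ (br z v) (br y u) :=
    fun y hy z hz v u => by
      have h1 := h.jac y z v u
      rw [hz, hs y v, f1 y hy, map_zero, map_neg] at h1
      simpa [add_neg_eq_zero] using h1.symm.symm |> fun h2 => (show _ = _ by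
        simpa [add_neg_eq_zero] using h2 : τ (br z v) (br y u) = P (br y v) z u).symm
  have f4 : ∀ z, z ≠ 0 → br x z = 0 → ∀ v, br z v = 0 ↔ br x v = 0 := fun z h1 hz v => by
    have h2 : (br x).ker = (br z).ker := AddSubgroup.eq_of_le_of_card_ge (fun y hy => f0 _ fun u => by
      rw [← f3 x hx z hz, AddMonoidHom.mem_ker.1 hy]; simp) (Nat.eq_of_mul_eq_mul_left Nat.card_pos
        ((exists_card_eq (h.surj z h1)).symm.trans (exists_card_eq (h.surj x h0)))).le
    rw [← AddMonoidHom.mem_ker, ← h2, AddMonoidHom.mem_ker]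
  have ki := Finite.injective_iff_surjective.2 k1
  have hkx : k x ∈ X := (h.mem _).2 fun s => k1.forall.2 fun w => by rw [k3, (h.mem x).1 hx]
  have hk0 : k x ≠ 0 := fun h1 => h0 (ki (h1.trans (map_zero k).symm))
  have f5 := f4 _ hk0 (f2 _ hkx)
  have f6 : ∀ z, br x z = 0 → br x (k z) = 0 := fun z hz => (f5 _).1 (by rw [k2, hz])
  obtain ⟨κ, hκ⟩ : ∃ κ : A →+ A, ∀ v, κ (br x v) = br (k x) v :=
    ⟨(br x).liftOfRightInverse _ (Function.rightInverse_surjInv (h.surj x h0))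
      ⟨br (k x), fun v hv => (f5 v).2 hv⟩, fun v => AddMonoidHom.liftOfRightInverse_comp_apply ..⟩
  have sa : ∀ s t, τ (κ s) t = τ s (κ t) := (h.surj x h0).forall₂.2 fun v u => by
    have h1 := h.jac x (k x) v u
    rw [f2 _ hkx, hs x v, f1 x hx, f1 _ hkx, map_zero, map_neg] at h1
    rw [hκ, hκ]
    simpa [add_neg_eq_zero] using h1
  have sb : ∀ z, br x z = 0 → ∀ v, br (k z) v = κ (br z v) := fun z hz v =>
    sub_eq_zero.1 (f0 _ (k1.forall.2 fun u => by
      rw [map_sub, AddMonoidHom.sub_apply, ← f3 x hx _ (f6 z hz), k3, f3 x hx z hz, sa, hκ, k2,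
        sub_self]))
  have sc : ∀ z, br x z = 0 → ∀ s y, P s (k z) y = P (κ s) z y := fun z hz =>
    (h.surj x h0).forall.2 fun v y => by
      rw [f3 x hx _ (f6 z hz), sb z hz, sa, hκ, hκ, f3 _ hkx z ((f5 z).2 hz)]
  have sd : ∀ z, br x z = 0 → ∀ v w y, P (κ (br z v)) (k w) y - P (br z v) w y =
      P (κ (br (k w) v) - br w v) z y := fun z hz v w y => by
    have h1 := h.jac (k z) v (k w) y
    have h2 := h.jac z v w y
    rw [k2, sc z hz, sb z hz, hs (k w) v] at h1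
    rw [hs w v] at h2
    simp only [map_neg, AddMonoidHom.neg_apply, map_sub, AddMonoidHom.sub_apply] at h1 h2 ⊢
    rw [← sub_eq_zero, ← sub_self (0 : Additive ℂˣ)]
    nth_rewrite 1 [← h1]
    rw [← h2]
    abel
  have κ2 : ∀ s, κ (κ s) = s → s = 0 := (h.surj x h0).forall.2 fun v h1 => by
    rw [hκ, ← sb _ (f2 _ hkx), ← sub_eq_zero, ← AddMonoidHom.sub_apply, ← map_sub] at h1
    exact (f4 _ (fun h2 => h0 (k4 x (sub_eq_zero.1 h2))) (by
      rw [map_sub, f6 _ (f2 _ hkx), h.alt, sub_zero]) v).1 h1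
  obtain ⟨v₀, hv₀⟩ := exists_br_ne (h.surj x h0)
  let V := (κ.comp ((br.flip v₀).comp k) - br.flip v₀).ker
  have hV : ∀ w, w ∈ V ↔ κ (br (k w) v₀) - br w v₀ = 0 := fun w => Iff.rfl
  have hZ := exists_card_eq (h.surj x h0)
  have e1 : ∀ s, ∃ z, br x z = 0 ∧ br z v₀ = s := fun s => by
    have h1 : Function.Bijective ((br.flip v₀).comp (br x).ker.subtype) := by
      refine (Nat.bijective_iff_injective_and_card _).2 ⟨?_, le_antisymm ?_ ?_⟩
      · rw [injective_iff_map_eq_zero]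
        exact fun z hz => by_contra fun h1 => hv₀ ((f4 z (fun h2 => h1 (Subtype.ext h2)) z.2 v₀).1 hz)
      · refine Nat.card_le_card_of_injective ((br.flip v₀).comp (br x).ker.subtype) ?_
        rw [injective_iff_map_eq_zero]
        exact fun z hz => by_contra fun h1 => hv₀ ((f4 z (fun h2 => h1 (Subtype.ext h2)) z.2 v₀).1 hz)
      · have h2 := sq_card_le br h.alt h.surj
        rw [hZ, sq] at h2
        exact Nat.le_of_mul_le_mul_left h2 Nat.card_pos
    obtain ⟨z, hz⟩ := h1.2 s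
    exact ⟨z, z.2, hz⟩
  have e2 : ∀ w ∈ V, ∀ s y, P (κ s) (k w) y = P s w y := fun w hw s y => by
    obtain ⟨z, hz, rfl⟩ := e1 s
    rw [← sub_eq_zero, sd z hz, (hV w).1 hw]; simp
  have e3 : ∀ w ∈ V, ∀ v, κ (br (k w) v) = br w v := fun w hw v =>
    sub_eq_zero.1 (f0 _ fun u => by rw [← f1 x hx, ← sd x (h.alt x), e2 w hw, sub_self])
  have e4 : ∀ w ∈ V, k w ∈ V := fun w hw => by
    obtain ⟨v, rfl⟩ := k1 v₀
    rw [hV, k2, k2, e3 w hw, sub_self]
  have e5 : ∀ w ∈ V, ∀ w' ∈ V, br w w' = 0 := fun w hw w' hw' => κ2 _ (by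
    have h1 : br (k w) w' = κ (br w w') := by
      rw [hs, ← e3 w' hw', k2, hs w w', map_neg, neg_neg]
    rw [← h1, e3 w hw])
  have e6 : ∀ w ∈ V, ∀ w' ∈ V, ∀ s, P s w w' = P s w' w := fun w hw w' hw' s => by
    rw [← sub_eq_zero, h.tau, e5 w hw w' hw', map_zero]
  have e7 : ∀ w ∈ V, ∀ w' ∈ V, ∀ s, P s w w' = 0 := fun w hw w' hw' => by
    have h1 : Function.Injective (κ.comp κ - AddMonoidHom.id A) :=
      (injective_iff_map_eq_zero _).2 fun s h1 => κ2 s (sub_eq_zero.1 h1)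
    refine (Finite.injective_iff_surjective.1 h1).forall.2 fun s => ?_
    change P (κ (κ s) - s) w w' = 0
    rw [map_sub, AddMonoidHom.sub_apply, AddMonoidHom.sub_apply, sub_eq_zero, ← e2 w hw s,
      e6 _ (e4 w hw) w' hw', ← e2 w' hw' (κ s), k3, e6 w hw w' hw']
  have e8 : Disjoint V X := AddSubgroup.disjoint_def.2 fun {w} hw hwX => by_contra fun h1 => by
    obtain ⟨v, hv⟩ := exists_br_ne (h.surj w h1)
    exact hv (κ2 _ (by rw [← sb w (f2 w hwX), e3 w hw]))
  have e9 : Nat.card W ≤ Nat.card V * Nat.card A := card_le_ker_mul' _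
  obtain ⟨w, hw, h1⟩ := (AddSubgroup.nontrivial_iff_exists_ne_zero V).1
    (Finite.one_lt_card_iff_nontrivial.1 (by
      have h1 : 1 < Nat.card (br x).ker := Finite.one_lt_card_iff_nontrivial.2
        ((AddSubgroup.nontrivial_iff_exists_ne_zero _).2 ⟨x, h.alt x, h0⟩)
      rw [hZ, mul_comm] at e9
      exact h1.trans_le (Nat.le_of_mul_le_mul_right e9 Nat.card_pos)))
  have e10 := card_le_ker_mul (P.flip w) (V ⊔ X) fun s d hd => by
    obtain ⟨a, ha, b, hb, rfl⟩ := AddSubgroup.mem_sup.1 hd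
    rw [AddMonoidHom.flip_apply, map_add, e7 w hw a ha, (h.mem b).1 hb, add_zero]
  have e11 : Nat.card V * Nat.card X ≤ Nat.card (V ⊔ X : AddSubgroup W) := by
    rw [← Nat.card_prod]
    refine Nat.card_le_card_of_injective (fun a : V × X => (⟨a.1 + a.2,
      AddSubgroup.add_mem_sup a.1.2 a.2.2⟩ : (V ⊔ X : AddSubgroup W))) fun a b hab =>
      AddSubgroup.add_injective_of_disjoint e8 (congrArg Subtype.val hab)
  have e12 := (V ⊔ X).card_mul_index
  have e13 := h.lt w h1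
  have e14 : 0 < Nat.card V * (V ⊔ X).index :=
    Nat.mul_pos Nat.card_pos (Nat.pos_of_ne_zero AddSubgroup.index_ne_zero_of_finite)
  have e15 := Nat.mul_le_mul_right (V ⊔ X).index e11
  have e16 := Nat.mul_le_mul_left (Nat.card V) e10
  nlinarith

end Cfsg.Nd

set_option linter.all false in
theorem Cfsg.Rz.Nd_L4_0 : True := by
  have := @_root_.Cfsg.Nd.Lay.mk.congr_simp.{0, 0}
  trivial
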