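import Cfsg.Agent.Nd.Cop

/-!
# Layers of the lower central series in the pure case
-/

set_option autoImplicit false
set_option linter.unusedSectionVars false

namespace Cfsg.Nd

open scoped commutatorElement Classical ComplexConjugate
open Subgroup MulAction

universe u

variable {G : Type u} [Group G] [Finite G]

/-- The centralizer of the section `X / Y`. -/
def ck (X Y : Subgroup G) [Y.Normal] : Subgroup G := ⨅ x ∈ X, cz x Y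

theorem mem_ck {X Y : Subgroup G} [Y.Normal] {g : G} : g ∈ ck X Y ↔ ∀ x ∈ X, ⁅x, g⁆ ∈ Y := by
  simp only [ck, mem_iInf, mem_cz]

theorem le_ck {X Y Q : Subgroup G} [Y.Normal] (h : ⁅X, Q⁆ ≤ Y) : Q ≤ ck X Y :=
  fun _ hq => mem_ck.2 fun _ hx => h (commutator_mem_commutator hx hq)

theorem ck_le_stab {X Y : Subgroup G} [X.Normal] [Y.Normal] {l : LinC X.subtype}
    (h : ∀ y ∈ Y, ev l y = 1) : ck X Y ≤ stabilizer G l :=
  fun _ hg => smul_eq_iff.2 fun x hx => h _ (mem_ck.1 hg x hx)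

theorem mem_ck_of_forall {X Y : Subgroup G} [X.Normal] [Y.Normal] (hc : ⁅X, X⁆ ≤ Y) {g : G}
    (h : ∀ l : LinC X.subtype, (∀ y ∈ Y, ev l y = 1) → g • l = l) : g ∈ ck X Y :=
  mem_ck.2 fun x hx => by_contra fun h0 =>
    let ⟨l, h1, h2⟩ := exists_lin hc (comm_mem_left hx g) h0
    h2 (smul_eq_iff.1 (h l h1) x hx)

theorem Fpf.surj' {t : G} {X Y : Subgroup G} [Y.Normal] (hX : ∀ n ∈ X, t * n * t⁻¹ ∈ X)
    (h : Fpf t X Y) {x : G} (hx : x ∈ X) : ∃ n ∈ X, ∃ y ∈ Y, x = ⁅n, t⁆ * y := by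
  let π := QuotientGroup.mk' Y
  let Φ : X.map π → X.map π := fun n => ⟨⁅n.1, π t⁆, by
    obtain ⟨n, m, hm, rfl⟩ := n
    refine ⟨⁅m, t⁆, ?_, by simp [map_commutatorElement]⟩
    rw [commutatorElement_def, mul_assoc, mul_assoc, ← mul_assoc t]
    exact X.mul_mem hm (hX _ (X.inv_mem hm))⟩
  have h1 : Function.Injective Φ := by
    rintro ⟨_, a, ha, rfl⟩ ⟨_, b, hb, rfl⟩ hab
    have h2 : ⁅π a, π t⁆ = ⁅π b, π t⁆ := congrArg Subtype.val hab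
    have h3 : π ⁅b⁻¹ * a, t⁆ = 1 := by
      rw [map_commutatorElement, map_mul, map_inv, commutatorElement_def]
      rw [commutatorElement_def, commutatorElement_def] at h2
      calc _ = (π b)⁻¹ * (π a * π t * (π a)⁻¹) * π b * (π t)⁻¹ := by group
        _ = 1 := by rw [mul_right_cancel h2]; group
    exact Subtype.ext (QuotientGroup.eq.2 (h _ (X.mul_mem (X.inv_mem hb) ha)
      ((QuotientGroup.eq_one_iff _).1 h3))).symm
  obtain ⟨⟨_, n, hn, rfl⟩, h2⟩ := Finite.injective_iff_surjective.1 h1 ⟨π x, x, hx, rfl⟩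
  have h3 : ⁅π n, π t⁆ = π x := congrArg Subtype.val h2
  rw [← map_commutatorElement] at h3
  exact ⟨n, hn, _, QuotientGroup.eq.1 h3, by group⟩

section delta
variable {X Q : Subgroup G} [hX : X.Normal] {l : LinC X.subtype}

theorem delta_mul (hl : ∀ q ∈ Q, q • l = l) {x a b : G} (ha : a ∈ Q) (h1 : ⁅x, a⁆ ∈ X)
    (h2 : ⁅x, b⁆ ∈ X) : ev l ⁅x, a * b⁆ = ev l ⁅x, a⁆ * ev l ⁅x, b⁆ := by
  rw [comm_mul_right, ev_mul l h1 (hX.conj_mem _ h2 a), ev_conj (hl a ha)]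

theorem delta_comm (hl : ∀ q ∈ Q, q • l = l) {x : G} (h : ∀ q ∈ Q, ⁅x, q⁆ ∈ X) {e : G}
    (he : e ∈ ⁅Q, Q⁆) : ev l ⁅x, e⁆ = 1 := by
  let δ : Q →* ℂˣ := MonoidHom.mk' (fun q => ev l ⁅x, (q : G)⁆) fun a b =>
    delta_mul hl a.2 (h a a.2) (h b b.2)
  exact linear_apply_of_mem_commutator δ (mem_comm_of_coe
    (x := ⟨e, (comm_le_kr (1 : LinC Q.subtype)).trans (kr_le _) he⟩) he)

theorem delta_triv [hQ : Q.Normal] (hl : ∀ q ∈ Q, q • l = l) {E : Subgroup G} [E.Normal]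
    (hE : E ≤ Q) {t x : G} (ht : Fpf t Q E) (h1 : ∀ e ∈ E, ⁅x, e⁆ ∈ kr l)
    (h2 : ∀ d ∈ Q, ⁅x, d⁆ ∈ X → ⁅x, t * d * t⁻¹⁆ ∈ X ∧ ev l ⁅x, t * d * t⁻¹⁆ = ev l ⁅x, d⁆) :
    ∀ d ∈ Q, ⁅x, d⁆ ∈ X → ev l ⁅x, d⁆ = 1 := fun d hd h3 => by
  obtain ⟨n, ⟨hn, h4⟩, y, hy, rfl⟩ := (ht.mono_left (X' := Q ⊓ cz x X) inf_le_left).surj'
    (fun n hn => mem_inf.2 ⟨hQ.conj_mem n hn.1 t, mem_cz.2 (h2 n hn.1 (mem_cz.1 hn.2)).1⟩) ⟨hd, mem_cz.2 h3⟩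
  have h5 := mem_cz.1 (inv_mem h4)
  obtain ⟨h6, h7⟩ := h2 _ (Q.inv_mem hn) h5
  have h8 := delta_mul hl hn (mem_cz.1 h4) h5
  rw [mul_inv_cancel, commutatorElement_one_right, ev_one] at h8
  have h9 : ⁅n, t⁆ = n * (t * n⁻¹ * t⁻¹) := by rw [commutatorElement_def]; group
  rw [delta_mul hl (comm_mem_left hn t) (h9 ▸ mem_cz.1 (mul_mem h4 (mem_cz.2 h6)))
    (kr_le l (h1 y hy)), (mem_kr.1 (h1 y hy)).2, mul_one, h9, delta_mul hl hn (mem_cz.1 h4) h6, h7,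
    ← h8]

theorem delta_conj {Z : Subgroup G} [hZ : Z.Normal] (hZl : Z ≤ kr l) {t x : G} (ht : t • l = l)
    {d : G} (h : ⁅x⁻¹ * (t⁻¹ * x * t), d⁆ ∈ Z) (hd : ⁅x, d⁆ ∈ X) :
    ⁅x, t * d * t⁻¹⁆ ∈ X ∧ ev l ⁅x, t * d * t⁻¹⁆ = ev l ⁅x, d⁆ := by
  have h1 : ⁅x, t * d * t⁻¹⁆ = t * (x * ⁅x⁻¹ * (t⁻¹ * x * t), d⁆ * x⁻¹ * ⁅x, d⁆) * t⁻¹ := by
    simp only [commutatorElement_def]; group
  obtain ⟨h2, h3⟩ := mem_kr.1 (hZl (hZ.conj_mem _ h x))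
  rw [h1, ev_conj ht, ev_mul l h2 hd, h3, one_mul]
  exact ⟨hX.conj_mem _ (X.mul_mem h2 hd) t, rfl⟩

end delta

theorem fpf_next {X Q : Subgroup G} [hX : X.Normal] [Q.Normal] (hXQ : X ≤ Q) {k : G}
    (hk : k ∈ ck X ⁅X, Q⁆) (h : Fpf k Q ⁅Q, Q⁆) : Fpf k ⁅X, Q⁆ ⁅⁅X, Q⁆, Q⁆ := by
  refine fpf_of_lin (commutator_mono le_rfl (commutator_le_right X Q)) fun l h1 h2 =>
    le_kr_iff.1 (commutator_le.2 fun x hx q hq => ?_)
  have h3 : ∀ q ∈ Q, q • l = l := fun q hq =>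
    smul_eq_iff.2 fun y hy => h1 _ (commutator_mem_commutator hy hq)
  have h4 : ∀ q ∈ Q, ⁅x, q⁆ ∈ ⁅X, Q⁆ := fun q hq => commutator_mem_commutator hx hq
  refine mem_kr.2 ⟨h4 q hq, delta_triv h3 (commutator_le_left Q Q) h (fun e he => mem_kr.2
    ⟨h4 e (commutator_le_left Q Q he), delta_comm h3 h4 he⟩) (fun d hd h5 => delta_conj
      (Z := ⁅⁅X, Q⁆, Q⁆) (fun y hy => mem_kr.2 ⟨commutator_le_left _ _ hy, h1 y hy⟩) h2
      (commutator_mem_commutator ?_ hd) h5) q hq (h4 q hq)⟩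
  simpa [commutatorElement_def, mul_assoc] using mem_ck.1 (inv_mem hk) _ (inv_mem hx)

theorem stab_eq_of_anti {V : Type*} [CommGroup V] [MulDistribMulAction G V] (D : V → Prop)
    (h1 : ∀ v w, D v → D w → D (v * w)) (h2 : ∀ (g : G) v, D v → D (g • v * v⁻¹))
    (h3 : ∀ (g k : G) v, D v → g • k • v = k • g • v)
    (h4 : ∀ v w, D v → D w → v ≠ 1 → w ≠ 1 → stabilizer G v ≤ stabilizer G w →
      stabilizer G v = stabilizer G w) {v w : V} (hv : D v) (hw : D w) (hv1 : v ≠ 1)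
    (hw1 : w ≠ 1) : stabilizer G v = stabilizer G w := by
  have h5 : ∀ u : V, stabilizer G u⁻¹ = stabilizer G u := fun u => by
    ext g
    simp only [mem_stabilizer_iff, smul_inv', inv_inj]
  by_cases h0 : v * w = 1
  · rw [eq_inv_of_mul_eq_one_left h0, h5]
  by_cases h6 : stabilizer G (v * w) ≤ stabilizer G v
  · rw [← h4 _ _ (h1 v w hv hw) hv h0 hv1 h6]
    refine h4 _ _ (h1 v w hv hw) hw h0 hw1 fun s hs => ?_
    have h7 := mem_stabilizer_iff.1 hs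
    rw [smul_mul', mem_stabilizer_iff.1 (h6 hs)] at h7
    exact mul_left_cancel h7
  obtain ⟨s, h7, h8⟩ := SetLike.not_le_iff_exists.1 h6
  have h9 : s • v * v⁻¹ ≠ 1 := fun h0 => h8 (mul_inv_eq_one.1 h0)
  have h10 : ∀ u : V, D u → stabilizer G u ≤ stabilizer G (s • u * u⁻¹) := fun u hu g hg => by
    rw [mem_stabilizer_iff, smul_mul', smul_inv', h3 g s u hu, mem_stabilizer_iff.1 hg]
  have h11 : s • w * w⁻¹ = (s • v * v⁻¹)⁻¹ := by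
    have h12 := mem_stabilizer_iff.1 h7
    rw [smul_mul'] at h12
    rw [eq_inv_iff_mul_eq_one, mul_mul_mul_comm, mul_comm (s • w), h12, ← mul_inv, mul_comm w,
      mul_inv_cancel]
  rw [h4 _ _ hv (h2 s v hv) hv1 h9 (h10 v hv),
    h4 _ _ hw (h2 s w hw) hw1 (h11 ▸ inv_ne_one.2 h9) (h10 w hw), h11, h5]

/-- What is known about a layer `X / Y`. -/
structure Lvl (Q X Y : Subgroup G) [Q.Normal] [X.Normal] [Y.Normal] : Prop where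
  stab : ∀ l : LinC X.subtype, (∀ y ∈ Y, ev l y = 1) → l ≠ 1 → stabilizer G l = ck X Y
  deg : ∀ l : LinC X.subtype, (∀ y ∈ Y, ev l y = 1) → l ≠ 1 → ∀ φ : IrrCharacter Q, Ov φ l →
    charDegree φ.1 ^ 2 = X.relIndex Q ∧ inertia Q.subtype φ = ck X Y
  fr : ∀ l : LinC X.subtype, (∀ y ∈ Y, ev l y = 1) → l ≠ 1 → ∀ x ∈ Q, x ∉ X →
    ∃ y ∈ Q, ⁅x, y⁆ ∈ X ∧ ev l ⁅x, y⁆ ≠ 1
  ex : ∃ k ∈ ck X Y, k ∉ Q
  fpf : ∀ g, g ∉ ck X Y → Fpf g X Y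

theorem Cam.lvl {Q M X : Subgroup G} [Q.Normal] [M.Normal] [X.Normal] (c : Cam Q M)
    (hX : X ≤ ⁅Q, Q⁆) (h : ∀ l : LinC X.subtype, (∀ y ∈ ⁅X, Q⁆, ev l y = 1) → l ≠ 1 →
      ∀ φ : IrrCharacter Q, Ov φ l → ∀ t ∈ inertia Q.subtype φ, t ∉ Q →
      (∀ x ∈ inertia Q.subtype φ, ∃ k : ℤ, ∃ n ∈ Q, x = t ^ k * n) → Fpf t Q X) :
    Lvl Q X ⁅X, Q⁆ := by
  have hXQ := hX.trans (commutator_le_left Q Q)
  have h1 : ∀ l : LinC X.subtype, (∀ y ∈ ⁅X, Q⁆, ev l y = 1) → ∀ q ∈ Q, q • l = l :=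
    fun l hl => le_ck le_rfl |>.trans (ck_le_stab hl)
  have h2 := fun (l : LinC X.subtype) hl hl1 => eq_of_fix hXQ (l := l) (fun s _ t _ =>
    c.comm_le (commutator_mem_commutator (mem_top s) (mem_top t))) fun φ hφ => by
      obtain ⟨t, ht, h2⟩ := Nd.exists_gen c.cyc (le_inertia_subtype Q φ)
      refine ⟨t, ht, h l hl hl1 φ hφ t ht (fun h0 => ?_) h2⟩
      obtain ⟨s, h3, h4⟩ := c.exists_notMem (hφ.ne_one hX hl1)
      obtain ⟨k, n, hn, rfl⟩ := h2 s h3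
      exact h4 (Q.mul_mem (Q.zpow_mem h0 k) hn)
  have h3 := fun (l : LinC X.subtype) hl hl1 => fr_of_unique hXQ (h1 l hl) (h2 l hl hl1).2
  have h4 : ∀ l : LinC X.subtype, (∀ y ∈ ⁅X, Q⁆, ev l y = 1) → l ≠ 1 →
      stabilizer G l = ck X ⁅X, Q⁆ := fun l hl hl1 => le_antisymm (fun g hg =>
    mem_ck_of_forall (commutator_mono le_rfl hXQ) fun m hm => by
      by_cases hm1 : m = 1
      · rw [hm1, smul_one]
      rwa [stab_eq_of_anti (fun l : LinC X.subtype => ∀ y ∈ ⁅X, Q⁆, ev l y = 1)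
        (fun v w hv hw y hy => by rw [ev_mul', hv y hy, hw y hy, one_mul])
        (fun g v hv y hy => by rw [ev_mul', ev_inv', triv_smul hv g y hy, hv y hy, inv_one, one_mul])
        (fun g k v hv => by
          rw [← mul_smul, ← mul_smul, ← h1 _ (triv_smul hv (k * g)) _
            (c.comm_le (commutator_mem_commutator (mem_top g) (mem_top k))), ← mul_smul]
          congr 1
          rw [commutatorElement_def]; group)
        (fun v w hv hw hv1 hw1 h0 => by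
          obtain ⟨φ, hφ⟩ := exists_ov hXQ (h1 v hv)
          obtain ⟨ψ, hψ⟩ := exists_ov hXQ (h1 w hw)
          have h5 := mem_of_cyc c.cyc φ
          have h6 := mem_of_cyc c.cyc ψ
          rw [(h2 v hv hv1).1 φ hφ] at h5
          rw [(h2 w hw hw1).1 ψ hψ, pow_left_injective two_ne_zero (((h3 w hw hw1).1 ψ hψ).trans
            ((h3 v hv hv1).1 φ hφ).symm)] at h6
          exact eq_of_index h0 (Nat.eq_of_mul_eq_mul_right φ.charDegree_pos (c.nd.eq_of_dvd h6 h5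
            (fun h0 => hφ.ne_one hX hv1 (Nat.eq_one_of_mul_eq_one_left h0))
            (Nat.mul_dvd_mul_right (index_dvd_of_le h0) _))))
        hl hm hl1 hm1] at hg) (ck_le_stab hl)
  refine ⟨h4, fun l hl hl1 φ hφ => ⟨(h3 l hl hl1).1 φ hφ, ((h2 l hl hl1).1 φ hφ).trans (h4 l hl hl1)⟩,
    fun l hl hl1 => (h3 l hl hl1).2, ?_, fun g hg => fpf_of_lin (commutator_mono le_rfl hXQ)
      fun l hl h0 => by_contra fun hl1 => hg (h4 l hl hl1 ▸ h0)⟩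
  by_cases h5 : X ≤ ⁅X, Q⁆
  · obtain ⟨g, hg⟩ := c.exists_notMem'
    exact ⟨g, mem_ck.2 fun x hx => h5 (comm_mem_left hx g), hg⟩
  · obtain ⟨x, hx, h6⟩ := SetLike.not_le_iff_exists.1 h5
    obtain ⟨l, hl, h7⟩ := exists_lin (commutator_mono le_rfl hXQ) hx h6
    have hl1 : l ≠ 1 := fun h0 => h7 (by rw [h0, ev_one'])
    obtain ⟨φ, hφ⟩ := exists_ov hXQ (h1 l hl)
    obtain ⟨t, h8, h9⟩ := c.exists_notMem (hφ.ne_one hX hl1)
    exact ⟨t, h4 l hl hl1 ▸ hφ.inertia_le hXQ h8, h9⟩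

theorem Lvl.exists_deg {Q X : Subgroup G} [Q.Normal] [X.Normal] (h : Lvl Q X ⁅X, Q⁆)
    (hc : IsCyclic (G ⧸ Q)) (hX : X ≤ ⁅Q, Q⁆) (h1 : ¬ X ≤ ⁅X, Q⁆) :
    ∃ e, e ≠ 1 ∧ e ^ 2 = X.relIndex Q ∧ (ck X ⁅X, Q⁆).index * e ∈ charDegrees G := by
  have hXQ := hX.trans (commutator_le_left Q Q)
  obtain ⟨x, hx, h6⟩ := SetLike.not_le_iff_exists.1 h1
  obtain ⟨l, hl, h7⟩ := exists_lin (commutator_mono le_rfl hXQ) hx h6
  have hl1 : l ≠ 1 := fun h0 => h7 (by rw [h0, ev_one'])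
  obtain ⟨φ, hφ⟩ := exists_ov hXQ ((le_ck le_rfl).trans (ck_le_stab hl))
  obtain ⟨h2, h3⟩ := h.deg l hl hl1 φ hφ
  exact ⟨_, hφ.ne_one hX hl1, h2, h3 ▸ mem_of_cyc hc φ⟩

theorem Lvl.inf_le {Q X : Subgroup G} [Q.Normal] [X.Normal] (h : Lvl Q X ⁅X, Q⁆)
    (hc : IsCyclic (G ⧸ Q)) (hX : X ≤ ⁅Q, Q⁆) {T : Subgroup G} (hT : ⁅T, T⁆ = ⊥)
    (h1 : ∀ d ∈ charDegrees G, d ≠ 1 → ∀ m, d * m ∣ T.index → m = 1) (h2 : T ⊓ Q ≤ X) :
    T ⊓ Q ≤ ⁅X, Q⁆ := by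
  by_cases h3 : X ≤ ⁅X, Q⁆
  · exact h2.trans h3
  obtain ⟨e, h4, h5, h6⟩ := h.exists_deg hc hX h3
  obtain ⟨b, hb, h7⟩ := SetLike.not_le_iff_exists.1 fun h0 : T ≤ ck X ⁅X, Q⁆ =>
    h4 (h1 _ h6 (fun h0 => h4 (Nat.eq_one_of_mul_eq_one_left h0)) e (by
      rw [index_eq_relIndex_mul_index_map T Q, index_map_mk', mul_assoc, ← sq, h5, mul_comm,
        ← inf_relIndex_right T]
      exact Nat.mul_dvd_mul (relIndex_dvd_of_le_left Q h2)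
        (index_dvd_of_le (sup_le h0 (le_ck le_rfl)))))
  exact fun x hx => h.fpf b h7 x (h2 hx)
    (mem_bot.1 (hT ▸ commutator_mem_commutator hx.1 hb) ▸ one_mem _)

theorem le_center_of_vanish {χ : IrrCharacter G} {Z : Subgroup G} [Z.Normal]
    (h1 : ∀ g, g ∉ Z → χ g = 0) (h2 : charDegree χ.1 ^ 2 = Z.index) : Z ≤ charCenter χ.1 := by
  obtain ⟨θ, hθ⟩ := χ.exists_liesOver_below Z.subtype
  have h3 := hθ.ipNat_comp_comp
  rw [ipNat_eq_of_ip_eq (n := Z.index) (by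
    rw [(ip_comp_subtype_eq_iff χ.1 Z).2 h1, χ.ip_self, mul_one]), ← h2, hθ.charDegree_eq] at h3
  have h4 : 0 < ipNat (χ.1 ∘ Z.subtype) θ.1 ^ 2 * (inertia Z.subtype θ).index :=
    h3 ▸ hθ.charDegree_eq ▸ pow_pos χ.charDegree_pos 2
  have h5 : (inertia Z.subtype θ).index * charDegree θ.1 ^ 2 = 1 :=
    Nat.eq_of_mul_eq_mul_left h4 (by rw [mul_one]; nlinarith [h3])
  have h6 := Nat.eq_one_of_mul_eq_one_right h5
  have h7 := (pow_eq_one_iff_of_nonneg (Nat.zero_le _) two_ne_zero).1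
    (Nat.eq_one_of_mul_eq_one_left h5)
  intro z hz
  have h8 := congrFun (hθ.comp_eq_smul_of_inertia_eq_top (index_eq_one.1 h6)) ⟨z, hz⟩
  rw [χ.mem_charCenter, hθ.charDegree_eq, h6, h7]
  change ‖(χ.1 ∘ Z.subtype) ⟨z, hz⟩‖ = _
  rw [h8, Pi.smul_apply, norm_smul, θ.isCharacter.norm_of_apply_one
    (θ.apply_one_eq_one_iff.2 h7)]
  simp

end Cfsg.Nd

set_option linter.all false in
theorem Cfsg.Rz.Nd_Lvl_0 : True := by
  have := @_root_.Cfsg.Nd.Lvl.congr_simp.{0}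
  have := @_root_.Cfsg.Nd.ck.congr_simp.{0}
  have := @_root_.Cfsg.Nd.ck.eq_def.{0}
  have := @_root_.Cfsg.Nd.ck.fun_cases
  have := @_root_.Cfsg.Nd.Lvl.mk.congr_simp.{0}
  trivial
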