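import Cfsg.Agent.Nd.PGrp
import Cfsg.Agent.Char.FewDeg

/-!
# Solvable `NDAD` groups have at most four degrees and derived length at most three
-/

set_option autoImplicit false
set_option linter.unusedSectionVars false

namespace Cfsg.Nd

open scoped commutatorElement Classical ComplexConjugate
open Subgroup MulAction

universe u

variable {G : Type u} [Group G] [Finite G] {N M : Subgroup G} [hN : N.Normal] [M.Normal] {p : ℕ}
  [hp : Fact p.Prime]

theorem Cam.exists_compl' (c : Cam N M) (h : p ∣ M.relIndex N)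
    (h' : p ∣ Nat.card (⁅N, N⁆ : Subgroup G)) :
    ∃ H : Subgroup G, H.Normal ∧ H ≤ M ∧ ¬ p ∣ Nat.card H ∧ ∃ k, H.relIndex N = p ^ k := by
  obtain ⟨H, hH, h1, k, h2⟩ := c.exists_compl h
  have h3 : (H.map N.subtype).Normal := ⟨by
    rintro _ ⟨x, hx, rfl⟩ g
    refine ⟨⟨_, hN.conj_mem _ x.2 g⟩, mem_of_coprime_orderOf_index ?_, rfl⟩
    rw [h2, ← orderOf_coe, show orderOf (g * (x : G) * g⁻¹) = orderOf (x : G) from
      (MulAut.conj g).orderOf_eq x, orderOf_coe]
    exact ((hp.out.coprime_iff_not_dvd.2 fun h0 =>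
      h1 (h0.trans (H.orderOf_dvd_natCard hx))).symm).pow_right k⟩
  rw [← card_map_subtype] at h1
  refine ⟨_, h3, fun x hx => by_contra fun h4 => h1 (h'.trans (card_dvd_of_le fun u hu => ?_)), h1,
    k, ?_⟩
  · obtain ⟨n, -, rfl⟩ := c.camina (map_subtype_le _ hx) h4 hu
    exact comm_mem_left hx n
  · rw [relIndex, subgroupOf, comap_map_eq_self_of_injective N.subtype_injective, h2]

theorem Cam.out_quo (c : Cam N M) (h : p ∣ M.relIndex N) (h' : p ∣ Nat.card (⁅N, N⁆ : Subgroup G))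
    {H : Subgroup G} [H.Normal] (h1 : H ≤ M) (h2 : ¬ p ∣ Nat.card H) {k : ℕ}
    (h3 : H.relIndex N = p ^ k) :
    Out (N.map (QuotientGroup.mk' H)) (M.map (QuotientGroup.mk' H)) ∧
      ¬ ⁅commutator G, commutator G⁆ ≤ H := by
  have h4 : p ∣ Nat.card (⁅N.map (QuotientGroup.mk' H), N.map (QuotientGroup.mk' H)⁆ :
      Subgroup (G ⧸ H)) := by
    rw [← map_commutator, ← relIndex_eq_card]
    rw [← (H.subgroupOf ⁅N, N⁆).index_mul_card] at h'
    exact (hp.out.dvd_mul.1 h').resolve_right fun h0 => h2 (h0.trans (card_comap_dvd_of_injective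
      _ _ (subtype_injective _)))
  have h5 := (c.quo h1).out (IsPGroup.of_card (by rw [← relIndex_eq_card, h3])) (by
    rwa [relIndex_map_map, QuotientGroup.ker_mk', sup_eq_left.2 h1, sup_eq_left.2 (h1.trans c.le)])
    h4
  refine ⟨h5, fun h0 => hp.out.one_lt.ne' (Nat.dvd_one.1 ?_)⟩
  rwa [h5.2.2.1, commutator_quotient_eq, ← map_commutator, map_mk'_eq_bot_iff.2 h0, card_bot] at h4

theorem Cam.inf_eq_bot [Group.IsSolvable G] (c : Cam N M) {H : Subgroup G} [H.Normal] (h1 : H ≤ M)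
    (h2 : ¬ p ∣ Nat.card H) {k : ℕ} (h3 : H.relIndex N = p ^ k)
    (o : Out (N.map (QuotientGroup.mk' H)) (M.map (QuotientGroup.mk' H)))
    (o' : ¬ ⁅commutator G, commutator G⁆ ≤ H) : H ⊓ commutator G = ⊥ := by
  obtain ⟨U, hUn, hU⟩ : ∃ U : Subgroup G, U.Normal ∧ U = H ⊓ commutator G := ⟨_, inferInstance, rfl⟩
  rw [← hU]
  by_contra h0
  have u1 : U ≤ H := hU ▸ inf_le_left
  have u2 : U ≤ commutator G := hU ▸ inf_le_right
  have u3 : U ≤ ⁅N, N⁆ := c.inf_eq ▸ le_inf u2 (u1.trans h1)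
  have u4 : ∀ n : ℕ, (Nat.card U).Coprime (p ^ n) := fun n =>
    ((hp.out.coprime_iff_not_dvd.2 fun h0 => h2 (h0.trans (card_dvd_of_le u1))).symm).pow_right n
  have h4 : IsPGroup p (N.map (QuotientGroup.mk' H)) :=
    IsPGroup.of_card (by rw [← relIndex_eq_card, h3])
  obtain ⟨j, hj⟩ := (h4.to_le (map_mono c.comm_le)).exists_card_eq
  rw [← relIndex_eq_card, ← inf_relIndex_right, ← hU] at hj
  obtain ⟨R, r1, r2, r3, r4⟩ := exists_complement_in_of_coprime u2 le_normalizer_of_normal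
    (hj ▸ u4 j)
  rw [hj] at r4
  have h5 : normalizer (R : Set G) ⊔ U = ⊤ := eq_top_iff.2 fun g _ => by
    obtain ⟨n, hn, h8⟩ := exists_map_conj_eq_of_coprime_of_le_normalizer (N := U) (H := R)
      (K := R.map (MulAut.conj g).toMonoidHom) le_normalizer_of_normal (r4 ▸ u4 j)
      (by rw [card_map_of_injective (MulAut.conj g).injective, r4]; exact u4 j) (by
        rw [r3, ← map_conj_eq_of_normal g U, ← map_conj_sup, r3, map_conj_eq_of_normal])
      (Or.inl inferInstance)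
    rw [map_conj_map_conj] at h8
    rw [sup_comm, ← inv_mul_cancel_left n g]
    exact mul_mem_sup (inv_mem hn) (mem_normalizer_of_map_conj_le h8.le)
  have h6 : U ⊓ normalizer (R : Set G) = ⊥ := eq_bot_iff.2 fun u hu => by
    obtain ⟨x, hx, h6⟩ := SetLike.not_le_iff_exists.1 fun h0 : R ≤ M => c.not_le fun n hn => by
      obtain ⟨y, hy, m, hm, rfl⟩ := c.decomp hn
      exact M.mul_mem (sup_le h0 (u1.trans h1) (r3.ge hy)) hm
    exact c.fpf_of_coprime u3 (c.comm_le (r1 hx)) h6 ((u4 j).coprime_dvd_right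
      (r4 ▸ R.orderOf_dvd_natCard hx)) u hu.1 (r2 ▸ ⟨comm_mem_left hu.1 x,
        R.mul_mem ((mem_normalizer_iff.1 hu.2 x).1 hx) (R.inv_mem hx)⟩)
  have h7 : ∀ l : LinC U.subtype, l ≠ 1 → (∀ x ∈ commutator G, x • l = l → x ∈ H) ∧
      ∃ b, Fpf b (commutator (G ⧸ H)) ⊥ := fun l hl => by
    have h7 : stabilizer G l ⊓ N ≤ M := fun t ht => by_contra fun h7 => by
      have h8 : t ^ p ^ k ∈ H := h3 ▸ pow_index_mem (H := H.subgroupOf N) ⟨t, ht.2⟩
      have h9 : (Nat.card H).Coprime (p ^ k) := (hp.out.coprime_iff_not_dvd.2 h2).symm.pow_right k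
      refine hl ((c.fpf_of_coprime u3 (pow_mem ht.2 (Nat.card H)) (fun h0 => h7 ?_)
        ((u4 k).coprime_dvd_right (orderOf_dvd_of_pow_eq_one ?_))).eq_one bot_le
        (fun y hy => by rw [mem_bot.1 hy, ev_one]) (pow_mem ht.1 _))
      · rw [← QuotientGroup.eq_one_iff, QuotientGroup.mk_pow] at h0
        rw [← QuotientGroup.eq_one_iff, ← pow_eq_one_iff_of_coprime h9]
        exact ⟨h0, (QuotientGroup.eq_one_iff _).2 (h1 h8)⟩
      · rw [← pow_mul, mul_comm, pow_mul]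
        exact congrArg Subtype.val (pow_card_eq_one' (x := (⟨_, h8⟩ : H)))
    obtain ⟨m, hm⟩ := exists_ext h5 h6 l
    have h8 := c.nd.comm_le_of_extends (θ := l.irr) (η := IrrCharacter.ofLinear m)
      (funext fun u => congrArg Units.val (hm u))
    rw [← LinC.stabilizer_eq, show charDegree l.irr.1 = 1 from IrrCharacter.charDegree_ofLinear _,
      mul_one] at h8
    obtain ⟨h9, h10⟩ := h8 fun h0 => c.not_le fun n hn => h7 ⟨index_eq_one.1 h0 ▸ mem_top n, hn⟩
    obtain ⟨h11, h12⟩ := o.2.2.2 ((stabilizer G l).map (QuotientGroup.mk' H))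
      (by rw [← map_commutator, map_mk'_eq_bot_iff]; exact h10.trans u1) (by
        rintro _ ⟨⟨t, ht, rfl⟩, h11⟩
        have h12 := mem_comap.2 h11
        rw [comap_map_eq, QuotientGroup.ker_mk', sup_eq_left.2 (h1.trans c.le)] at h12
        exact ⟨t, h7 ⟨ht, h12⟩, rfl⟩) fun d hd h11 m h12 => by
      obtain ⟨a, ha⟩ := h12.trans (index_map_dvd _ (QuotientGroup.mk'_surjective H))
      rw [ha, mul_assoc] at h9
      exact Nat.eq_one_of_mul_eq_one_right
        (c.nd.eq_one_of_mul (charDegrees_quotient_subset H hd) h9 h11)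
    refine ⟨fun x hx h13 => (QuotientGroup.eq_one_iff x).1 (h11.le ⟨⟨x, h13, rfl⟩, ?_⟩), h12⟩
    rw [commutator_quotient_eq]
    exact ⟨x, hx, rfl⟩
  obtain ⟨u, hu, h8⟩ := SetLike.exists_of_lt (Group.IsSolvable.commutator_lt_of_ne_bot h0)
  rcases hp.out.eq_two_or_odd' with rfl | ho
  · obtain ⟨l, -, hl⟩ := exists_lin le_rfl hu h8
    obtain ⟨h9, b, hb⟩ := h7 l fun h0 => hl (by rw [h0, ev_one'])
    obtain ⟨b, rfl⟩ := QuotientGroup.mk'_surjective H b
    have h10 : ∀ x ∈ commutator G, x ∉ H → x * x ∈ H → x • l = l⁻¹ := fun x hx h10 h11 =>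
      eq_inv_of_mul_eq_one_left (by_contra fun h12 => h10 ((h7 _ h12).1 x hx (by
        rw [smul_mul', ← mul_smul, stab_lin_le l (hU ▸ ⟨h11, mul_mem hx hx⟩ : x * x ∈ U),
          mul_comm])))
    have h11 := h4.to_le (map_mono c.comm_le)
    obtain ⟨⟨_, x, hx, rfl⟩, h12⟩ := exists_prime_orderOf_dvd_card' (G := (commutator G).map
      (QuotientGroup.mk' H)) 2 ((h11.card_eq_or_dvd).resolve_left fun h0 =>
        o' ((commutator_le_left _ _).trans (map_mk'_eq_bot_iff.1 (card_eq_one.1 h0))))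
    replace h12 : orderOf (QuotientGroup.mk' H x) = 2 := (orderOf_coe _).trans h12
    have h13 : x ∉ H := fun h0 => by
      rw [show QuotientGroup.mk' H x = 1 from (QuotientGroup.eq_one_iff x).2 h0] at h12
      simp at h12
    have h14 : x * x ∈ H := (QuotientGroup.eq_one_iff _).1 (by
      rw [QuotientGroup.mk_mul, ← sq, ← h12]; exact pow_orderOf_eq_one _)
    have h15 := h10 (b * x * b⁻¹) (Normal.conj_mem inferInstance x hx b)
      (fun h0 => h13 (by simpa [mul_assoc] using Normal.conj_mem' inferInstance _ h0 b))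
      (by simpa [mul_assoc] using Normal.conj_mem inferInstance _ h14 b)
    refine h13 ((QuotientGroup.eq_one_iff x).1 (hb _ (commutator_quotient_eq H ▸ ⟨x, hx, rfl⟩)
      ((QuotientGroup.eq_one_iff ⁅x, b⁆).2 (h9 _ (comm_mem_left hx b) ?_))))
    rw [show ⁅x, b⁆ = x * (b * x * b⁻¹)⁻¹ by rw [commutatorElement_def]; group, mul_smul,
      inv_smul_eq_iff.2 (show l = (b * x * b⁻¹) • l⁻¹ by rw [smul_inv', h15, inv_inv]), smul_inv',
      h10 x hx h13 h14, inv_inv]
  · obtain ⟨D, hD, h9⟩ : ∃ D : Subgroup G, D.Normal ∧ D = ⁅U, U⁆ := ⟨_, inferInstance, rfl⟩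
    have h10 := (IsPGroup.of_card r4).map (QuotientGroup.mk' D)
    obtain ⟨i, hi⟩ := h10.exists_card_eq
    have := (Agent.FT.odd_regular_pgroup_cyclic (H := U.map (QuotientGroup.mk' D)) h10
      (hi ▸ ho.pow) (fun h0 => h8 (h9 ▸ map_mk'_eq_bot_iff.1 h0 hu)) le_normalizer_of_normal (by
        rintro _ ⟨x, hx, rfl⟩ h11
        refine eq_bot_iff.2 ?_
        rintro _ ⟨⟨n, hn, rfl⟩, h12⟩
        refine (QuotientGroup.eq_one_iff n).2 (fpf_of_lin h9.ge (fun l _ h13 => by_contra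
          fun h14 => h11 ?_) n hn ((QuotientGroup.eq_one_iff ⁅n, x⁆).1
            (commutatorElement_eq_one_iff_mul_comm.2 (mem_centralizer_singleton_iff.1 h12))))
        rw [mem_bot.1 (r2 ▸ ⟨hU ▸ ⟨(h7 l h14).1 x (r1 hx) h13, r1 hx⟩, hx⟩ : x ∈ (⊥ : Subgroup G)),
          map_one])).isMulCommutative
    have h11 : ⁅U, commutator G⁆ ≤ H := (commutator_le_left _ _).trans u1
    refine o' (r3 ▸ commutator_sup_left_le ((commutator_comm _ _).trans_le (commutator_sup_left_le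
      (commutator_le.2 fun a ha b hb => u1 (commutator_le_left U U (h9.le ?_)))
      ((commutator_mono le_rfl r1).trans h11))) (r3 ▸ h11))
    exact (QuotientGroup.eq_one_iff ⁅a, b⁆).1 (commutatorElement_eq_one_iff_mul_comm.2
      (setLike_mul_comm (s := R.map (QuotientGroup.mk' D)) ⟨a, ha, rfl⟩ ⟨b, hb, rfl⟩))

theorem NDAD.main [Group.IsSolvable G] (h : NDAD G) :
    (∃ d e f, charDegrees G ⊆ {1, d, e, f}) ∧ derivedSeries G 3 = ⊥ := by
  rcases h.cases with ⟨d, e, h1⟩ | ⟨N, M, _, _, p, c, hp, h1, h2⟩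
  · exact ⟨⟨d, e, e, fun a ha => (h1 ha).imp_right (Or.imp_right Or.inl)⟩,
      derivedSeries_three_eq_bot G d e fun χ => h1 χ.charDegree_mem⟩
  · have := Fact.mk hp
    obtain ⟨H, _, h3, h4, k, h5⟩ := c.exists_compl' h1 h2
    obtain ⟨o, o'⟩ := c.out_quo h1 h2 h3 h4 h5
    have h6 := c.inf_eq_bot h3 h4 h5 o o'
    obtain ⟨⟨d, e, f, h7⟩, h8, -⟩ := o
    exact ⟨⟨d, e, f, (cd_quo_central (fun z hz => mem_center_iff.2 fun g =>
      (commutatorElement_eq_one_iff_mul_comm.1 (mem_bot.1 (h6 ▸ ⟨comm_mem_left hz g,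
        commutator_mem_commutator (mem_top z) (mem_top g)⟩))).symm) h6).trans h7⟩,
      der_quo_central h6 h8⟩

end Cfsg.Nd
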