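import Cfsg.Agent.Nd.Cam

/-!
# Modules on which the point stabilizers form an antichain

`L = R ⋊ B` with `B` abelian, `Z ≤ B` central, `L / Z` a Frobenius group; `R` acts semiregularly
on the module `V`.
-/

set_option autoImplicit false
set_option linter.unusedSectionVars false

namespace Cfsg.Nd

open scoped commutatorElement Classical
open Subgroup MulAction

universe u v

variable {L : Type u} [Group L] [Finite L] {V : Type v} [CommGroup V] [Finite V]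
  [MulDistribMulAction L V]

/-- The group-theoretic part of the hypotheses. -/
structure FrH (R B Z : Subgroup L) [R.Normal] : Prop where
  comm : ∀ a ∈ B, ∀ b ∈ B, a * b = b * a
  sup : ∀ g, ∃ ρ ∈ R, ∃ b ∈ B, g = ρ * b
  cent : Z ≤ center L
  le : Z ≤ B
  fpf : ∀ b ∈ B, b ∉ Z → Fpf b R ⊥
  inf : ∀ g ∈ R, g ∈ B → g = 1
  ne : R ≠ ⊥

/-- The hypotheses on the module. -/
structure ModH (V : Type v) [CommGroup V] [MulDistribMulAction L V] (R B Z : Subgroup L)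
    [R.Normal] : Prop extends FrH R B Z where
  cop : (Nat.card R).Coprime (Nat.card V)
  semi : ∀ ρ ∈ R, ρ ≠ 1 → ∀ v : V, ρ • v = v → v = 1
  anti : ∀ v w : V, v ≠ 1 → w ≠ 1 → stabilizer L v ≤ stabilizer L w → stabilizer L v = stabilizer L w
  nf : ∀ v : V, v ≠ 1 → ¬ (R ⊔ Z).index ∣ (stabilizer L v).index

variable {R B Z : Subgroup L} [hR : R.Normal]

theorem FrH.comm_mem (h : FrH R B Z) (g k : L) : ⁅g, k⁆ ∈ R := by
  obtain ⟨ρ, hρ, a, ha, rfl⟩ := h.sup g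
  obtain ⟨σ, hσ, b, hb, rfl⟩ := h.sup k
  rw [comm_mul_left, comm_mul_right a, commutatorElement_eq_one_iff_mul_comm.2 (h.comm a ha b hb)]
  exact R.mul_mem (hR.conj_mem _ (R.mul_mem (comm_mem_right a hσ) (by simp)) ρ) (comm_mem_left hρ _)

theorem FrH.mem_of_comm (h : FrH R B Z) {b g : L} (hb : b ∈ B) (hZ : b ∉ Z) (hg : ⁅g, b⁆ = 1) :
    g ∈ B := by
  obtain ⟨ρ, hρ, a, ha, rfl⟩ := h.sup g
  rw [comm_mul_left, commutatorElement_eq_one_iff_mul_comm.2 (h.comm a ha b hb), mul_one,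
    mul_inv_cancel, one_mul] at hg
  rwa [mem_bot.1 (h.fpf b hb hZ ρ hρ (mem_bot.2 hg)), one_mul]

theorem FrH.eq_one_of_conj (h : FrH R B Z) {b ρ : L} (hb : b ∈ B) (hZ : b ∉ Z) (hρ : ρ ∈ R)
    (h1 : ρ * b * ρ⁻¹ ∈ B) : ρ = 1 :=
  mem_bot.1 (h.fpf b hb hZ ρ hρ (mem_bot.2 (h.inf _ (comm_mem_left hρ b)
    (B.mul_mem h1 (B.inv_mem hb)))))

theorem FrH.le_of_mem (h : FrH R B Z) {D : Subgroup L} (hD : ∀ g ∈ R, g ∈ D → g = 1) {b : L}
    (hb : b ∈ B) (hZ : b ∉ Z) (hbD : b ∈ D) : D ≤ B := fun d hd =>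
  h.mem_of_comm hb hZ (hD _ (h.comm_mem d b)
    (D.mul_mem (D.mul_mem (D.mul_mem hd hbD) (D.inv_mem hd)) (D.inv_mem hbD)))

theorem FrH.exists_conj (h : FrH R B Z) {t : L} (ht : t ∉ R ⊔ Z) :
    ∃ ρ ∈ R, ρ * t * ρ⁻¹ ∈ B ∧ ρ * t * ρ⁻¹ ∉ Z := by
  obtain ⟨σ, hσ, b, hb, rfl⟩ := h.sup t
  have h1 : b ∉ Z := fun h0 => ht (mul_mem_sup hσ h0)
  obtain ⟨n, hn, y, hy, h2⟩ := (h.fpf b hb h1).surj hσ
  have h3 : n⁻¹ * (σ * b) * n⁻¹⁻¹ = b := by
    rw [h2, mem_bot.1 hy, commutatorElement_def]; group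
  exact ⟨n⁻¹, R.inv_mem hn, h3.symm ▸ hb, h3.symm ▸ h1⟩

theorem mem_stab_smul {g x : L} {v : V} : g * x * g⁻¹ ∈ stabilizer L (g • v) ↔ x ∈ stabilizer L v := by
  simp [mem_stabilizer_iff, mul_smul]

namespace ModH

theorem inf_stab (h : ModH V R B Z) {v : V} (hv : v ≠ 1) : ∀ g ∈ R, g ∈ stabilizer L v → g = 1 :=
  fun g hg h1 => by_contra fun h0 => hv (h.semi g hg h0 v h1)

theorem exists_notMem (h : ModH V R B Z) {v : V} (hv : v ≠ 1) :
    ∃ t ∈ stabilizer L v, t ∉ R ⊔ Z :=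
  SetLike.not_le_iff_exists.1 fun h0 => h.nf v hv (index_dvd_of_le h0)

theorem exists_smul (h : ModH V R B Z) {v : V} (hv : v ≠ 1) :
    ∃ ρ ∈ R, ∃ t ∈ stabilizer L (ρ • v), t ∈ B ∧ t ∉ Z := by
  obtain ⟨t, h1, h2⟩ := h.exists_notMem hv
  obtain ⟨ρ, hρ, h3⟩ := h.exists_conj h2
  exact ⟨ρ, hρ, _, mem_stab_smul.2 h1, h3⟩

theorem stab_eq (h : ModH V R B Z) {v w : V} (hv : v ≠ 1) (hw : w ≠ 1) {t : L} (hB : t ∈ B)
    (hZ : t ∉ Z) (h1 : t ∈ stabilizer L v) (h2 : t ∈ stabilizer L w) :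
    stabilizer L v = stabilizer L w := by
  have h3 := h.le_of_mem (h.inf_stab hv) hB hZ h1
  have h4 := h.le_of_mem (h.inf_stab hw) hB hZ h2
  by_cases h0 : v * w = 1
  · rw [eq_inv_of_mul_eq_one_left h0]
    ext g
    simp [mem_stabilizer_iff, smul_inv']
  have h5 := h.le_of_mem (h.inf_stab h0) hB hZ (by
    rw [mem_stabilizer_iff, smul_mul', mem_stabilizer_iff.1 h1, mem_stabilizer_iff.1 h2])
  by_cases h6 : stabilizer L (v * w) ≤ stabilizer L v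
  · rw [← h.anti _ _ h0 hv h6]
    refine h.anti _ _ h0 hw fun s hs => ?_
    have h7 := mem_stabilizer_iff.1 hs
    rw [smul_mul', mem_stabilizer_iff.1 (h6 hs)] at h7
    exact mul_left_cancel h7
  obtain ⟨s, h7, h8⟩ := SetLike.not_le_iff_exists.1 h6
  have h9 : s • v * v⁻¹ ≠ 1 := fun h0 => h8 (mul_inv_eq_one.1 h0)
  have h10 : ∀ u : V, stabilizer L u ≤ B → stabilizer L u ≤ stabilizer L (s • u * u⁻¹) :=
    fun u hu g hg => by
      rw [mem_stabilizer_iff, smul_mul', smul_inv', ← mul_smul, h.comm g (hu hg) s (h5 h7),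
        mul_smul, mem_stabilizer_iff.1 hg]
  have h11 : s • w * w⁻¹ = (s • v * v⁻¹)⁻¹ := by
    have h12 := mem_stabilizer_iff.1 h7
    rw [smul_mul'] at h12
    rw [eq_inv_iff_mul_eq_one, mul_mul_mul_comm, mul_comm (s • w), h12, ← mul_inv, mul_comm w,
      mul_inv_cancel]
  rw [h.anti _ _ hv h9 (h10 v h3), h.anti _ _ hw (h11 ▸ inv_ne_one.2 h9) (h10 w h4), h11]
  ext g
  simp only [mem_stabilizer_iff, smul_inv', inv_inj]

theorem prod_conj (h : ModH V R B Z) [Fintype R] {b : L} (hb : b ∈ B) (hZ : b ∉ Z) (v : V) :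
    ∏ ρ : R, ((ρ : L) * b * (ρ : L)⁻¹) • v = 1 := by
  let Φ : R → R := fun ρ => ⟨⁅(ρ : L), b⁆, comm_mem_left ρ.2 b⟩
  have h1 : Function.Bijective Φ := Finite.surjective_iff_bijective.1 fun x => by
    obtain ⟨n, hn, y, hy, h2⟩ := (h.fpf b hb hZ).surj x.2
    exact ⟨⟨n, hn⟩, Subtype.ext (by rw [h2, mem_bot.1 hy, mul_one])⟩
  rw [Fintype.prod_bijective Φ h1 _ (fun σ : R => (σ : L) • b • v) fun ρ => by
    simp [Φ, commutatorElement_def, ← mul_smul]]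
  obtain ⟨⟨σ, hσ⟩, h2⟩ := ne_bot_iff_exists_ne_one.1 h.ne
  refine h.semi σ hσ (fun h0 => h2 (Subtype.ext h0)) _ ?_
  rw [Finset.smul_prod']
  exact Fintype.prod_equiv (Equiv.mulLeft ⟨σ, hσ⟩) _ _ fun ρ => (mul_smul _ _ _).symm

theorem norm (h : ModH V R B Z) [Fintype R] {T Y : Subgroup L} (h1 : Y ≤ T) (h2 : T ≤ B)
    (h3 : T ⊓ Z ≤ Y) (h4 : Y ≤ Z) {v : V} (hv : Y ≤ stabilizer L v) :
    ∃ F : R → V, (∀ ρ, T ≤ stabilizer L (F ρ)) ∧ ∏ ρ : R, (ρ : L) • F ρ = v ^ Nat.card R ∧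
      ∀ s ∈ B, (∀ t ∈ T, s * t ∉ Z) → ∏ ρ : R, (ρ : L) • s • F ρ = 1 := by
  have := Fintype.ofFinite (T ⧸ Y.subgroupOf T)
  have h5 : ∀ g : L, Y ≤ stabilizer L (g • v) := fun g y hy => by
    rw [mem_stabilizer_iff, ← mul_smul, ← mem_center_iff.1 (h.cent (h4 hy)), mul_smul,
      mem_stabilizer_iff.1 (hv hy)]
  refine ⟨fun ρ => ∏ q : T ⧸ Y.subgroupOf T, (q.out : L) • (ρ : L)⁻¹ • v, fun ρ s hs => ?_, ?_,
    fun s hs h6 => ?_⟩
  · rw [mem_stabilizer_iff, Finset.smul_prod']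
    refine Fintype.prod_equiv (MulAction.toPerm (⟨s, hs⟩ : T)) _ _ fun q => ?_
    obtain ⟨y, hy⟩ := QuotientGroup.mk_out_eq_mul (Y.subgroupOf T) (⟨s, hs⟩ * q.out)
    have h7 : (⟨s, hs⟩ : T) • q = QuotientGroup.mk (⟨s, hs⟩ * q.out) := by
      rw [← smul_eq_mul, ← MulAction.Quotient.smul_mk, QuotientGroup.out_eq']
    rw [MulAction.toPerm_apply, h7, hy, coe_mul, coe_mul, mul_smul, mul_smul,
      mem_stabilizer_iff.1 (h5 _ (mem_subgroupOf.1 y.2))]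
  · simp only [Finset.smul_prod', ← mul_smul, ← mul_assoc]
    rw [Finset.prod_comm, Finset.prod_eq_single (QuotientGroup.mk 1)]
    · obtain ⟨y, hy⟩ := QuotientGroup.mk_out_eq_mul (Y.subgroupOf T) 1
      rw [hy, one_mul, Nat.card_eq_fintype_card, ← Finset.card_univ, ← Finset.prod_const]
      refine Finset.prod_congr rfl fun ρ _ => ?_
      rw [mul_smul, mul_smul, mem_stabilizer_iff.1 (h5 _ (mem_subgroupOf.1 y.2)), smul_inv_smul]
    · intro q _ hq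
      refine h.prod_conj (h2 q.out.2) (fun h0 => hq ?_) v
      rw [← QuotientGroup.out_eq' q, eq_comm, QuotientGroup.eq, inv_one, one_mul]
      exact h3 ⟨q.out.2, h0⟩
    · simp
  · simp only [Finset.smul_prod', ← mul_smul, ← mul_assoc]
    rw [Finset.prod_comm]
    refine Finset.prod_eq_one fun q _ => ?_
    simpa only [mul_assoc] using h.prod_conj (B.mul_mem hs (h2 q.out.2)) (h6 _ q.out.2) v

theorem pow_ne_one (h : ModH V R B Z) {v : V} (hv : v ≠ 1) : v ^ Nat.card R ≠ 1 := fun h0 =>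
  hv (orderOf_eq_one_iff.1 (Nat.eq_one_of_dvd_coprimes h.cop (orderOf_dvd_of_pow_eq_one h0)
    (orderOf_dvd_natCard v)))

theorem unique (h : ModH V R B Z) {Y : Subgroup L} (hYZ : Y ≤ Z)
    (hmax : ∀ v : V, v ≠ 1 → Y ≤ stabilizer L v → stabilizer L v ⊓ Z ≤ Y) {v w : V} (hv : v ≠ 1)
    (hw : w ≠ 1) (h1 : Y ≤ stabilizer L v) (h2 : Y ≤ stabilizer L w) (h3 : stabilizer L v ≤ B)
    (h4 : stabilizer L w ≤ B) : stabilizer L v = stabilizer L w := by
  by_contra hne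
  have := Fintype.ofFinite R
  by_cases h5 : (stabilizer L v ⊔ stabilizer L w) ⊓ Z ≤ Y
  · obtain ⟨F, h6, h7, -⟩ := h.norm (h1.trans le_sup_left) (sup_le h3 h4) h5 hYZ h1
    obtain ⟨ρ, hρ⟩ : ∃ ρ, F ρ ≠ 1 := by
      by_contra h0
      push Not at h0
      exact h.pow_ne_one hv (by rw [← h7]; simp [h0])
    exact hne ((h.anti _ _ hv hρ (le_sup_left.trans (h6 ρ))).trans
      (h.anti _ _ hw hρ (le_sup_right.trans (h6 ρ))).symm)
  obtain ⟨z, ⟨h6, hz⟩, h7⟩ := SetLike.not_le_iff_exists.1 h5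
  obtain ⟨a, ha, b, hb, rfl⟩ : ∃ a ∈ stabilizer L v, ∃ b ∈ stabilizer L w, a * b = z := by
    have h8 : (z : L) ∈ ((stabilizer L v ⊔ stabilizer L w : Subgroup L) : Set L) := h6
    rwa [coe_mul_of_right_le_normalizer_left _ _ fun g hg => mem_normalizer_of_forall_conj_mem
      fun x hx => by rwa [h.comm g (h4 hg) x (h3 hx), mul_inv_cancel_right]] at h8
  have h8 : a ∉ Z := fun h0 => h7 (Y.mul_mem (hmax v hv h1 ⟨ha, h0⟩)
    (hmax w hw h2 ⟨hb, (Z.mul_mem_cancel_left h0).1 hz⟩))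
  have h9 : zpowers a ⊔ Y ≤ stabilizer L v := sup_le (zpowers_le.2 ha) h1
  have h10 : stabilizer L v ≤ zpowers a ⊔ Y := fun s hs => by
    obtain ⟨F, h10, h11, h12⟩ := h.norm le_sup_right (h9.trans h3)
      ((inf_le_inf_right Z h9).trans (hmax v hv h1)) hYZ h1
    by_contra h0
    refine h.pow_ne_one hv ?_
    rw [← h11, ← h12 s (h3 hs) fun t ht h13 => h0 ((mul_mem_cancel_right ht).1
      (le_sup_right (a := zpowers a) (hmax v hv h1 ⟨mul_mem hs (h9 ht), h13⟩)))]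
    refine Finset.prod_congr rfl fun ρ _ => congrArg _ ?_
    by_cases h13 : F ρ = 1
    · rw [h13, smul_one]
    · rw [h.stab_eq hv h13 (h3 ha) h8 ha (h10 ρ (le_sup_left (b := Y) (mem_zpowers a)))] at hs
      exact hs.symm
  have : Y.Normal := ⟨fun y hy g => by
    rwa [mem_center_iff.1 (h.cent (hYZ hy)) g, mul_inv_cancel_right]⟩
  have h11 : Y.relIndex (stabilizer L v) ∣ Y.relIndex Z := by
    let π := QuotientGroup.mk' Y
    have h12 : ∀ K : Subgroup L, Y.relIndex K = Nat.card (K.map π) := fun K => by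
      rw [← relIndex_ker, QuotientGroup.ker_mk']
    rw [h12, h12, le_antisymm h10 h9, Subgroup.map_sup, (map_mk'_eq_bot_iff).2 le_rfl, sup_bot_eq,
      MonoidHom.map_zpowers, Nat.card_zpowers]
    refine (orderOf_dvd_of_pow_eq_one ?_).trans (orderOf_dvd_natCard (⟨π (a * b), a * b, hz, rfl⟩ :
      Z.map π))
    rw [← orderOf_coe]
    set n := orderOf (π (a * b))
    have h13 : (a * b) ^ n ∈ Y := (QuotientGroup.eq_one_iff _).1 (pow_orderOf_eq_one (π (a * b)))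
    rw [Commute.mul_pow (h.comm a (h3 ha) b (h4 hb))] at h13
    have h14 := pow_mem ha n
    refine (QuotientGroup.eq_one_iff (a ^ n)).2 (hmax v hv h1 ⟨h14, by_contra fun h0 => hne
      (h.stab_eq hv hw (h3 h14) h0 h14 ((mul_mem_cancel_right (pow_mem hb n)).1 (h2 h13)))⟩)
  obtain ⟨c, hc⟩ := h11
  have h12 := relIndex_mul_index h1
  rw [← relIndex_mul_index hYZ, hc, mul_assoc] at h12
  exact h.nf v hv (Nat.eq_of_mul_eq_mul_left (Nat.pos_of_ne_zero index_ne_zero_of_finite) h12 ▸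
    (index_dvd_of_le le_sup_right).mul_left c)

theorem main (h : ModH V R B Z) [Nontrivial V] : ∃ T : Subgroup L, T ≤ B ∧
    (∀ v : V, v ≠ 1 → ∃ ρ ∈ R, stabilizer L (ρ • v) = T) ∧
    (∀ b ∈ B, ∀ v : V, v ≠ 1 → b • v = v → b ∈ T) ∧ Nat.card V < (Nat.card R + 1) ^ 2 := by
  have : Nonempty {v : V // v ≠ 1} := let ⟨v, hv⟩ := exists_ne (1 : V); ⟨⟨v, hv⟩⟩
  obtain ⟨⟨v₁, h1⟩, hmax⟩ := Finite.exists_max fun v : {v : V // v ≠ 1} =>
    Nat.card (stabilizer L v.1 ⊓ Z : Subgroup L)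
  obtain ⟨Y, hY⟩ : ∃ Y, Y = stabilizer L v₁ ⊓ Z := ⟨_, rfl⟩
  have hYZ : Y ≤ Z := hY ▸ inf_le_right
  have h2 : ∀ v : V, v ≠ 1 → Y ≤ stabilizer L v → stabilizer L v ⊓ Z ≤ Y := fun v hv h3 =>
    (eq_of_le_of_card_ge (le_inf h3 hYZ) (hY ▸ hmax ⟨v, hv⟩)).ge
  have h3 : ∀ (g : L) (v : V), Y ≤ stabilizer L v → Y ≤ stabilizer L (g • v) := fun g v hv y hy => by
    rw [mem_stabilizer_iff, ← mul_smul, ← mem_center_iff.1 (h.cent (hYZ hy)), mul_smul,
      mem_stabilizer_iff.1 (hv hy)]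
  have hne : ∀ (g : L) {v : V}, v ≠ 1 → g • v ≠ 1 := fun g v hv h0 => hv (by
    rw [← inv_smul_smul g v, h0, smul_one])
  obtain ⟨ρ₁, -, t₁, h4, h5, h6⟩ := h.exists_smul h1
  obtain ⟨v₀, hv₀, hY₀, hT₀⟩ : ∃ v : V, v ≠ 1 ∧ Y ≤ stabilizer L v ∧ stabilizer L v ≤ B :=
    ⟨_, hne ρ₁ h1, h3 _ _ (hY ▸ inf_le_left), h.le_of_mem (h.inf_stab (hne ρ₁ h1)) h5 h6 h4⟩
  have h7 : ∀ v : V, v ≠ 1 → Y ≤ stabilizer L v → ∀ t ∈ stabilizer L v, t ∈ B → t ∉ Z →
      stabilizer L v = stabilizer L v₀ := fun v hv h7 t h8 h9 h10 =>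
    h.unique hYZ h2 hv hv₀ h7 hY₀ (h.le_of_mem (h.inf_stab hv) h9 h10 h8) hT₀
  let W := FixedPoints.subgroup Y V
  let C := FixedPoints.subgroup (stabilizer L v₀) V
  have hW : ∀ v, v ∈ W ↔ Y ≤ stabilizer L v := fun v =>
    ⟨fun h0 y hy => h0 ⟨y, hy⟩, fun h0 y => h0 y.2⟩
  have hC : ∀ v, v ∈ C ↔ stabilizer L v₀ ≤ stabilizer L v := fun v =>
    ⟨fun h0 y hy => h0 ⟨y, hy⟩, fun h0 y => h0 y.2⟩
  have hCW : C ≤ W := fun v hv => (hW v).2 (hY₀.trans ((hC v).1 hv))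
  have hC2 : 1 < Nat.card C := Finite.one_lt_card_iff_nontrivial.2
    ((nontrivial_iff_exists_ne_one C).2 ⟨v₀, (hC _).2 le_rfl, hv₀⟩)
  obtain ⟨t₀, h8, h9⟩ := h.exists_notMem hv₀
  have h10 : t₀ ∉ Z := fun h0 => h9 (le_sup_right (a := R) h0)
  have h11 : Nat.card C ^ 2 ≤ Nat.card W := by
    obtain ⟨⟨σ, hσ⟩, h11⟩ := ne_bot_iff_exists_ne_one.1 h.ne
    rw [sq, ← Nat.card_prod]
    refine Nat.card_le_card_of_injective (fun x : C × C => (⟨x.1 * σ • x.2, W.mul_mem (hCW x.1.2)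
      ((hW _).2 (h3 _ _ ((hW _).1 (hCW x.2.2))))⟩ : W)) fun x y hxy => ?_
    have h12 : (x.1 : V) * σ • x.2 = y.1 * σ • y.2 := congrArg Subtype.val hxy
    have h13 : σ • ((x.2 : V) * (y.2 : V)⁻¹) = y.1 * (x.1 : V)⁻¹ := by
      rw [smul_mul', smul_inv', mul_inv_eq_iff_eq_mul, mul_right_comm, ← h12, mul_right_comm,
        mul_inv_cancel, one_mul]
    have h14 : (x.2 : V) * (y.2 : V)⁻¹ = 1 := by_contra fun h0 => h11 (Subtype.ext
      (h.eq_one_of_conj (hT₀ h8) h10 hσ (hT₀ (by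
        rw [h.anti _ _ hv₀ (hne σ h0) (h13 ▸ (hC _).1 (C.mul_mem y.1.2 (C.inv_mem x.1.2)))]
        exact mem_stab_smul.2 ((hC _).1 (C.mul_mem x.2.2 (C.inv_mem y.2.2)) h8)))))
    rw [h14, smul_one, eq_comm, mul_inv_eq_one] at h13
    exact Prod.ext (Subtype.ext h13.symm) (Subtype.ext (mul_inv_eq_one.1 h14))
  have h12 : ∀ v, v ∈ W := fun u => by_contra fun hu => by
    let D : V → Subgroup L := fun v =>
      { carrier := {g | g • v * v⁻¹ ∈ W}
        one_mem' := by simp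
        mul_mem' := fun {a b} ha hb => by
          have h12 : (a * b) • v * v⁻¹ = a • (b • v * v⁻¹) * (a • v * v⁻¹) := by
            rw [mul_smul, smul_mul', smul_inv', mul_assoc, inv_mul_cancel_left]
          exact Set.mem_ofPred.2 (h12 ▸ W.mul_mem ((hW _).2 (h3 _ _ ((hW _).1 hb))) ha)
        inv_mem' := fun {a} ha => by
          have h12 : a⁻¹ • v * v⁻¹ = (a⁻¹ • (a • v * v⁻¹))⁻¹ := by
            rw [smul_mul', smul_inv', inv_smul_smul, mul_inv, inv_inv, mul_comm]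
          exact Set.mem_ofPred.2 (h12 ▸ W.inv_mem ((hW _).2 (h3 _ _ ((hW _).1 ha)))) }
    have hD : ∀ v g, g ∈ D v ↔ g • v * v⁻¹ ∈ W := fun _ _ => Iff.rfl
    have hu1 : ∀ v, v ∉ W → ∀ y ∈ W, v * y ≠ 1 := fun v hv y hy h0 =>
      hv (eq_inv_of_mul_eq_one_left h0 ▸ W.inv_mem hy)
    obtain ⟨ρ, -, t, h13, h14, h15⟩ := h.exists_smul (mul_one u ▸ hu1 u hu 1 W.one_mem)
    have hv : ρ • u ∉ W := fun h0 => hu (inv_smul_smul ρ u ▸ (hW _).2 (h3 _ _ ((hW _).1 h0)))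
    generalize ρ • u = v at h13 hv
    have h16 : D v ≤ B := h.le_of_mem (fun σ hσ h16 => by_contra fun h0 => by
      let Φ : W → W := fun y => ⟨σ • y * y⁻¹, W.mul_mem ((hW _).2 (h3 _ _ ((hW _).1 y.2)))
        (W.inv_mem y.2)⟩
      have h17 : ∀ a b : V, σ • a * a⁻¹ = σ • b * b⁻¹ → a = b := fun a b hab =>
        mul_inv_eq_one.1 (h.semi σ hσ h0 _ (by
          rw [smul_mul', smul_inv', eq_mul_of_mul_inv_eq hab, mul_right_comm _ b⁻¹, mul_right_comm,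
            mul_right_comm (σ • b), mul_inv_cancel, one_mul]))
      obtain ⟨y, hy⟩ := Finite.injective_iff_surjective.1 (show Function.Injective Φ from
        fun a b hab => Subtype.ext (h17 _ _ (congrArg Subtype.val hab))) ⟨_, h16⟩
      exact hv (h17 _ _ (congrArg Subtype.val hy) ▸ y.2)) h14 h15 (by
        rw [hD, mem_stabilizer_iff.1 h13, mul_inv_cancel]; exact W.one_mem)
    have h17 : ∀ y ∈ W, stabilizer L (v * y) ≤ D v := fun y hy g hg => by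
      have h17 := mem_stabilizer_iff.1 hg
      rw [smul_mul'] at h17
      rw [hD, eq_mul_inv_of_mul_eq h17, mul_right_comm, mul_right_comm v, mul_inv_cancel, one_mul]
      exact W.mul_mem hy (W.inv_mem ((hW _).2 (h3 _ _ ((hW _).1 hy))))
    have h18 : ∀ y ∈ W, ∀ y' ∈ W, stabilizer L (v * y) ≤ stabilizer L (v * y') → y = y' ∨
        stabilizer L (v * y) = stabilizer L v₀ := fun y hy y' hy' h18 => (em _).imp_right fun h0 => by
      obtain ⟨s, h19, h20⟩ := h.exists_notMem (hu1 v hv y hy)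
      have h21 : s ∉ Z := fun h0 => h20 (le_sup_right (a := R) h0)
      have h22 : s ∈ stabilizer L (y * y'⁻¹) := by
        rw [show y * y'⁻¹ = v * y * (v * y')⁻¹ by rw [mul_inv, mul_mul_mul_comm, mul_inv_cancel, one_mul],
          mem_stabilizer_iff, smul_mul', smul_inv',
          mem_stabilizer_iff.1 h19, mem_stabilizer_iff.1 (h18 h19)]
      have h23 : y * y'⁻¹ ≠ 1 := mt mul_inv_eq_one.1 h0
      exact (h.stab_eq (hu1 v hv y hy) h23 (h16 (h17 y hy h19)) h21 h19 h22).trans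
        (h7 _ h23 ((hW _).1 (W.mul_mem hy (W.inv_mem hy'))) s h22 (h16 (h17 y hy h19)) h21)
    have h19 : ∀ y ∈ W, stabilizer L (v * y) ≠ stabilizer L v₀ → D v ≤ stabilizer L (v * y) :=
      fun y hy h0 d hd => by
        have h19 : d • (v * y) = v * (d • v * v⁻¹ * d • y) := by
          rw [smul_mul', ← mul_assoc, ← mul_assoc, mul_comm v, mul_inv_cancel_right]
        rw [mem_stabilizer_iff, h19, ← (h18 y hy _ (W.mul_mem hd ((hW _).2 (h3 _ _ ((hW _).1 hy))))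
          fun g hg => ?_).resolve_right h0]
        rw [mem_stabilizer_iff, ← h19, ← mul_smul, h.comm g (h16 (h17 y hy hg)) d (h16 hd),
          mul_smul, mem_stabilizer_iff.1 hg]
    have h20 : ∀ y y' : W, stabilizer L (v * y) ≠ stabilizer L v₀ →
        stabilizer L (v * y') ≠ stabilizer L v₀ → y = y' := fun y y' h0 h0' =>
      Subtype.ext ((h18 y y.2 y' y'.2 ((h17 y y.2).trans (h19 y' y'.2 h0'))).resolve_right h0)
    have h21 : Nat.card W ≤ Nat.card C + 1 := by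
      by_cases h21 : ∃ y₀ : W, stabilizer L (v * y₀) = stabilizer L v₀
      · obtain ⟨y₀, h21⟩ := h21
        rw [← Finite.card_option]
        refine Nat.card_le_card_of_injective (fun y : W =>
          if h0 : stabilizer L (v * y) = stabilizer L v₀ then some (⟨v * y * (v * y₀)⁻¹,
            C.mul_mem ((hC _).2 h0.ge) (C.inv_mem ((hC _).2 h21.ge))⟩ : C) else none)
          fun y y' hy => ?_
        dsimp only at hy
        split_ifs at hy with h22 h23 h24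
        · exact Subtype.ext (by simpa using hy)
        · exact h20 y y' h22 h24
      · push Not at h21
        have : Subsingleton W := ⟨fun y y' => h20 y y' (h21 y) (h21 y')⟩
        have := Finite.card_le_one_iff_subsingleton.2 this
        omega
    nlinarith
  have h13 : ∀ v : V, v ≠ 1 → ∃ ρ ∈ R, stabilizer L (ρ • v) = stabilizer L v₀ := fun v hv => by
    obtain ⟨ρ, hρ, t, h13, h14, h15⟩ := h.exists_smul hv
    exact ⟨ρ, hρ, h7 _ (hne ρ hv) ((hW _).1 (h12 _)) t h13 h14 h15⟩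
  refine ⟨_, hT₀, h13, fun b hb v hv h14 => ?_, ?_⟩
  · by_cases h15 : b ∈ Z
    · exact hY₀ (h2 v hv ((hW _).1 (h12 _)) ⟨h14, h15⟩)
    · exact h7 v hv ((hW _).1 (h12 _)) b h14 hb h15 ▸ h14
  · have h14 : Nat.card V ≤ Nat.card R * Nat.card C := by
      rw [← Nat.card_prod]
      refine Nat.card_le_card_of_surjective (fun x : R × C => (x.1 : L)⁻¹ • (x.2 : V)) fun v => ?_
      by_cases hv : v = 1
      · exact ⟨1, by simp [hv]⟩
      · obtain ⟨ρ, hρ, h14⟩ := h13 v hv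
        exact ⟨(⟨ρ, hρ⟩, ⟨ρ • v, (hC _).2 h14.ge⟩), inv_smul_smul _ _⟩
    have h15 := h11.trans (card_le_card_group W)
    have h16 : Nat.card C ≤ Nat.card R := by nlinarith
    nlinarith

end ModH

end Cfsg.Nd

set_option linter.all false in
theorem Cfsg.Rz.Nd_Mod_0 : True := by
  have := @_root_.Cfsg.Nd.ModH.mk.congr_simp.{0, 0}
  have := @_root_.Cfsg.Nd.ModH.congr_simp.{0, 0}
  have := @_root_.Cfsg.Nd.FrH.congr_simp.{0}
  have := @_root_.Cfsg.Nd.FrH.mk.congr_simp.{0}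
  trivial
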