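import Cfsg.Agent.Nd.Over
import Cfsg.Agent.Char.ResidualSum

/-!
# `NDAD` groups with a nonabelian nilpotent quotient; central factors
-/

set_option autoImplicit false
set_option linter.unusedSectionVars false

namespace Cfsg.Nd

open scoped commutatorElement Classical ComplexConjugate
open Subgroup MulAction

universe u

variable {G : Type u} [Group G] [Finite G]

theorem coe_mem_comm {A : Subgroup G} {x : A} (hx : x ∈ commutator A) : (x : G) ∈ ⁅A, A⁆ := by
  rw [← map_derivedSeries_one]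
  exact ⟨x, hx, rfl⟩

theorem mem_comm_of_coe {A : Subgroup G} {x : A} (hx : (x : G) ∈ ⁅A, A⁆) : x ∈ commutator A := by
  rw [← map_derivedSeries_one] at hx
  obtain ⟨y, hy, h⟩ := hx
  exact (Subtype.ext h : y = x) ▸ hy

theorem deg_le_index {χ : IrrCharacter G} {A : Subgroup G} (h : ⁅A, A⁆ ≤ charKer χ.1) :
    charDegree χ.1 ≤ A.index := by
  obtain ⟨θ, hθ⟩ := χ.exists_liesOver_below A.subtype
  have h1 : charDegree θ.1 = 1 := θ.commutator_le_charKer_iff'.1 fun x hx =>
    (χ.isCharacter.comp A.subtype).charKer_le_of_ip_ne_zero θ hθ (by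
      rw [χ.isCharacter.charKer_comp]; exact h (coe_mem_comm hx))
  have h2 := hθ.charDegree_le_index_mul A.subtype_injective θ.isCharacter
  rwa [h1, mul_one, range_subtype] at h2

theorem deg_eq_index {U : Subgroup G} [U.Normal] {l : LinC U.subtype}
    (h : ⁅stabilizer G l, stabilizer G l⁆ ≤ kr l) {χ : IrrCharacter G}
    (hχ : LiesOver U.subtype χ.1 l.irr.1) : charDegree χ.1 = (stabilizer G l).index := by
  rw [LinC.stabilizer_eq] at h ⊢
  obtain ⟨ψ, h1, h2⟩ := hχ.exists_inertia_ind_eq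
  have h3 := h1.comp_eq_smul_of_inertia_eq_top (inertia_toInertia _ _)
  have h4 : charDegree ψ.1 = 1 := ψ.commutator_le_charKer_iff'.1 fun x hx => by
    obtain ⟨h5, h6⟩ := mem_kr.1 (h (coe_mem_comm hx))
    have h7 := congrFun h3 ⟨x, h5⟩
    have h8 := congrFun h3 1
    rw [ev_of_mem _ h5] at h6
    simp only [Function.comp_apply, Pi.smul_apply, smul_eq_mul, map_one, LinC.irr,
      IrrCharacter.ofLinear_val, h6] at h7 h8
    exact ψ.mem_charKer.2 (h7.trans h8.symm)
  rw [← h2, ψ.isCharacter.charDegree_ind_subtype, h4, mul_one]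

theorem index_mem {U : Subgroup G} [U.Normal] {l : LinC U.subtype}
    (h : ⁅stabilizer G l, stabilizer G l⁆ ≤ kr l) : (stabilizer G l).index ∈ charDegrees G := by
  obtain ⟨χ, hχ⟩ := l.irr.exists_liesOver_above U.subtype_injective
  exact ⟨χ, deg_eq_index h hχ⟩

theorem le_of_coprime {H K : Subgroup G} [K.Normal] (h : (Nat.card H).Coprime K.index) : H ≤ K := by
  rw [← map_mk'_eq_bot_iff, ← card_eq_one]
  exact Nat.eq_one_of_dvd_coprimes h (card_map_dvd H _) (card_subgroup_dvd_card _)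

theorem dvd_or_dvd {p a b : ℕ} (hp : p.Prime) {k m : ℕ} (ha : a ∣ p ^ k) (hb : b ∣ p ^ m) :
    a ∣ b ∨ b ∣ a := by
  obtain ⟨i, -, rfl⟩ := (Nat.dvd_prime_pow hp).1 ha
  obtain ⟨j, -, rfl⟩ := (Nat.dvd_prime_pow hp).1 hb
  exact (le_total i j).imp (pow_dvd_pow p) (pow_dvd_pow p)

theorem dvd_of_le {p a b : ℕ} (hp : p.Prime) {k m : ℕ} (ha : a ∣ p ^ k) (hb : b ∣ p ^ m)
    (h : a ≤ b) : a ∣ b :=
  (dvd_or_dvd hp ha hb).elim id fun h1 => (le_antisymm h (Nat.le_of_dvd
    (Nat.pos_of_dvd_of_pos ha (pow_pos hp.pos k)) h1)) ▸ dvd_rfl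

theorem NDAD.comm_le_of_extends (h : NDAD G) {U : Subgroup G} [U.Normal] {θ : IrrCharacter U}
    {η : IrrCharacter (inertia U.subtype θ)} (hη : η.1 ∘ toInertia U.subtype θ = θ.1)
    (h1 : (inertia U.subtype θ).index * charDegree θ.1 ≠ 1) :
    (inertia U.subtype θ).index * charDegree θ.1 ∈ charDegrees G ∧
      ⁅inertia U.subtype θ, inertia U.subtype θ⁆ ≤ U := by
  have h2 : (inertia U.subtype θ).index * charDegree θ.1 ∈ charDegrees G := by
    obtain ⟨χ, -, hχ⟩ := exists_liesOver_of_extends hη (IrrCharacter.one _)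
    exact ⟨χ, by rw [hχ, IrrCharacter.charDegree_one, one_mul]⟩
  have h3 := comm_iff_forall_irr_charDegree.2 fun β => by
    obtain ⟨χ, -, hχ⟩ := exists_liesOver_of_extends hη β
    exact h.eq_one_of_mul h2 ⟨χ, by rw [hχ]; ring⟩ h1
  refine ⟨h2, commutator_le.2 fun a ha b hb => ?_⟩
  have h4 := h3 (QuotientGroup.mk ⟨a, ha⟩) (QuotientGroup.mk ⟨b, hb⟩)
  rw [← commutatorElement_eq_one_iff_mul_comm] at h4
  have h5 : ⁅(⟨a, ha⟩ : inertia U.subtype θ), ⟨b, hb⟩⁆ ∈ (toInertia U.subtype θ).range :=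
    (QuotientGroup.eq_one_iff _).1 h4
  obtain ⟨n, hn⟩ := h5
  have h6 : (n : G) = ⁅a, b⁆ := congrArg Subtype.val hn
  exact h6 ▸ n.2

/-- An `NDAD` group with a nonabelian nilpotent quotient has two degrees. -/
theorem NDAD.two_of_nil (h : NDAD G) {L : Subgroup G} [L.Normal] (hL : ¬ commutator G ≤ L)
    [Group.IsNilpotent (G ⧸ L)] : ∃ d, charDegrees G ⊆ {1, d} := by
  obtain ⟨K, hK, hLK, hJ⟩ := exists_isJustNonab_quotient L hL
  have : Group.IsNilpotent (G ⧸ K) := Group.nilpotent_of_surjective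
    (QuotientGroup.map L K (MonoidHom.id G) hLK) fun y => by
      obtain ⟨x, rfl⟩ := QuotientGroup.mk_surjective y
      exact ⟨x, rfl⟩
  obtain ⟨Z, p, β, hP⟩ := hJ.exists_pQuot fun h0 =>
    normal_inf_center_ne_bot_of_isNilpotent _ hJ.ne_bot (by rw [h0, inf_bot_eq])
  have hp := hP.prime
  have := Fact.mk hp
  obtain ⟨H, hH, hH1, m, hm⟩ := hasNormalPComplement_iff.1
    (hasNormalPComplement_of_forall_dvd_charDegree (p := p) (G := G) fun χ h1 => by_contra fun h2 =>
      hP.ne_one (h.eq_one_of_mul χ.charDegree_mem (Nat.mul_comm _ _ ▸ hP.mul_mem_of_not_dvd h2) h1))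
  obtain ⟨k, hk⟩ := hP.exists_pow
  have hc : ∀ j, (Nat.card H).Coprime (p ^ j) := fun j =>
    ((Nat.Prime.coprime_iff_not_dvd hp).2 hH1).symm.pow_right j
  have hHK : H ≤ K := by
    obtain ⟨j, hj⟩ := hP.pow
    exact le_of_coprime (hj ▸ hc j)
  have h1 : ∀ θ : IrrCharacter H, charDegree θ.1 = 1 := fun θ => by_contra fun h2 => by
    have h3 : (inertia H.subtype θ).index ∣ p ^ m := hm ▸ index_dvd_of_le (le_inertia_subtype H θ)
    obtain ⟨η, hη, -⟩ := exists_extension_of_coprime_card (inertia_toInertia H.subtype θ)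
      ((hc m).coprime_dvd_right (by
        rw [range_toInertia, range_subtype, ← hm]; exact relIndex_dvd_index_of_normal _ _))
    obtain ⟨h4, h5⟩ := h.comm_le_of_extends hη fun h0 => h2 (Nat.eq_one_of_mul_eq_one_left h0)
    have h6 := dvd_of_le hp hk.dvd h3 (deg_le_index (h5.trans (hHK.trans hP.le_ker)))
    have h7 := h.eq_of_dvd β.charDegree_mem h4 hP.ne_one (h6.mul_right _)
    exact h2 (Nat.eq_one_of_dvd_coprimes (hc k) θ.charDegree_dvd_card
      (hk ▸ h7 ▸ dvd_mul_left _ _))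
  refine ⟨charDegree β.1, ?_⟩
  rintro _ ⟨χ, rfl⟩
  obtain ⟨θ, hθ⟩ := χ.exists_liesOver_below H.subtype
  have h2 := hθ.charDegree_dvd_mul_index
  rw [h1, one_mul, range_subtype, hm] at h2
  by_cases h3 : charDegree χ.1 = 1
  · exact Or.inl h3
  · exact Or.inr ((dvd_or_dvd hp h2 hk.dvd).elim
      (h.eq_of_dvd χ.charDegree_mem β.charDegree_mem h3)
      fun h4 => (h.eq_of_dvd β.charDegree_mem χ.charDegree_mem hP.ne_one h4).symm)

/-- A central subgroup meeting the derived subgroup trivially does not change the degrees. -/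
theorem cd_quo_central {Z : Subgroup G} [Z.Normal] (hZ : Z ≤ center G)
    (h : Z ⊓ commutator G = ⊥) : charDegrees G ⊆ charDegrees (G ⧸ Z) := by
  rintro _ ⟨χ, rfl⟩
  obtain ⟨l, hl⟩ := χ.exists_linear_mul_of_central Z.subtype
    fun n g => (mem_center_iff.1 (hZ n.2) g).symm
  obtain ⟨m, hm⟩ := exists_linear_extension Z.subtype l fun x hx => by
    rw [(Subtype.ext (mem_bot.1 (h ▸ ⟨x.2, hx⟩)) : x = 1), map_one]
  obtain ⟨β, hβ⟩ := IrrCharacter.exists_inflate_mk' (K := Z) (χ := m⁻¹ • χ) fun z hz => by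
    have h1 := hl ⟨z, hz⟩ 1
    rw [← hm, mul_one] at h1
    rw [IrrCharacter.mem_charKer, IrrCharacter.linear_smul_apply, IrrCharacter.linear_smul_apply]
    change _ * χ (Z.subtype ⟨z, hz⟩) = _
    rw [h1]
    simp
  exact ⟨β, by rw [← IrrCharacter.charDegree_inflate _ (QuotientGroup.mk'_surjective Z), hβ,
    IrrCharacter.charDegree_linear_smul]⟩

theorem der_quo_central {Z : Subgroup G} [Z.Normal] (h : Z ⊓ commutator G = ⊥) {k : ℕ}
    (hk : derivedSeries (G ⧸ Z) (k + 1) = ⊥) : derivedSeries G (k + 1) = ⊥ := by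
  rw [eq_bot_iff, ← h]
  exact le_inf (derivedSeries_le_of_quotient hk) (commutator_mono le_top le_top)

end Cfsg.Nd
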