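import Cfsg.Agent.Nd.Basic

/-!
# Irreducible characters over an invariant linear character

`Ov φ l`: the subgroup `X` acts by the scalars `l` in a representation affording `φ`.
An element acting fixed-point-freely on `Q / X` fixes at most one character over `l`.
-/

set_option autoImplicit false
set_option linter.unusedSectionVars false

namespace Cfsg.Nd

open scoped commutatorElement Classical ComplexConjugate
open Subgroup MulAction

universe u

variable {G : Type u} [Group G] [Finite G] {Q X : Subgroup G}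

/-- `φ` lies over the `Q`-invariant linear character `l`. -/
def Ov (φ : IrrCharacter Q) (l : LinC X.subtype) : Prop :=
  ∀ z x : Q, (z : G) ∈ X → φ (z * x) = ev l z * φ x

theorem Ov.apply {φ : IrrCharacter Q} {l : LinC X.subtype} (h : Ov φ l) {z : Q}
    (hz : (z : G) ∈ X) : φ z = ev l z * φ 1 := by
  simpa using h z 1 hz

theorem norm_ev (l : LinC X.subtype) (g : G) : ‖(ev l g : ℂ)‖ = 1 := by
  by_cases hg : g ∈ X
  · rw [ev_of_mem _ hg, linear_norm_apply]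
  · simp [ev, hg]

theorem Ov.mem_center {φ : IrrCharacter Q} {l : LinC X.subtype} (h : Ov φ l) {z : Q}
    (hz : (z : G) ∈ X) : z ∈ charCenter φ.1 := by
  rw [φ.mem_charCenter, h.apply hz, norm_mul, norm_ev, φ.apply_one]; simp

theorem Ov.mem_ker {φ : IrrCharacter Q} {l : LinC X.subtype} (h : Ov φ l) {z : Q}
    (hz : (z : G) ∈ X) : z ∈ charKer φ.1 ↔ ev l z = 1 := by
  rw [φ.mem_charKer, h.apply hz, mul_eq_right₀ φ.apply_one_ne_zero, Units.val_eq_one]

theorem Ov.unique (hXQ : X ≤ Q) {φ : IrrCharacter Q} {l m : LinC X.subtype} (h : Ov φ l)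
    (h' : Ov φ m) : l = m :=
  ev_ext fun x hx => by
    have h1 := h.apply (z := ⟨x, hXQ hx⟩) hx
    rw [h'.apply (z := ⟨x, hXQ hx⟩) hx] at h1
    exact Units.ext (mul_right_cancel₀ φ.apply_one_ne_zero h1).symm

theorem ov_of_center {φ : IrrCharacter Q} {l : LinC X.subtype}
    (h : ∀ z : Q, (z : G) ∈ X → φ z = ev l z * φ 1) : Ov φ l := fun z x hz => by
  have h1 : z ∈ charCenter φ.1 := by
    rw [φ.mem_charCenter, h z hz, norm_mul, norm_ev, φ.apply_one]; simp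
  have h2 := φ.isCharacter.apply_mul_of_mem_charCenter h1 x
  refine mul_right_cancel₀ φ.apply_one_ne_zero (h2.trans ?_)
  rw [h z hz]; ring

theorem exists_ov' (hXQ : X ≤ Q) (φ : IrrCharacter Q)
    (h : ∀ z : Q, (z : G) ∈ ⁅X, Q⁆ → z ∈ charKer φ.1) : ∃ l : LinC X.subtype, Ov φ l := by
  obtain ⟨f, hf, -⟩ := φ.isCharacter.exists_monoidHom_charCenter
  have h1 : ∀ x : X, inclusion hXQ x ∈ charCenter φ.1 := fun x =>
    φ.mem_charCenter_iff.2 fun g => h _ (commutator_mem_commutator x.2 g.2)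
  refine ⟨LinC.mk _ (f.comp ((inclusion hXQ).codRestrict _ h1)), fun z x hz => ?_⟩
  rw [ev_of_mem _ hz]
  exact hf ⟨z, h1 ⟨z, hz⟩⟩ x

theorem Ov.ne_one (hXQ : X ≤ ⁅Q, Q⁆) {φ : IrrCharacter Q} {l : LinC X.subtype} (h : Ov φ l)
    (hl : l ≠ 1) : charDegree φ.1 ≠ 1 := fun h1 => hl <| ev_ext fun x hx => by
  have h2 := φ.commutator_le_charKer_iff'.2 h1
  have h3 : ⁅Q, Q⁆ ≤ Q := (comm_le_kr (1 : LinC Q.subtype)).trans (kr_le _)
  have h4 : (⟨x, h3 (hXQ hx)⟩ : Q) ∈ commutator Q := by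
    have h5 := hXQ hx
    rw [← map_derivedSeries_one] at h5
    obtain ⟨y, hy, rfl⟩ := h5
    exact hy
  rw [ev_one']
  exact (h.mem_ker (z := ⟨x, h3 (hXQ hx)⟩) hx).1 (h2 h4)

variable [hQ : Q.Normal] [hX : X.Normal]

theorem exists_ov (hXQ : X ≤ Q) {l : LinC X.subtype} (hl : ∀ q ∈ Q, q • l = l) :
    ∃ φ : IrrCharacter Q, Ov φ l := by
  obtain ⟨φ, hφ⟩ := l.irr.exists_liesOver_above (inclusion_injective hXQ)
  have h1 : inertia (inclusion hXQ) l.irr = ⊤ := by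
    rw [inertia_of_factor (f := X.subtype) (i := Q.subtype) (j := inclusion hXQ) (fun _ => rfl),
      eq_top_iff]
    intro q _
    exact mem_comap.2 (LinC.mem_inertia_iff.2 (hl q q.2))
  have h2 := hφ.comp_eq_smul_of_inertia_eq_top h1
  refine ⟨φ, ov_of_center fun z hz => ?_⟩
  have h3 := congrFun h2 ⟨z, hz⟩
  have h4 := congrFun h2 1
  simp only [Function.comp_apply, Pi.smul_apply, smul_eq_mul, map_one] at h3 h4
  rw [ev_of_mem _ hz]
  change φ.1 (inclusion hXQ ⟨z, hz⟩) = _ * φ.1 1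
  rw [h3, h4]
  simp [LinC.irr, IrrCharacter.ofLinear_val, mul_comm]

theorem Ov.smul {φ : IrrCharacter Q} {l : LinC X.subtype} (h : Ov φ l) (g : G) :
    Ov (conjAut Q.subtype g • φ) (g • l) := fun z x hz => by
  have h1 : ∀ y : Q, (conjAut Q.subtype g • φ) y = φ ((conjAut Q.subtype g)⁻¹ y) := fun y =>
    conjAut_smul_apply_of_eq Q.subtype φ (by rw [map_conjAut_inv]; group)
  have h2 : (((conjAut Q.subtype g)⁻¹ z : Q) : G) = g⁻¹ * z * g := map_conjAut_inv Q.subtype g z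
  rw [h1, h1, map_mul, h _ _ (by rw [h2]; exact hX.conj_mem' _ hz g), ev_smul, h2]

theorem Ov.inertia_le (hXQ : X ≤ Q) {φ : IrrCharacter Q} {l : LinC X.subtype} (h : Ov φ l) :
    inertia Q.subtype φ ≤ stabilizer G l := fun g hg => by
  have h1 := h.smul g
  rw [mem_inertia.1 hg] at h1
  exact h1.unique hXQ h

/-- An element acting fixed-point-freely on `Q / X` fixes at most one character over `l`. -/
theorem Ov.eq_of_fpf (hXQ : X ≤ Q) {t : G} (ht : Fpf t Q X) {φ ψ : IrrCharacter Q}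
    {l : LinC X.subtype} (h : Ov φ l) (h' : Ov ψ l) (hφ : t ∈ inertia Q.subtype φ)
    (hψ : t ∈ inertia Q.subtype ψ) : φ = ψ := by
  let Γ := Q ⊔ zpowers t
  let j : Q →* Γ := Q.subtype.codRestrict Γ fun n => le_sup_left (a := Q) n.2
  let s : Γ := ⟨t, le_sup_right (a := Q) (mem_zpowers t)⟩
  have hc : IsCyclic (Γ ⧸ j.range) := by
    refine ⟨⟨s, fun y => ?_⟩⟩
    obtain ⟨⟨y, hy⟩, rfl⟩ := QuotientGroup.mk_surjective y
    obtain ⟨a, ha, _, ⟨k, rfl⟩, rfl⟩ := mem_sup_of_normal_left.1 hy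
    refine ⟨k, ?_⟩
    change ((s ^ k : Γ) : Γ ⧸ j.range) = _
    rw [QuotientGroup.eq]
    exact ⟨⟨(t ^ k)⁻¹ * a * t ^ k, hQ.conj_mem' a ha _⟩, Subtype.ext (by simp [j, s, mul_assoc])⟩
  have hT : ∀ θ : IrrCharacter Q, t ∈ inertia Q.subtype θ → inertia j θ = ⊤ := fun θ hθ => by
    rw [inertia_of_factor (f := Q.subtype) (i := Γ.subtype) (j := j) (fun _ => rfl), eq_top_iff]
    exact fun y _ => sup_le (le_inertia_subtype Q θ) (zpowers_le.2 hθ) y.2
  have key : ∀ (θ : IrrCharacter Q) (η : IrrCharacter Γ), Ov θ l → η.1 ∘ j = θ.1 →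
      ∀ (n m : Q), (m : G) ∈ X → η.1 (j n * (j m * s) * (j n)⁻¹) = ev l m * η.1 s := by
    intro θ η hθ hη n m hm
    rw [η.isCharacter.isClassFunction]
    have h1 : j m ∈ charCenter η.1 := by
      have h2 := hθ.mem_center hm
      rwa [← hη, η.isCharacter.charCenter_comp] at h2
    have h2 := η.isCharacter.apply_mul_of_mem_charCenter h1 s
    have h3 : η.1 (j m) = ev l m * η.1 1 := by
      have h4 := hθ.apply hm
      rw [← map_one j]
      exact (congrFun hη m).trans (h4.trans (congrArg _ (congrFun hη 1).symm))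
    refine mul_right_cancel₀ η.apply_one_ne_zero (h2.trans ?_)
    rw [h3]
    change _ = _ * η.1 1
    ring
  have hip : ∀ (θ θ' : IrrCharacter Q) (η η' : IrrCharacter Γ), Ov θ l → Ov θ' l →
      η.1 ∘ j = θ.1 → η'.1 ∘ j = θ'.1 →
      ip (fun g => η.1 (j g * s)) (fun g => η'.1 (j g * s)) = η.1 s * conj (η'.1 s) := by
    intro θ θ' η η' hθ hθ' hη hη'
    have := Fintype.ofFinite Q
    have h1 : ∀ g : Q, η.1 (j g * s) * conj (η'.1 (j g * s)) = η.1 s * conj (η'.1 s) := by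
      intro g
      obtain ⟨n, hn, y, hy, h2⟩ := ht.surj g.2
      have hm := hX.conj_mem _ hy (t * n⁻¹ * t⁻¹)
      have h3 : j g * s = j ⟨n, hn⟩ * (j ⟨_, hXQ hm⟩ * s) * (j ⟨n, hn⟩)⁻¹ := Subtype.ext (by
        change (g : G) * t = n * (t * n⁻¹ * t⁻¹ * y * (t * n⁻¹ * t⁻¹)⁻¹ * t) * n⁻¹
        rw [h2, commutatorElement_def]; group)
      rw [h3, key θ η hθ hη _ _ hm, key θ' η' hθ' hη' _ _ hm, map_mul, mul_mul_mul_comm,
        Complex.mul_conj, Complex.normSq_eq_norm_sq, norm_ev]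
      simp
    rw [ip_def, Finset.sum_congr rfl fun g _ => h1 g, Finset.sum_const, Finset.card_univ,
      ← Nat.card_eq_fintype_card, nsmul_eq_mul, ← mul_assoc,
      inv_mul_cancel₀ (Nat.cast_ne_zero.2 Nat.card_pos.ne'), one_mul]
  obtain ⟨η, hη⟩ := exists_extension_of_isCyclic (hT φ hφ) hc
  obtain ⟨η', hη'⟩ := exists_extension_of_isCyclic (hT ψ hψ) hc
  by_contra hne
  have h1 := ip_coset_self j η.isCharacter (hη ▸ φ.2) s
  have h2 := ip_coset_self j η'.isCharacter (hη' ▸ ψ.2) s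
  have h3 := ip_coset_eq_zero j η.isCharacter η'.isCharacter (by
    rw [hη, hη']; exact by_contra fun h0 => hne (IrrCharacter.eq_of_ip_ne_zero h0)) s
  rw [hip φ φ η η h h hη hη] at h1
  rw [hip ψ ψ η' η' h' h' hη' hη'] at h2
  rw [hip φ ψ η η' h h' hη hη'] at h3
  rcases mul_eq_zero.1 h3 with h4 | h4
  · rw [h4, zero_mul] at h1; exact zero_ne_one h1
  · rw [h4, mul_zero] at h2; exact zero_ne_one h2

theorem eq_of_fix (hXQ : X ≤ Q) {l : LinC X.subtype}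
    (hab : ∀ s ∈ stabilizer G l, ∀ t ∈ stabilizer G l, ⁅s, t⁆ ∈ Q)
    (h : ∀ φ : IrrCharacter Q, Ov φ l → ∃ t ∈ inertia Q.subtype φ, Fpf t Q X) :
    (∀ φ : IrrCharacter Q, Ov φ l → inertia Q.subtype φ = stabilizer G l) ∧
      ∀ φ ψ : IrrCharacter Q, Ov φ l → Ov ψ l → φ = ψ := by
  have h1 : ∀ φ : IrrCharacter Q, Ov φ l → inertia Q.subtype φ = stabilizer G l := by
    intro φ hφ
    obtain ⟨t, ht, hf⟩ := h φ hφ
    refine le_antisymm (hφ.inertia_le hXQ) fun s hs => ?_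
    have h2 := hφ.smul s
    rw [mem_stabilizer_iff.1 hs] at h2
    refine mem_inertia.2 (Ov.eq_of_fpf hXQ hf h2 hφ (mem_inertia_conjAut_smul.2 ?_) ht)
    have h3 : s⁻¹ * t * s = ⁅s⁻¹, t⁆ * t := by rw [commutatorElement_def]; group
    rw [h3]
    exact mul_mem (le_inertia_subtype Q φ (hab _ (inv_mem hs) _ (hφ.inertia_le hXQ ht))) ht
  refine ⟨h1, fun φ ψ hφ hψ => ?_⟩
  obtain ⟨t, ht, hf⟩ := h φ hφ
  exact Ov.eq_of_fpf hXQ hf hφ hψ ht (by rw [h1 ψ hψ, ← h1 φ hφ]; exact ht)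

/-- If only one character lies over `l`, it is fully ramified and no element off `X` is good. -/
theorem fr_of_unique (hXQ : X ≤ Q) {l : LinC X.subtype} (hl : ∀ q ∈ Q, q • l = l)
    (h : ∀ φ ψ : IrrCharacter Q, Ov φ l → Ov ψ l → φ = ψ) :
    (∀ φ : IrrCharacter Q, Ov φ l → charDegree φ.1 ^ 2 = X.relIndex Q) ∧
      ∀ x ∈ Q, x ∉ X → ∃ y ∈ Q, ⁅x, y⁆ ∈ X ∧ ev l ⁅x, y⁆ ≠ 1 := by
  let K := (kr l).subgroupOf Q
  have hK : K.Normal := ⟨fun n hn g => by
    obtain ⟨h1, h2⟩ := mem_kr.1 hn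
    exact mem_kr.2 ⟨hX.conj_mem _ h1 g, (ev_conj (hl g g.2) _).trans h2⟩⟩
  let π := QuotientGroup.mk' K
  have hπ := QuotientGroup.mk'_surjective K
  let f : X →* Q ⧸ K := π.comp (inclusion hXQ)
  have hf : ∀ n g, f n * g = g * f n := fun n g => by
    obtain ⟨g, rfl⟩ := hπ g
    rw [← commutatorElement_eq_one_iff_mul_comm]
    change ⁅π _, π g⁆ = 1
    rw [← map_commutatorElement]
    exact (QuotientGroup.eq_one_iff _).2 (mem_kr.2 ⟨comm_mem_left n.2 _,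
      smul_eq_iff.1 (hl g g.2) n n.2⟩)
  have h1 : ∀ χ : IrrCharacter (Q ⧸ K), LiesOver f χ.1 (fun n => (l.hom n : ℂ)) →
      Ov (χ.inflate π hπ) l := fun χ hχ z x hz => by
    rw [ev_of_mem _ hz]
    exact hχ.apply_mul_of_central hf ⟨z, hz⟩ (π x)
  have h2 : ∀ φ : IrrCharacter Q, Ov φ l → ∃ χ : IrrCharacter (Q ⧸ K), χ.inflate π hπ = φ ∧
      Finset.univ.filter (fun ψ : IrrCharacter (Q ⧸ K) =>
        LiesOver f ψ.1 (fun n => (l.hom n : ℂ))) = {χ} := by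
    intro φ hφ
    obtain ⟨χ, rfl⟩ := IrrCharacter.exists_inflate_mk' (K := K) (χ := φ) fun z hz =>
      (hφ.mem_ker (mem_kr.1 hz).1).2 (mem_kr.1 hz).2
    refine ⟨χ, rfl, Finset.eq_singleton_iff_unique_mem.2 ⟨?_, fun ψ hψ =>
      IrrCharacter.inflate_injective π hπ (h _ _ (h1 ψ (Finset.mem_filter.1 hψ).2) hφ)⟩⟩
    refine Finset.mem_filter.2 ⟨Finset.mem_univ _, (liesOver_linear_iff_of_central
      (lam := l.hom) (fun n g => ?_) _).2 rfl⟩
    obtain ⟨g, rfl⟩ := hπ g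
    have h3 := hφ (inclusion hXQ n) g n.2
    rw [ev_of_mem _ (show ((inclusion hXQ n : Q) : G) ∈ X from n.2)] at h3
    exact h3
  have := Fintype.ofFinite X
  have h3 : ∀ φ : IrrCharacter Q, Ov φ l → ∀ x : Q, (x : G) ∉ X → φ x = 0 := by
    intro φ hφ x hx
    obtain ⟨χ, rfl, h4⟩ := h2 φ hφ
    have h5 := sum_liesOver_mul_conj hf l.hom (π x) 1
    rw [h4, Finset.sum_singleton, Finset.filter_false_of_mem, Finset.sum_empty, mul_zero,
      mul_eq_zero, map_eq_zero] at h5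
    · exact h5.resolve_right χ.apply_one_ne_zero
    · intro n _ hn
      have h6 : π (inclusion hXQ n * x) = 1 := isConj_one_left.1 hn
      have h7 : inclusion hXQ n * x ∈ K := (QuotientGroup.eq_one_iff _).1 h6
      have h8 : (n : G) * x ∈ X := kr_le l h7
      exact hx (by simpa using X.mul_mem (X.inv_mem n.2) h8)
  refine ⟨fun φ hφ => (φ.sq_charDegree_eq_index_iff (Z := X.subgroupOf Q)
    fun z hz => hφ.mem_center hz).2 (h3 φ hφ), fun x hx hxX => ?_⟩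
  by_contra h4
  push Not at h4
  obtain ⟨φ, hφ⟩ := exists_ov hXQ hl
  obtain ⟨χ, rfl, h5⟩ := h2 φ hφ
  have h6 := sum_liesOver_mul_conj hf l.hom (π ⟨x, hx⟩) (π ⟨x, hx⟩)
  have h7 : χ (π ⟨x, hx⟩) = 0 := h3 _ hφ ⟨x, hx⟩ hxX
  rw [h5, Finset.sum_singleton, h7, zero_mul, Finset.sum_congr rfl (g := fun _ => 1),
    Finset.sum_const, nsmul_eq_mul, mul_one, eq_comm, mul_eq_zero, mul_eq_zero, inv_eq_zero,
    Nat.cast_eq_zero, Nat.cast_eq_zero, Nat.cast_eq_zero, Finset.card_eq_zero] at h6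
  · rcases h6 with (h6 | h6) | h6
    · exact Nat.card_pos.ne' h6
    · exact Nat.card_pos.ne' h6
    · have h8 : (1 : X) ∈ (∅ : Finset X) := h6 ▸ Finset.mem_filter.2 ⟨Finset.mem_univ _, by
        rw [map_one, one_mul]⟩
      simp at h8
  · intro n hn
    obtain ⟨c, hc⟩ := isConj_iff.1 (Finset.mem_filter.1 hn).2
    obtain ⟨y, rfl⟩ := hπ c
    have h8 : π (y * (inclusion hXQ n * ⟨x, hx⟩) * y⁻¹ * (⟨x, hx⟩ : Q)⁻¹) = 1 := by
      rw [map_mul, map_inv, mul_inv_eq_one, map_mul, map_mul, map_mul, map_inv]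
      exact hc
    have h8' : y * (inclusion hXQ n * ⟨x, hx⟩) * y⁻¹ * (⟨x, hx⟩ : Q)⁻¹ ∈ K :=
      (QuotientGroup.eq_one_iff _).1 h8
    obtain ⟨h9, h10⟩ := mem_kr.1 (mem_subgroupOf.1 h8')
    have h11 : ((y * (inclusion hXQ n * ⟨x, hx⟩) * y⁻¹ * (⟨x, hx⟩ : Q)⁻¹ : Q) : G) =
        (y * n * (y : G)⁻¹) * ⁅x, (y : G)⁆⁻¹ := by
      rw [commutatorElement_def]; simp [mul_assoc]
    rw [h11] at h9 h10
    have h12 := hX.conj_mem _ n.2 y
    have h13 : ⁅x, (y : G)⁆ ∈ X := X.inv_mem_iff.1 ((X.mul_mem_cancel_left h12).1 h9)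
    rw [ev_mul l h12 (X.inv_mem h13), ev_inv, h4 y y.2 h13, ev_conj (hl y y.2), ev_coe, inv_one,
      mul_one] at h10
    rw [h10]; simp

end Cfsg.Nd

set_option linter.all false in
theorem Cfsg.Rz.Nd_Over_0 : True := by
  have := @_root_.Cfsg.Nd.Ov.eq_def.{0}
  have := @_root_.Cfsg.Nd.Ov.eq_1.{0}
  have := @_root_.Cfsg.Nd.Ov.fun_cases
  trivial
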