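import Cfsg.Agent.Nd.Pure
import Cfsg.Agent.Nd.Dich
import Cfsg.Agent.Grp.MinAct

/-!
# The case of a `p`-group `N`
-/

set_option autoImplicit false
set_option linter.unusedSectionVars false

namespace Cfsg.Nd

open scoped commutatorElement Classical ComplexConjugate
open Subgroup MulAction

universe u

variable {G : Type u} [Group G] [Finite G]

/-- `G = P ⋊ ⟨l⟩` coprimely, `P₀ = C_P(l)`, `Q = G'`. -/
structure Spl (P P₀ Q : Subgroup G) (l : G) : Prop where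
  nil : Group.IsNilpotent P
  notMem : l ∉ P
  gen : ∀ x, ∃ k : ℤ, ∃ n ∈ P, x = l ^ k * n
  cop : (Nat.card P).Coprime (orderOf l)
  mem : ∀ x, x ∈ P₀ ↔ x ∈ P ∧ ⁅x, l⁆ = 1
  eq : Q = commutator G

variable {P M P₀ Q : Subgroup G} [hP : P.Normal] [M.Normal] [hQ : Q.Normal] {l : G}

theorem Cam.exists_spl (c : Cam P M) {p : ℕ} [Fact p.Prime] (hp : IsPGroup p P)
    (h : p ∣ M.relIndex P) : ∃ P₀ l, Spl P P₀ (commutator G) l := by
  obtain ⟨H, -, h2, h3⟩ := exists_complement_of_coprime (N := P) (IsPGroup.coprime_card_of_not_dvd hp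
    fun h0 => (Fact.out : p.Prime).one_lt.ne' (Nat.eq_one_of_dvd_coprimes c.coprime h0 h))
  obtain ⟨t, ht, h4⟩ := c.exists_gen
  obtain ⟨l, hl, n, hn, rfl⟩ := mem_sup_of_normal_right.1 (h2 ▸ mem_top t)
  refine ⟨P ⊓ centralizer {l}, l, hp.isNilpotent, fun h0 => ht (P.mul_mem h0 hn), fun x => ?_,
    (IsPGroup.coprime_card_of_not_dvd hp fun h0 => (Fact.out : p.Prime).one_lt.ne'
      (Nat.eq_one_of_dvd_coprimes c.coprime (h3 ▸ h0.trans (H.orderOf_dvd_natCard hl)) h)),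
    fun x => and_congr_right fun _ => by
      rw [commutatorElement_eq_one_iff_mul_comm]; exact mem_centralizer_singleton_iff, rfl⟩
  obtain ⟨k, m, hm, rfl⟩ := h4 x
  refine ⟨k, _, QuotientGroup.eq.1 ?_, (mul_inv_cancel_left _ _).symm⟩
  rw [QuotientGroup.mk_mul_of_mem _ hm, QuotientGroup.mk_zpow, QuotientGroup.mk_zpow,
    QuotientGroup.mk_mul_of_mem _ hn]

namespace Spl

theorem le (s : Spl P P₀ Q l) : P₀ ≤ P := fun x hx => ((s.mem x).1 hx).1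

theorem comm_zpow (s : Spl P P₀ Q l) {x : G} (hx : x ∈ P₀) (k : ℤ) : Commute x (l ^ k) :=
  (commutatorElement_eq_one_iff_commute.1 ((s.mem x).1 hx).2).zpow_right k

theorem act (s : Spl P P₀ Q l) (k : ℤ) {Y : Subgroup G} [Y.Normal] (hY : Y ≤ P) :
    IsCoprimeAction (zpowers (l ^ k)) Y :=
  isCoprimeAction_zpowers (le_normalizer_of_normal (mem_top _))
    ((s.cop.coprime_dvd_left (card_dvd_of_le hY)).coprime_dvd_right
      (orderOf_dvd_of_mem_zpowers (zpow_mem_zpowers l k)))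

theorem mem_sup (s : Spl P P₀ Q l) {Y : Subgroup G} [Y.Normal] (hY : Y ≤ P) {n : G} (hn : n ∈ P)
    (h : ⁅n, l⁆ ∈ Y) : n ∈ P₀ ⊔ Y := by
  obtain ⟨m, hm, h1⟩ := (s.act 1 hY).exists_mul_mem_centralizer (x := n⁻¹) fun a ha => by
    rw [inv_inv]
    exact mem_cz.1 ((zpowers_le.2 (zpow_mem (mem_cz.2 h) 1)) ha)
  have h2 : n⁻¹ * m ∈ P₀ := (s.mem _).2 ⟨P.mul_mem (inv_mem hn) (hY hm),
    commutatorElement_eq_one_iff_mul_comm.2 (h1 l ⟨1, by simp⟩).symm⟩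
  rw [show n = m * (n⁻¹ * m)⁻¹ by group]
  exact mul_mem (mem_sup_right hm) (mem_sup_left (inv_mem h2))

theorem qle (s : Spl P P₀ Q l) (c : Cam P M) : Q ≤ P := s.eq ▸ c.comm_le

theorem der_le (s : Spl P P₀ Q l) : ⁅P, P⁆ ≤ Q := s.eq ▸ commutator_mono le_top le_top

theorem m_le (s : Spl P P₀ Q l) (c : Cam P M) : M ≤ P₀ ⊔ ⁅P, P⁆ := fun _ hm =>
  s.mem_sup (commutator_le_left P P) (c.le hm) (c.cent (commutator_mem_commutator hm (mem_top l)))

theorem le_m (s : Spl P P₀ Q l) (c : Cam P M) : P₀ ≤ M := fun x hx =>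
  c.fpf l s.notMem x (s.le hx) (((s.mem x).1 hx).2 ▸ one_mem M)

theorem p_le (s : Spl P P₀ Q l) (c : Cam P M) : P ≤ P₀ ⊔ Q := fun n hn =>
  s.mem_sup (s.qle c) hn (s.eq ▸ commutator_mem_commutator (mem_top n) (mem_top l))

theorem normal_of (s : Spl P P₀ Q l) (c : Cam P M) {R : Subgroup G} (h1 : l ∈ normalizer (R : Set G))
    (h2 : P₀ ≤ normalizer (R : Set G)) (h3 : Q ≤ normalizer (R : Set G)) : R.Normal :=
  normalizer_eq_top_iff.1 (eq_top_iff.2 fun g _ => by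
    obtain ⟨k, n, hn, rfl⟩ := s.gen g
    exact mul_mem (zpow_mem h1 k) (sup_le h2 h3 (s.p_le c hn)))

theorem mem_norm (s : Spl P P₀ Q l) : l ∈ normalizer (P₀ : Set G) :=
  centralizer_le_normalizer _ fun x hx => by simpa using (s.comm_zpow hx 1).eq

theorem fpf_zpow (s : Spl P P₀ Q l) (c : Cam P M) {k : ℤ} (hk : l ^ k ∉ P) :
    Fpf (l ^ k) Q ⁅Q, Q⁆ := by
  have h1 : ⁅P, P⁆ ≤ ⁅P, zpowers (l ^ k)⁆ := fun u hu => by
    obtain ⟨x, hx, h1⟩ := SetLike.not_le_iff_exists.1 c.not_le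
    obtain ⟨n, hn, rfl⟩ := c.camina (comm_mem_left hx _) (mt (c.fpf _ hk x hx) h1) hu
    have h2 := commutator_mem_commutator hx (mem_zpowers (l ^ k))
    rw [commutatorElement_def ⁅x, l ^ k⁆, mul_assoc, mul_assoc, ← mul_assoc n]
    exact mul_mem h2 ((mem_normalizer_iff.1 (normalizer_commutator_ge_left _ _ hn) _).1 (inv_mem h2))
  have h2 : Q ≤ ⁅P, zpowers (l ^ k)⁆ := fun x hx => by
    obtain ⟨n, hn, y, hy, rfl⟩ := (c.fpf' hk).surj (s.eq ▸ hx)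
    exact mul_mem (commutator_mem_commutator (c.comm_le hn) (mem_zpowers _)) (h1 hy)
  refine fpf_of_lin le_rfl fun m _ hm => le_kr_iff.1 (h2.trans ?_)
  rw [← (s.act k le_rfl).commutator_commutator]
  refine commutator_le.2 fun x hx a ha => ?_
  have h3 : x ∈ Q := s.eq ▸ commutator_mono le_top le_top hx
  exact mem_kr.2 ⟨comm_mem_left h3 a, smul_eq_iff.1 ((zpowers_le (H := stabilizer G m)).2 hm ha) x h3⟩

theorem comm_bot (s : Spl P P₀ Q l) (c : Cam P M) : ⁅P₀, Q⁆ = ⊥ := by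
  obtain ⟨R, hR⟩ : ∃ R, R = ⁅P₀, Q⁆ := ⟨_, rfl⟩
  have : R.Normal := hR ▸ s.normal_of c (normalizer_inf_le_normalizer_commutator _ _
    ⟨s.mem_norm, le_normalizer_of_normal (mem_top _)⟩) (normalizer_commutator_ge_left _ _)
    (normalizer_commutator_ge_right _ _)
  have h1 : R ≤ ⁅P, P⁆ := hR ▸ commutator_mono s.le (s.qle c)
  have h2 := h1.trans (commutator_le_left P P)
  have := s.nil
  rw [← hR]
  by_contra h0
  obtain ⟨x, hx, h3⟩ := SetLike.exists_of_lt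
    (commutator_lt_of_le_isNilpotent h2 le_rfl le_normalizer_of_normal h0)
  obtain ⟨m, hm, h4⟩ := exists_lin (commutator_mono le_rfl h2) hx h3
  have h5 : m ≠ 1 := fun h0 => h4 (by rw [h0, ev_one'])
  have h6 : P ≤ stabilizer G m := (le_ck le_rfl).trans (ck_le_stab hm)
  obtain ⟨φ, hφ⟩ := exists_ov h2 h6
  obtain ⟨t, h7, h8⟩ := c.exists_notMem (hφ.ne_one h1 h5)
  obtain ⟨k, n, hn, rfl⟩ := s.gen t
  have h9 := (mul_mem_cancel_right (h6 hn)).1 (hφ.inertia_le h2 h7)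
  refine h5 (le_kr_iff.1 (hR.trans_le (commutator_le.2 fun y hy q hq => ?_)))
  have h10 : ∀ q ∈ Q, ⁅y, q⁆ ∈ R := fun q hq => hR ▸ commutator_mem_commutator hy hq
  have h11 : ∀ q ∈ Q, q • m = m := (s.qle c).trans h6
  refine mem_kr.2 ⟨h10 q hq, delta_triv h11 (commutator_le_left Q Q)
    (s.fpf_zpow c fun h0 => h8 (P.mul_mem h0 hn)) (fun e he => mem_kr.2
      ⟨h10 e (commutator_le_left Q Q he), delta_comm h11 h10 he⟩) (fun d _ h12 => delta_conj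
        (Z := ⊥) bot_le h9 ?_ h12) q hq (h10 q hq)⟩
  rw [mul_assoc, (s.comm_zpow hy k).eq, inv_mul_cancel_left, inv_mul_cancel,
    commutatorElement_one_left]
  exact one_mem _

theorem comm_one (s : Spl P P₀ Q l) (c : Cam P M) {x q : G} (hx : x ∈ P₀) (hq : q ∈ Q) :
    ⁅x, q⁆ = 1 := mem_bot.1 (s.comm_bot c ▸ commutator_mem_commutator hx hq)

theorem normal (s : Spl P P₀ Q l) (c : Cam P M) : P₀.Normal :=
  s.normal_of c s.mem_norm le_normalizer fun _ hq => centralizer_le_normalizer _ fun _ hx =>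
    commutatorElement_eq_one_iff_mul_comm.1 (s.comm_one c hx hq)

theorem comm_le (s : Spl P P₀ Q l) (c : Cam P M) {X : Subgroup G} [X.Normal] (hX : X ≤ Q) :
    ⁅X, P⁆ ≤ ⁅X, Q⁆ := by
  rw [commutator_comm X P]
  refine (commutator_mono (s.p_le c) le_rfl).trans (commutator_sup_left_le ?_
    (commutator_comm _ _).le)
  exact (commutator_mono le_rfl hX).trans ((s.comm_bot c).trans_le bot_le)

theorem exists_mem (s : Spl P P₀ Q l) (c : Cam P M) : ∃ x ∈ Q, x ∉ M := by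
  by_contra! h
  exact c.not_le ((s.p_le c).trans (sup_le (s.le_m c) h))

theorem der_eq (s : Spl P P₀ Q l) (c : Cam P M) : ⁅P, P⁆ = ⁅Q, Q⁆ :=
  le_antisymm (fun u hu => by
    obtain ⟨x, hx, h1⟩ := s.exists_mem c
    obtain ⟨n, hn, rfl⟩ := c.camina (s.qle c hx) h1 hu
    exact s.comm_le c le_rfl (commutator_mem_commutator hx hn))
    (commutator_mono (s.qle c) (s.qle c))

theorem fpf (s : Spl P P₀ Q l) (c : Cam P M) {g : G} (hg : g ∉ P) : Fpf g Q ⁅Q, Q⁆ :=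
  s.der_eq c ▸ s.eq ▸ c.fpf' hg

theorem central (s : Spl P P₀ Q l) (c : Cam P M) {z : G} (hz : z ∈ P₀ ⊓ Q) (g : G) : ⁅z, g⁆ = 1 := by
  obtain ⟨k, n, hn, rfl⟩ := s.gen g
  have h1 : P₀ ⊔ Q ≤ cz z ⊥ := sup_le (fun x hx => mem_cz.2 (by
    rw [← commutatorElement_inv, s.comm_one c hx hz.2, inv_one]
    exact one_mem _)) fun q hq => mem_cz.2 (s.comm_one c hz.1 hq)
  exact mem_bot.1 (mem_cz.1 (mul_mem (mem_cz.2 (mem_bot.2 (commutatorElement_eq_one_iff_commute.2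
    (s.comm_zpow hz.1 k)))) (h1 (s.p_le c hn))))

theorem eq_top (s : Spl P P₀ Q l) {T : Subgroup G} (h1 : l ∈ T) (h2 : P ≤ T) : T = ⊤ :=
  eq_top_iff.2 fun g _ => by
    obtain ⟨k, n, hn, rfl⟩ := s.gen g
    exact mul_mem (zpow_mem h1 k) (h2 hn)

theorem zpow_mem_inertia (s : Spl P P₀ Q l) (c : Cam P M) {φ : IrrCharacter P}
    (h : charDegree φ.1 ≠ 1) (k : ℤ) (h1 : ∀ u v y : P, (u : G) ∈ ⁅P, P⁆ →
      (v : G) = l ^ k * u * (l ^ k)⁻¹ → φ (v * y) = φ (u * y)) : l ^ k ∈ inertia P.subtype φ :=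
  mem_inertia_iff_forall.2 fun n n' h2 => by
    by_cases h3 : (n : G) ∈ M
    · obtain ⟨u, hu, y, hy, h4⟩ := mem_sup_of_normal_left.1 (sup_comm P₀ _ ▸ s.m_le c h3)
      have h5 := commutator_le_left P P hu
      have h6 := h1 ⟨u, h5⟩ ⟨_, hP.conj_mem u h5 (l ^ k)⟩ ⟨y, s.le hy⟩ hu rfl
      convert h6 using 2
      · refine Subtype.ext (h2.trans ?_)
        rw [coe_subtype, ← h4, coe_mul, mul_assoc, mul_assoc, ((s.comm_zpow hy k).inv_right).eq]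
        group
      · exact Subtype.ext h4.symm
    · rw [c.vanish h h3, c.vanish h fun h4 => h3 ?_]
      rw [show (n' : G) = _ from h2] at h4
      simpa [mul_assoc] using Normal.conj_mem' inferInstance _ h4 (l ^ k)

theorem inertia_eq (s : Spl P P₀ Q l) (c : Cam P M) {m : LinC (⁅P, P⁆ : Subgroup G).subtype}
    {φ : IrrCharacter P} (h : Ov φ m) (h1 : m ≠ 1) : inertia P.subtype φ = stabilizer G m := by
  have h2 := h.inertia_le (commutator_le_left P P)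
  refine le_antisymm h2 fun g hg => ?_
  obtain ⟨k, n, hn, rfl⟩ := s.gen g
  have h3 := le_inertia_subtype P φ hn
  refine mul_mem (s.zpow_mem_inertia c (h.ne_one le_rfl h1) k fun u v y hu hv => ?_) h3
  rw [h u y hu, h v y (hv ▸ Normal.conj_mem inferInstance _ hu _), hv,
    ev_conj ((mul_mem_cancel_right (h2 h3)).1 hg)]

theorem fpf_two (s : Spl P P₀ Q l) (c : Cam P M) (h : ¬ ⁅P, P⁆ ≤ P₀ ⊔ ⁅⁅P, P⁆, P⁆) :
    Fpf l ⁅P, P⁆ ⁅⁅P, P⁆, P⁆ := by
  have := s.normal c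
  have h21 := commutator_le_left P P
  refine fpf_of_lin (commutator_mono le_rfl h21) fun m₀ h1 h2 => by_contra fun h3 => ?_
  obtain ⟨x, hx, h4⟩ := SetLike.not_le_iff_exists.1 h
  obtain ⟨m₁, h5, h6⟩ := exists_lin ((commutator_mono le_rfl h21).trans le_sup_right) hx h4
  have h7 : l • (m₀ * m₁) ≠ m₀ * m₁ := fun h0 => by
    rw [smul_mul', h2, mul_right_inj] at h0
    have h7 : Fpf l ⁅P, P⁆ ((P₀ ⊔ ⁅⁅P, P⁆, P⁆) ⊓ ⁅P, P⁆) := fun n hn h7 =>
      ⟨(sup_le le_sup_left le_rfl : P₀ ⊔ _ ≤ _)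
        (s.mem_sup (sup_le s.le (commutator_le_right _ _)) (h21 hn) h7.1), hn⟩
    exact h6 (by rw [h7.eq_one inf_le_right (fun y hy => h5 y hy.1) h0, ev_one'])
  have h8 : m₀ * m₁ ≠ 1 := fun h0 => h7 (by rw [h0, smul_one])
  have h9 : P ≤ stabilizer G m₀ := (le_ck le_rfl).trans (ck_le_stab h1)
  obtain ⟨φ, hφ⟩ := exists_ov h21 h9
  obtain ⟨ψ, hψ⟩ := exists_ov h21 ((le_ck le_rfl).trans (ck_le_stab (l := m₀ * m₁) fun y hy => by
    rw [ev_mul', h1 y hy, h5 y (mem_sup_right hy), one_mul]))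
  have h10 : ∀ (m : LinC (⁅P, P⁆ : Subgroup G).subtype) (θ : IrrCharacter P), Ov θ m → m ≠ 1 →
      (∀ z ∈ ⁅M, P⁆, ev m z = ev m₀ z) → charDegree θ.1 ^ 2 = (charCenter θ.1).index ∧
      ∀ z : P, z ∈ charCenter θ.1 ↔ (z : G) ∈ M ∧ ∀ g : P, ev m₀ ⁅(z : G), (g : G)⁆ = 1 :=
    fun m θ hθ hm h10 => by
      refine ⟨θ.sq_charDegree_eq_index_of_commutator_le fun z hz => hθ.mem_center (coe_mem_comm hz),
        fun z => ?_⟩
      by_cases hz : (z : G) ∈ M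
      · rw [θ.mem_charCenter_iff, and_iff_right hz]
        exact forall_congr' fun g => by
          rw [hθ.mem_ker (commutator_mem_commutator z.2 g.2),
            ← h10 _ (commutator_mem_commutator hz g.2)]
          rfl
      · rw [θ.mem_charCenter, c.vanish (hθ.ne_one le_rfl hm) hz, norm_zero, eq_comm,
          Nat.cast_eq_zero]
        exact iff_of_false θ.charDegree_pos.ne' fun h0 => hz h0.1
  obtain ⟨h11, h12⟩ := h10 m₀ φ hφ h3 fun _ _ => rfl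
  obtain ⟨h13, h14⟩ := h10 _ ψ hψ h8 fun z hz => by
    rw [ev_mul', h5 z ((commutator_mono (s.m_le c) le_rfl).trans (commutator_sup_left_le
      ((commutator_le_left _ _).trans le_sup_left) le_sup_right) hz), mul_one]
  rw [Subgroup.ext fun z => (h14 z).trans (h12 z).symm, ← h11] at h13
  have h15 := mem_of_cyc c.cyc φ
  have h16 := mem_of_cyc c.cyc ψ
  rw [s.inertia_eq c hφ h3, s.eq_top h2 h9, index_top, one_mul] at h15
  rw [s.inertia_eq c hψ h8, pow_left_injective two_ne_zero h13, mul_comm] at h16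
  exact h7 (index_eq_one.1 (c.nd.eq_one_of_mul h15 h16 (hφ.ne_one le_rfl h3)) ▸ mem_top l :
    l ∈ stabilizer G (m₀ * m₁))

end Spl

/-- The conclusion for a `p`-group `N`. -/
def Out (P M : Subgroup G) : Prop :=
  (∃ d e f, charDegrees G ⊆ {1, d, e, f}) ∧ derivedSeries G 3 = ⊥ ∧
    ⁅P, P⁆ = ⁅commutator G, commutator G⁆ ∧ ∀ T : Subgroup G, ⁅T, T⁆ = ⊥ → T ⊓ P ≤ M → (∀ d ∈ charDegrees G, d ≠ 1 → ∀ m, d * m ∣ T.index → m = 1) →
    T ⊓ commutator G = ⊥ ∧ ∃ b, Fpf b (commutator G) ⊥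

theorem Cam.congr {N N' M' : Subgroup G} [N.Normal] [N'.Normal] [M'.Normal] (c : Cam N M)
    (h1 : N = N') (h2 : M = M') : Cam N' M' := by
  subst h1 h2; exact c

theorem Spl.eq_bot (s : Spl P P₀ Q l) {X : Subgroup G} [X.Normal] (hX : X ≤ P) (h : X ≤ ⁅X, P⁆) :
    X = ⊥ :=
  have := s.nil
  by_contra fun h0 => (commutator_lt_of_le_isNilpotent hX le_rfl le_normalizer_of_normal h0).not_ge h

theorem Spl.out_one (s : Spl P P₀ Q l) (c : Cam P M) {p : ℕ} [hp : Fact p.Prime] (h1 : IsPGroup p P)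
    (h2 : p ∣ M.relIndex P) (h3 : p ∣ Nat.card (⁅P, P⁆ : Subgroup G))
    (h : ⁅P, P⁆ ≤ P₀ ⊔ ⁅⁅P, P⁆, P⁆) : Out P M := by
  have h4 : ⁅⁅P, P⁆, P⁆ = ⊥ := s.eq_bot (commutator_le_right _ _) ((s.comm_le c s.der_le).trans
    ((commutator_mono h le_rfl).trans (commutator_sup_left_le ((s.comm_bot c).trans_le bot_le)
      (commutator_mono le_rfl (s.qle c)))))
  rw [h4, sup_bot_eq] at h
  have h5 : ∀ ψ : IrrCharacter P, charDegree ψ.1 ≠ 1 → inertia P.subtype ψ = ⊤ := fun ψ h5 =>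
    s.eq_top (zpow_one l ▸ s.zpow_mem_inertia c h5 1 fun u v y hu hv => by
      rw [← (s.comm_zpow (h hu) 1).eq, mul_inv_cancel_right] at hv
      rw [Subtype.ext hv]) (le_inertia_subtype P ψ)
  obtain ⟨d, hd⟩ := c.three_of_inv h2 h3 h5
  refine ⟨⟨_, d, d, fun a ha => (hd ha).imp_right (Or.imp_right Or.inl)⟩, ?_,
    s.eq ▸ s.der_eq c, fun T h6 h7 h8 => ?_⟩
  · change ⁅⁅commutator G, commutator G⁆, ⁅commutator G, commutator G⁆⁆ = ⊥
    rw [← s.eq, ← s.der_eq c, eq_bot_iff, ← h4]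
    exact commutator_mono le_rfl (commutator_le_left P P)
  exfalso
  obtain ⟨x, hx, h9⟩ := s.exists_mem c
  obtain ⟨_, ⟨ψ, rfl⟩, h10⟩ := Set.not_subset.1 (mt comm_iff_charDegrees_subset.2
    fun h0 : ∀ a b : P, a * b = b * a => hp.out.one_lt.ne' (Nat.dvd_one.1 (by
      rwa [show ⁅P, P⁆ = ⊥ from eq_bot_iff.2 (commutator_le.2 fun a ha b hb =>
        commutatorElement_eq_one_iff_mul_comm.2 (congrArg Subtype.val (h0 ⟨a, ha⟩ ⟨b, hb⟩))),
        card_bot] at h3)))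
  have h11 : ⁅T ⊓ P, zpowers x⁆ ≤ ⊥ := (commutator_mono (h7.trans ((s.m_le c).trans
    (sup_le le_rfl h))) (zpowers_le.2 hx)).trans (s.comm_bot c).le
  have h12 : ⁅T ⊓ P ⊔ zpowers x, T ⊓ P ⊔ zpowers x⁆ ≤ ⊥ := commutator_sup_left_le
    ((commutator_comm _ _).trans_le (commutator_sup_left_le
      ((commutator_mono inf_le_left inf_le_left).trans h6.le) ((commutator_comm _ _).trans_le h11)))
    ((commutator_comm _ _).trans_le (commutator_sup_left_le h11 (commutator_le.2 fun a ha b hb =>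
      commutatorElement_eq_one_iff_mul_comm.2 (setLike_mul_comm ha hb))))
  have h13 : T ⊓ P ⊔ zpowers x ≤ P := sup_le inf_le_right (zpowers_le.2 (s.qle c hx))
  obtain ⟨k, hk⟩ := h1.exists_card_eq
  have h14 := dvd_of_le hp.out (hk ▸ ψ.charDegree_dvd_card) (hk ▸ index_dvd_card _)
    (deg_le_index (χ := ψ) (A := (T ⊓ P ⊔ zpowers x).subgroupOf P) (commutator_le.2
      fun a ha b hb => by
        rw [show ⁅a, b⁆ = 1 from Subtype.ext (h12 (commutator_mem_commutator ha hb))]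
        exact one_mem _))
  have h15 := mem_of_cyc c.cyc ψ
  rw [h5 ψ h10, index_top, one_mul] at h15
  refine h9 (h7 (relIndex_eq_one.1 (h8 _ h15 h10 ((T ⊓ P).relIndex (T ⊓ P ⊔ zpowers x)) ?_)
    (mem_sup_right (mem_zpowers x))))
  rw [index_eq_relIndex_mul_index_map T P, ← inf_relIndex_right T,
    ← relIndex_mul_relIndex _ _ _ le_sup_left h13, mul_comm]
  exact (Nat.mul_dvd_mul_left _ h14).mul_right _

theorem Spl.out_two (s : Spl P P₀ Q l) (c : Cam P M) (h : ¬ ⁅P, P⁆ ≤ P₀ ⊔ ⁅⁅P, P⁆, P⁆) :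
    Out P M := by
  have := s.normal c
  have h1 : P.map (QuotientGroup.mk' P₀) = Q.map (QuotientGroup.mk' P₀) := le_antisymm
    (map_mk'_le_map_mk'_iff.2 ((s.p_le c).trans_eq (sup_comm _ _))) (map_mono (s.qle c))
  have h2 : M.map (QuotientGroup.mk' P₀) =
      ⁅Q.map (QuotientGroup.mk' P₀), Q.map (QuotientGroup.mk' P₀)⁆ := by
    rw [← map_commutator, ← s.der_eq c]
    exact le_antisymm (map_mk'_le_map_mk'_iff.2 ((s.m_le c).trans_eq (sup_comm _ _))) (map_mono c.der)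
  have c' := (c.quo (s.le_m c)).congr h1 h2
  have h3 : ∀ {Y : Subgroup G}, P₀ ⊓ Q ≤ Y → Y ≤ Q → ∀ x ∈ Q,
      QuotientGroup.mk' P₀ x ∈ Y.map (QuotientGroup.mk' P₀) → x ∈ Y := by
    rintro Y h3 h4 x hx ⟨y, hy, h5⟩
    exact (Y.mul_mem_cancel_left (Y.inv_mem hy)).1 (h3 ⟨QuotientGroup.eq.1 h5,
      Q.mul_mem (Q.inv_mem (h4 hy)) hx⟩)
  have h4 : ∀ (X : Subgroup G) [X.Normal], X ≤ Q → P₀ ⊓ Q ≤ ⁅X, Q⁆ →
      (∃ k, (∀ x ∈ X.map (QuotientGroup.mk' P₀), ⁅x, k⁆ ∈ ⁅X, Q⁆.map (QuotientGroup.mk' P₀)) ∧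
        k ∉ Q.map (QuotientGroup.mk' P₀)) → P₀ ⊓ Q ≤ ⁅⁅X, Q⁆, Q⁆ := by
    rintro X _ hX h4 ⟨k, h5, h6⟩ z hz
    obtain ⟨k, rfl⟩ := QuotientGroup.mk'_surjective P₀ k
    exact fpf_next hX (mem_ck.2 fun x hx => h3 h4 (commutator_le_right _ _) _
      (hX (comm_mem_left hx k)) (h5 _ ⟨x, hx, rfl⟩)) (s.fpf c fun h0 => h6 (h1 ▸ ⟨k, h0, rfl⟩)) z
      (h4 hz) (s.central c hz k ▸ one_mem _)
  have h5 : P₀ ⊓ Q ≤ ⁅⁅Q, Q⁆, Q⁆ := fun z hz => by
    have h5 := s.fpf c s.notMem z hz.2 (s.central c hz l ▸ one_mem _)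
    have h6 := s.fpf_two c h
    rw [s.der_eq c] at h6
    exact s.comm_le c (commutator_le_left Q Q) (h6 z h5 (s.central c hz l ▸ one_mem _))
  have h6 := h4 _ (commutator_le_left Q Q) h5 (by
    simpa only [map_commutator, mem_ck] using c'.lvl2.ex)
  have h7 := h4 _ (commutator_le_right _ Q) h6 (by
    simpa only [map_commutator, mem_ck] using c'.lvl3.ex)
  have h8 : ⁅⁅⁅Q, Q⁆, Q⁆, Q⁆ = ⊥ := s.eq_bot ((commutator_le_right _ _).trans (s.qle c))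
    fun x hx => commutator_mono le_rfl (s.qle c) (h3 h7 (commutator_le_right _ _) x
      (commutator_le_right _ _ hx) (by
        have h8 := c'.four_le
        simp only [← map_commutator] at h8
        exact h8 ⟨x, hx, rfl⟩))
  have h9 : P₀ ⊓ commutator G = ⊥ := s.eq ▸ eq_bot_iff.2 (h8 ▸ h6)
  have h10 : ⁅⁅⁅Q.map (QuotientGroup.mk' P₀), Q.map (QuotientGroup.mk' P₀)⁆,
      Q.map (QuotientGroup.mk' P₀)⁆, Q.map (QuotientGroup.mk' P₀)⁆ = ⊥ := by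
    simp only [← map_commutator, h8, Subgroup.map_bot]
  obtain ⟨d, e, h11⟩ := c'.four h10
  refine ⟨⟨_, d, e, (cd_quo_central (fun z hz => mem_center_iff.2 fun g =>
    (commutatorElement_eq_one_iff_mul_comm.1 (mem_bot.1 (h9 ▸ ⟨comm_mem_left hz g,
      commutator_mem_commutator (mem_top z) (mem_top g)⟩))).symm) h9).trans h11⟩, ?_,
    s.eq ▸ s.der_eq c, fun T h12 h13 h14 => ⟨eq_bot_iff.2 fun x hx => h9 ▸ ⟨?_, hx.2⟩, l, fun n hn h15 =>
      h9 ▸ ⟨(s.mem n).2 ⟨c.comm_le hn, h15⟩, hn⟩⟩⟩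
  · change ⁅⁅commutator G, commutator G⁆, ⁅commutator G, commutator G⁆⁆ = ⊥
    rw [← s.eq, eq_bot_iff, ← h8]
    exact comm_der_le _ _
  · have h15 := c'.inf_le_four (T := T.map (QuotientGroup.mk' P₀))
      (by rw [← map_commutator, h12, Subgroup.map_bot])
      (fun a ha h15 m hm => h14 a (charDegrees_quotient_subset P₀ ha) h15 m
        (hm.trans (index_map_dvd _ (QuotientGroup.mk'_surjective P₀)))) (by
        rintro _ ⟨⟨t, ht, rfl⟩, h15⟩
        have h16 := mem_comap.2 (h1.ge h15)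
        rw [comap_map_eq, QuotientGroup.ker_mk', sup_eq_left.2 s.le] at h16
        exact h2.le ⟨t, h13 ⟨ht, h16⟩, rfl⟩)
    rw [h10] at h15
    exact (QuotientGroup.eq_one_iff x).1 (h15 ⟨⟨x, hx.1, rfl⟩, x, s.eq ▸ hx.2, rfl⟩)

theorem Cam.out (c : Cam P M) {p : ℕ} [Fact p.Prime] (h1 : IsPGroup p P) (h2 : p ∣ M.relIndex P)
    (h3 : p ∣ Nat.card (⁅P, P⁆ : Subgroup G)) : Out P M := by
  obtain ⟨P₀, l, s⟩ := c.exists_spl h1 h2
  exact (em _).elim (s.out_one c h1 h2 h3) (s.out_two c)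

end Cfsg.Nd

set_option linter.all false in
theorem Cfsg.Rz.Nd_PGrp_0 : True := by
  have := @_root_.Cfsg.Nd.Out.eq_def.{0}
  have := @_root_.Cfsg.Nd.Out.eq_1.{0}
  have := @_root_.Cfsg.Nd.Out.fun_cases
  have := @_root_.Cfsg.Nd.Spl.mk.congr_simp.{0}
  trivial
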