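import Cfsg.Agent.Nd.Lvl
import Cfsg.Agent.Nd.L4

/-!
# The pure case `N = G'`: the class is at most three
-/

set_option autoImplicit false
set_option linter.unusedSectionVars false

namespace Cfsg.Nd

open scoped commutatorElement Classical ComplexConjugate
open Subgroup MulAction

universe u

variable {G : Type u} [Group G] [Finite G] {Q : Subgroup G} [hQ : Q.Normal]

set_option hygiene false in
local notation "Q₂" => ⁅Q, Q⁆
set_option hygiene false in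
local notation "Q₃" => ⁅⁅Q, Q⁆, Q⁆
set_option hygiene false in
local notation "Q₄" => ⁅⁅⁅Q, Q⁆, Q⁆, Q⁆
set_option hygiene false in
local notation "Q₅" => ⁅⁅⁅⁅Q, Q⁆, Q⁆, Q⁆, Q⁆

theorem comm_der_le (X Q : Subgroup G) [X.Normal] [Q.Normal] : ⁅X, ⁅Q, Q⁆⁆ ≤ ⁅⁅X, Q⁆, Q⁆ := by
  rw [commutator_comm X]
  exact commutator_commutator_le_of_rotate (by rw [commutator_comm Q X]) le_rfl

theorem notMem_ck {X : Subgroup G} [X.Normal] (hX : X ≤ Q) {t : G} (ht : Fpf t Q Q₂)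
    {l : LinC (⁅X, Q⁆ : Subgroup G).subtype} (h1 : ∀ y ∈ ⁅⁅X, Q⁆, Q⁆, ev l y = 1) (h2 : l ≠ 1)
    (h3 : t • l = l) : t ∉ ck X ⁅X, Q⁆ :=
  fun h => h2 ((fpf_next hX h ht).eq_one (commutator_le_left _ _) h1 h3)

theorem IsSec.sub {S : Type u} [AddCommGroup S] {X Y : Subgroup G} {π : G → S} (h : IsSec X Y π)
    (D : AddSubgroup S) {E : Subgroup G} (hE : ∀ x, x ∈ E ↔ x ∈ X ∧ π x ∈ D) :
    ∃ π' : G → D, IsSec E Y π' ∧ ∀ x ∈ E, (π' x : S) = π x := by
  have h1 : ∀ x ∈ E, ((if hx : π x ∈ D then ⟨π x, hx⟩ else 0 : D) : S) = π x := fun x hx => by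
    rw [dif_pos ((hE x).1 hx).2]
  refine ⟨_, ⟨fun y hy => (hE y).2 ⟨h.le hy, h.zero hy ▸ D.zero_mem⟩, fun x hx y hy =>
    Subtype.ext ?_, fun x hx => ?_, fun s => ?_⟩, h1⟩
  · rw [AddSubgroup.coe_add, h1 x hx, h1 y hy, h1 _ (E.mul_mem hx hy),
      h.map_mul x ((hE x).1 hx).1 y ((hE y).1 hy).1]
  · rw [Subtype.ext_iff, h1 x hx]
    exact h.eq_zero x ((hE x).1 hx).1
  · obtain ⟨x, hx, h2⟩ := h.surj s
    have h3 := (hE x).2 ⟨hx, h2 ▸ s.2⟩
    exact ⟨x, h3, Subtype.ext ((h1 x h3).trans h2)⟩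

theorem Lvl.deg_eq {X : Subgroup G} [X.Normal] (h : Lvl Q X ⁅X, Q⁆) (hX : X ≤ Q)
    {φ : IrrCharacter Q} (h1 : ∀ z : Q, (z : G) ∈ ⁅X, Q⁆ → z ∈ charKer φ.1)
    (h2 : ¬ ∀ z : Q, (z : G) ∈ X → z ∈ charKer φ.1) : (inertia Q.subtype φ).index * charDegree φ.1 =
      (ck X ⁅X, Q⁆).index * (X.relIndex Q).sqrt := by
  obtain ⟨l, hl⟩ := exists_ov' hX φ h1
  obtain ⟨h3, h4⟩ := h.deg l (fun y hy => (hl.mem_ker (z := ⟨y, commutator_le_right _ _ hy⟩)
    (commutator_le_left _ _ hy)).1 (h1 _ hy)) (fun h0 => h2 fun z hz => (hl.mem_ker hz).2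
      (by rw [h0, ev_one'])) φ hl
  rw [h4, ← h3, Nat.sqrt_eq']

namespace Cam

theorem lvl2 (c : Cam Q Q₂) : Lvl Q Q₂ Q₃ := c.lvl le_rfl fun _ _ _ _ _ t _ ht _ => c.fpf t ht

theorem lvl3 (c : Cam Q Q₂) : Lvl Q Q₃ Q₄ :=
  c.lvl (commutator_le_left _ _) fun _ h1 h2 _ hφ t h3 ht _ => (c.fpf t ht).trans
    (c.lvl2.fpf t (notMem_ck (commutator_le_left _ _) (c.fpf t ht) h1 h2
      (hφ.inertia_le (commutator_le_right _ _) h3))) (commutator_le_left _ _)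

theorem lvl4 (c : Cam Q Q₂) : Lvl Q Q₄ Q₅ := by
  have h32 : Q₃ ≤ Q₂ := commutator_le_left _ _
  have h43 : Q₄ ≤ Q₃ := commutator_le_left _ _
  refine c.lvl (h43.trans h32) fun l h1 h2 φ hφ t h3 ht h4 => ((c.fpf t ht).trans
    (c.lvl2.fpf t fun h5 => ?_) h32).trans (c.lvl3.fpf t (notMem_ck (commutator_le_right _ _)
      (c.fpf t ht) h1 h2 (hφ.inertia_le (commutator_le_right _ _) h3))) h43
  have h6 : ¬ Q₄ ≤ kr l := mt le_kr_iff.1 h2
  obtain ⟨e, h7, h8, h9⟩ := c.lvl2.exists_deg c.cyc le_rfl fun h0 => h6 (((commutator_mono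
    (commutator_mono h0 le_rfl) le_rfl)).trans fun y hy =>
      mem_kr.2 ⟨commutator_le_left _ _ hy, h1 y hy⟩)
  have h10 := hφ.ne_one (h43.trans h32) h2
  have h11 : inertia Q.subtype φ ≤ ck Q₂ Q₃ := fun x hx => by
    obtain ⟨k, n, hn, rfl⟩ := h4 x hx
    exact mul_mem (zpow_mem h5 k) (le_ck le_rfl hn)
  obtain ⟨a, ha⟩ := index_dvd_of_le h11
  obtain ⟨b, hb⟩ := (Nat.pow_dvd_pow_iff two_ne_zero).1 (h8 ▸ c.relIndex_dvd h10)
  have h12 := mem_of_cyc c.cyc φ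
  rw [ha, hb, mul_mul_mul_comm] at h12
  rw [Nat.eq_one_of_mul_eq_one_left (c.nd.eq_one_of_mul h9 h12
    fun h0 => h7 (Nat.eq_one_of_mul_eq_one_left h0)), mul_one] at hb
  have h13 := le_center_of_vanish (Z := (Q₂).subgroupOf Q) (fun g hg => c.vanish h10 hg)
    (hb ▸ h8)
  have h14 : Q₃ ≤ (charKer φ.1).map Q.subtype := commutator_le.2 fun a ha b hb =>
    ⟨_, φ.isCharacter.commutator_mem_charKer
      (h13 (show (⟨a, commutator_le_left Q Q ha⟩ : Q) ∈ _ from ha)) ⟨b, hb⟩, rfl⟩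
  refine h6 fun y hy => mem_kr.2 ⟨hy, ?_⟩
  obtain ⟨z, hz, rfl⟩ := h14 (h43 hy)
  exact (hφ.mem_ker hy).1 hz

theorem mul_self_notMem (c : Cam Q Q₂) (h3 : ¬ Q₃ ≤ Q₄) {k : G} (hk : k ∈ ck Q₂ Q₃) (hkQ : k ∉ Q) :
    k * k ∉ Q := fun hkk => by
  have h21 : Q₂ ≤ Q := commutator_le_left _ _
  have h32 : Q₃ ≤ Q₂ := commutator_le_left _ _
  have h43 : Q₄ ≤ Q₃ := commutator_le_left _ _
  obtain ⟨W, _, π₁, hW⟩ := exists_sec h21 le_rfl
  obtain ⟨A, _, π₂, hA⟩ := exists_sec h32 (commutator_mono le_rfl h21)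
  obtain ⟨B, _, π₃, hB⟩ := exists_sec h43 (commutator_mono le_rfl (h32.trans h21))
  obtain ⟨β, hβ, b1, b2⟩ := exists_br_surj c.lvl2.fr hW hA
  obtain ⟨γ, hγ⟩ := hW.exists_br hA hB (commutator_comm _ _).le (comm_der_le _ _)
    (commutator_comm _ _).le le_rfl (commutator_mono le_rfl h21)
  obtain ⟨z, hz, hz'⟩ := SetLike.not_le_iff_exists.1 h3
  obtain ⟨l, hl, h1⟩ := exists_lin (commutator_mono le_rfl (h32.trans h21)) hz hz'
  have hl1 : l ≠ 1 := fun h0 => h1 (by rw [h0, ev_one'])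
  have hlQ : ∀ q ∈ Q, q • l = l := (le_ck le_rfl).trans (ck_le_stab hl)
  have h2 : k • l * l = 1 := (fpf_next h21 hk (c.fpf k hkQ)).eq_one h43
    (fun y hy => by rw [ev_mul', triv_smul hl k y hy, hl y hy, one_mul])
    (by rw [smul_mul', ← mul_smul, hlQ _ hkk, mul_comm])
  have h4 : k⁻¹ • l = l⁻¹ := by
    rw [inv_smul_eq_iff, smul_inv', eq_inv_of_mul_eq_one_left h2, inv_inv]
  obtain ⟨χ, hχ⟩ := hB.exists_char hl
  obtain ⟨σ, -, hσ⟩ := hW.exists_conj k⁻¹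
  have h5 := hW.fpf hσ (c.fpf _ (mt inv_mem_iff.1 hkQ))
  have h6 : ∀ w, w + σ w = 0 := hW.ind fun x hx => h5 _ (by
    rw [map_add, hσ x hx, hσ _ (hQ.conj_mem x hx _), add_comm]
    congr 1
    rw [← hW.conj_eq (g := (k * k)⁻¹) hx (commutator_mem_commutator hx (inv_mem hkk))]
    congr 1; simp [mul_assoc])
  have := hW.finite
  have := hA.finite
  have : Nontrivial W := by
    rw [← Finite.one_lt_card_iff_nontrivial, hW.card]
    exact Nat.one_lt_iff_ne_zero_and_ne_one.2 ⟨index_ne_zero_of_finite, c.one_lt⟩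
  obtain ⟨w₀, hw₀⟩ := exists_ne (0 : W)
  have h7 : ∀ a : A, ∃ b, b + b = a := fun a => by
    obtain ⟨w, rfl⟩ := b2 w₀ hw₀ a
    obtain ⟨v, rfl⟩ := Finite.injective_iff_surjective.1
      ((injective_iff_map_eq_zero (AddMonoidHom.id W + AddMonoidHom.id W)).2 fun v hv =>
        h5 v (add_left_cancel ((h6 v).trans hv.symm))) w
    exact ⟨β w₀ v, (map_add _ _ _).symm⟩
  obtain ⟨w, hw, hw0⟩ := (AddSubgroup.nontrivial_iff_exists_ne_zero (γ.compr₂ χ).ker).1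
    (Finite.one_lt_card_iff_nontrivial.1 (by
      have h8 := card_le_ker_mul (γ.compr₂ χ) ⊥ fun s d hd => by
        rw [AddSubgroup.mem_bot.1 hd, map_zero]
      have h9 : 1 < Nat.card (β w₀).ker := Finite.one_lt_card_iff_nontrivial.2
        ((AddSubgroup.nontrivial_iff_exists_ne_zero _).2 ⟨w₀, b1 w₀, hw₀⟩)
      rw [exists_card_eq (b2 w₀ hw₀), AddSubgroup.index_bot, mul_comm] at h8
      exact h9.trans_le (Nat.le_of_mul_le_mul_right h8 Nat.card_pos)))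
  obtain ⟨x₀, hx₀, rfl⟩ := hW.surj w
  have h8 : x₀ * (k⁻¹ * x₀ * k⁻¹⁻¹) ∈ Q₂ := (hW.eq_zero _ (Q.mul_mem hx₀ (hQ.conj_mem _ hx₀ _))).1
    (by rw [hW.map_mul _ hx₀ _ (hQ.conj_mem _ hx₀ _), ← hσ _ hx₀, h6])
  obtain ⟨a, ha⟩ := h7 (-π₂ (x₀ * (k⁻¹ * x₀ * k⁻¹⁻¹)))
  obtain ⟨v, hv, rfl⟩ := hA.surj a
  have hx := Q.mul_mem hx₀ (h21 hv)
  have h9 : π₁ (x₀ * v) = π₁ x₀ := by rw [hW.map_mul _ hx₀ _ (h21 hv), hW.zero hv, add_zero]
  have h10 : x₀ * v * (k⁻¹ * (x₀ * v) * k) ∈ Q₃ := by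
    have h10 : x₀ * v * (k⁻¹ * (x₀ * v) * k) =
        x₀ * v * x₀⁻¹ * (x₀ * (k⁻¹ * x₀ * k⁻¹⁻¹)) * (k⁻¹ * v * k⁻¹⁻¹) := by group
    have h11 := Normal.conj_mem inferInstance v hv x₀
    have h12 := Normal.conj_mem inferInstance v hv k⁻¹
    rw [h10, ← hA.eq_zero _ (mul_mem (mul_mem h11 h8) h12), hA.map_mul _ (mul_mem h11 h8) _ h12,
      hA.map_mul _ h11 _ h8, hA.conj_eq hv (commutator_mem_commutator hv hx₀),
      hA.conj_eq hv (mem_ck.1 (inv_mem hk) v hv), add_right_comm, ha, neg_add_cancel]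
  rw [← h9] at hw hw0
  generalize x₀ * v = x at hx h10 hw hw0
  obtain ⟨y, hy, h11, h12⟩ := c.lvl3.fr l hl hl1 x hx fun h0 => hw0 (hW.zero (h32 h0))
  refine h12 (delta_triv hlQ h21 (c.fpf k hkQ) (fun e he => ?_) (fun d hd h13 => ?_) y hy h11)
  · have h13 : ⁅x, e⁆ ∈ Q₃ := commutator_comm Q _ ▸ commutator_mem_commutator hx he
    refine mem_kr.2 ⟨h13, Additive.ofMul.injective ?_⟩
    rw [← hχ _ h13, ← hγ x hx e he]
    exact DFunLike.congr_fun (AddMonoidHom.mem_ker.1 hw) (π₂ e)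
  · have h14 : ⁅x, k * d * k⁻¹⁆ =
        k⁻¹⁻¹ * (x⁻¹ * (⁅x * (k⁻¹ * x * k), d⁆ * ⁅x, d⁆⁻¹) * x⁻¹⁻¹) * k⁻¹ := by
      simp only [commutatorElement_def]; group
    have h15 := commutator_mem_commutator h10 hd
    have h16 := mul_mem (h43 h15) (inv_mem h13)
    rw [h14, ← ev_smul, h4, ev_inv', ev_conj (hlQ _ (inv_mem hx)), ev_mul l (h43 h15) (inv_mem h13),
      hl _ h15, one_mul, ev_inv, inv_inv]
    refine ⟨?_, rfl⟩
    exact Normal.conj_mem inferInstance _ (Normal.conj_mem inferInstance _ h16 _) k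

theorem four_le (c : Cam Q Q₂) : Q₄ ≤ Q₅ := by
  by_contra h4
  have h3 : ¬ Q₃ ≤ Q₄ := fun h => h4 (commutator_mono h le_rfl)
  have h2 : ¬ Q₂ ≤ Q₃ := fun h => h3 (commutator_mono h le_rfl)
  have h21 : Q₂ ≤ Q := commutator_le_left _ _
  have h32 : Q₃ ≤ Q₂ := commutator_le_left _ _
  have h43 : Q₄ ≤ Q₃ := commutator_le_left _ _
  have h54 : Q₅ ≤ Q₄ := commutator_le_left _ _
  have h31 := h32.trans h21
  have h41 := h43.trans h31
  obtain ⟨W, _, π₁, hW⟩ := exists_sec h21 le_rfl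
  obtain ⟨A, _, π₂, hA⟩ := exists_sec h32 (commutator_mono le_rfl h21)
  obtain ⟨B, _, π₃, hB⟩ := exists_sec h43 (commutator_mono le_rfl h31)
  obtain ⟨C, _, π₄, hC⟩ := exists_sec h54 (commutator_mono le_rfl h41)
  obtain ⟨β, hβ, b1, b2⟩ := exists_br_surj c.lvl2.fr hW hA
  obtain ⟨γ, hγ⟩ := hA.exists_br hW hB le_rfl le_rfl (comm_der_le _ _)
    (commutator_mono le_rfl h21) le_rfl
  obtain ⟨δ, hδ⟩ := hB.exists_br hW hC le_rfl le_rfl (comm_der_le _ _)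
    (commutator_mono le_rfl h31) le_rfl
  obtain ⟨ε, hε⟩ := hA.exists_br hA hC (comm_der_le _ _) (comm_der_le _ _)
    ((commutator_comm _ _).le.trans (comm_der_le _ _)) (commutator_mono le_rfl h21)
    (commutator_mono le_rfl h21)
  have := hW.finite
  have := hA.finite
  have := hB.finite
  have := hC.finite
  have : Nontrivial W := by
    rw [← Finite.one_lt_card_iff_nontrivial, hW.card]
    exact Nat.one_lt_iff_ne_zero_and_ne_one.2 ⟨index_ne_zero_of_finite, c.one_lt⟩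
  have : Nontrivial A := by
    obtain ⟨a, ha, h5⟩ := SetLike.not_le_iff_exists.1 h2
    exact ⟨_, _, mt (hA.eq_zero a ha).1 h5⟩
  have e1 : ∀ s, ε s s = 0 := hA.ind fun s hs => by
    rw [hε s hs s hs, commutatorElement_self, hC.one]
  have cW : ∀ {x y : G}, x ∈ Q → y ∈ Q → π₁ (y * x * y⁻¹) = π₁ x := fun hx hy =>
    hW.conj_eq hx (commutator_mem_commutator hx hy)
  have jac : ∀ x y z, γ (β x y) z + γ (β y z) x + γ (β z x) y = 0 :=
    hW.ind fun x hx => hW.ind fun y hy => hW.ind fun z hz => by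
      have m : ∀ {a b c : G}, a ∈ Q → b ∈ Q → c ∈ Q → ⁅⁅a, b⁆, b * c * b⁻¹⁆ ∈ Q₃ ∧
          γ (β (π₁ a) (π₁ b)) (π₁ c) = π₃ ⁅⁅a, b⁆, b * c * b⁻¹⁆ := fun {_ b _} ha hb hc => by
        have h5 := commutator_mem_commutator ha hb
        have h6 := hQ.conj_mem _ hc b
        exact ⟨commutator_mem_commutator h5 h6, by rw [hβ _ ha _ hb, ← cW hc hb, hγ _ h5 _ h6]⟩
      rw [(m hx hy hz).2, (m hy hz hx).2, (m hz hx hy).2, ← hB.map_mul _ (m hx hy hz).1 _
        (m hy hz hx).1, ← hB.map_mul _ (mul_mem (m hx hy hz).1 (m hy hz hx).1) _ (m hz hx hy).1,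
        hall_witt, hB.one]
  have tau : ∀ s y z, δ (γ s y) z - δ (γ s z) y = ε s (β y z) :=
    hA.ind fun s hs => hW.ind fun y hy => hW.ind fun z hz => by
      have m1 := commutator_mem_commutator hs hy
      have m2 := commutator_mem_commutator hy hz
      have m3 := commutator_mem_commutator hs hz
      have m4 := hQ.conj_mem _ hz y
      have m5 := Normal.conj_mem inferInstance _ hs z
      have m6 := hQ.conj_mem _ hy s
      have h5 := congrArg π₄ (hall_witt s y z)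
      rw [← commutatorElement_inv s z] at h5
      have m7 := commutator_mem_commutator m1 m4
      have m8 := comm_der_le _ _ (commutator_mem_commutator m2 m5)
      have m9 := commutator_mem_commutator (inv_mem m3) m6
      rw [hC.map_mul _ (mul_mem m7 m8) _ m9, hC.map_mul _ m7 _ m8, hC.one, ← hδ _ m1 _ m4,
        ← hε _ m2 _ m5, ← hδ _ (inv_mem m3) _ m6, hB.inv m3, cW hz hy, cW hy (h21 hs),
        hA.conj_eq hs m3, ← hγ s hs y hy, ← hγ s hs z hz, ← hβ y hy z hz, br_symm e1, map_neg,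
        AddMonoidHom.neg_apply] at h5
      rw [← sub_eq_zero, ← h5]
      abel
  have lt : ∀ x, x ≠ 0 → Nat.card B < Nat.card (γ.flip x).range * Nat.card (β x).ker :=
    hW.ind fun x hx h0 => by
      obtain ⟨π, h5, h6⟩ := hW.sub (β (π₁ x)).ker (E := Q ⊓ cz x Q₃) fun y => and_congr_right
        fun hy => by
          rw [AddMonoidHom.mem_ker, hβ x hx y hy, hA.eq_zero _ (commutator_mem_commutator hx hy)]
          exact mem_cz
      obtain ⟨φ, hφ⟩ := h5.lift (fun y => QuotientAddGroup.mk' (γ.flip (π₁ x)).range (π₃ ⁅x, y⁆))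
        (fun a ha b hb => by
          have h7 := mem_cz.1 hb.2
          rw [comm_mul_right, hB.map_mul _ (mem_cz.1 ha.2) _ (Normal.conj_mem inferInstance _ h7 a),
            hB.conj_eq h7 (commutator_mem_commutator h7 ha.1), map_add])
        fun y hy => (QuotientAddGroup.eq_zero_iff _).2 (by
          rw [← commutatorElement_inv, hB.inv (commutator_mem_commutator hy hx), ← hγ y hy x hx]
          exact neg_mem ⟨_, rfl⟩)
      have h7 := hB.eq_top (φ.range.comap (QuotientAddGroup.mk' _)) fun l h7 h8 => by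
        obtain ⟨y, hy, h9, h10⟩ := c.lvl3.fr l h7 h8 x hx fun h9 => h0 (hW.zero (h32 h9))
        exact ⟨_, h9, ⟨_, hφ y ⟨hy, mem_cz.2 h9⟩⟩, h10⟩
      have h8 : Function.Surjective φ := fun b => by
        obtain ⟨b, rfl⟩ := QuotientAddGroup.mk'_surjective _ b
        exact (AddSubgroup.eq_top_iff' _).1 h7 b
      have h9 : x ∈ Q ⊓ cz x Q₃ := ⟨hx, mem_cz.2 (by rw [commutatorElement_self]; exact one_mem _)⟩
      have h10 : 1 < Nat.card φ.ker := Finite.one_lt_card_iff_nontrivial.2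
        ((AddSubgroup.nontrivial_iff_exists_ne_zero _).2 ⟨π x, by
          rw [AddMonoidHom.mem_ker, hφ x h9, commutatorElement_self, hB.one, map_zero],
          fun h10 => h0 (by rw [← h6 x h9, h10]; rfl)⟩)
      rw [exists_card_eq h8, AddSubgroup.card_eq_card_quotient_mul_card_addSubgroup
        (γ.flip (π₁ x)).range, mul_comm]
      exact Nat.mul_lt_mul_of_pos_left (lt_mul_of_one_lt_right Nat.card_pos h10) Nat.card_pos
  have lay : ∀ l : LinC (Q₄ : Subgroup G).subtype, (∀ y ∈ Q₅, ev l y = 1) → l ≠ 1 →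
      ∀ χ : C →+ Additive ℂˣ, (∀ x ∈ Q₄, χ (π₄ x) = Additive.ofMul (ev l x)) →
      ∃ X, Lay β (γ.compr₂ (δ.compr₂ χ)) (ε.compr₂ χ) X := fun l hl hl1 χ hχ => by
    have h5 : ∀ b, (∀ y, χ (δ b y) = 0) → b = 0 := hB.ind fun b hb h5 => by_contra fun h6 => by
      obtain ⟨y, hy, h7, h8⟩ := c.lvl4.fr l hl hl1 b (h31 hb) (mt hB.zero h6)
      exact h8 (Additive.ofMul.injective ((hχ _ h7).symm.trans (hδ b hb y hy ▸ h5 _)))
    obtain ⟨X, hX⟩ : ∃ X : AddSubgroup W, ∀ y, y ∈ X ↔ ∀ s w, χ (δ (γ s w) y) = 0 :=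
      ⟨⨅ s, ⨅ w, ((δ.compr₂ χ) (γ s w)).ker, fun y => by simp [AddSubgroup.mem_iInf]⟩
    refine ⟨X, b1, b2, fun x y z u => ?_, fun s y z => ?_, hX, by_contra fun h6 => h3 ?_,
      fun x hx => ?_⟩
    · change χ (δ _ _) + χ (δ _ _) + χ (δ _ _) = 0
      rw [← map_add, ← map_add, ← AddMonoidHom.add_apply, ← AddMonoidHom.add_apply, ← map_add,
        ← map_add, jac, map_zero, AddMonoidHom.zero_apply, map_zero]
    · exact (map_sub χ _ _).symm.trans (congrArg χ (tau s y z))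
    · exact commutator_le.2 fun s hs w hw => (hB.eq_zero _ (commutator_mem_commutator hs hw)).1
        (hγ s hs w hw ▸ h5 _ fun y => (hX y).1 (by_contra fun h7 => h6 ⟨y, h7⟩) _ _)
    · have h6 := (card_le_ker_mul (δ.compr₂ χ).flip ⊥ fun s d hd => by
        rw [AddSubgroup.mem_bot.1 hd, map_zero]).trans (Nat.mul_le_mul_right _
          (AddSubgroup.card_le_of_le (show _ ≤ X from fun y hy => (hX y).2 fun s w =>
            DFunLike.congr_fun (AddMonoidHom.mem_ker.1 hy) (γ s w))))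
      have h7 := AddSubgroup.card_le_of_le (show ((γ.compr₂ (δ.compr₂ χ)).flip x).ker ≤
        (γ.flip x).ker from fun s hs => h5 _ (DFunLike.congr_fun (AddMonoidHom.mem_ker.1 hs)))
      have h8 := (γ.flip x).ker.card_mul_index
      rw [AddSubgroup.index_ker] at h8
      rw [AddSubgroup.index_bot, exists_card_eq (b2 x hx), ← h8] at h6
      have h9 := h6.trans_lt (Nat.mul_lt_mul_of_pos_left (lt x hx) Nat.card_pos)
      rw [mul_assoc] at h9
      exact h7.trans_lt (Nat.lt_of_mul_lt_mul_right h9)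
  obtain ⟨k, hk, hkQ⟩ := c.lvl2.ex
  have cA : ∀ {k s : G}, k ∈ ck Q₂ Q₃ → s ∈ Q₂ → π₂ (k * s * k⁻¹) = π₂ s := fun hk hs =>
    hA.conj_eq hs (mem_ck.1 hk _ hs)
  obtain ⟨z, hz, hz'⟩ := SetLike.not_le_iff_exists.1 h4
  obtain ⟨l, hl, h1⟩ := exists_lin (commutator_mono le_rfl h41) hz hz'
  have hl1 : l ≠ 1 := fun h0 => h1 (by rw [h0, ev_one'])
  obtain ⟨χ, hχ⟩ := hC.exists_char hl
  have hkl : k • l = l := mul_inv_eq_one.1 (by_contra fun h5 => by
    have h6 : ∀ y ∈ Q₅, ev (k • l * l⁻¹) y = 1 := fun y hy => by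
      rw [ev_mul', ev_inv', triv_smul hl k y hy, hl y hy, inv_one, one_mul]
    obtain ⟨χ', hχ'⟩ := hC.exists_char h6
    obtain ⟨X, hX⟩ := lay _ h6 h5 χ' hχ'
    refine hX.tau_ne (AddMonoidHom.ext (hA.ind fun s hs => AddMonoidHom.ext
      (hA.ind fun t ht => ?_)))
    have h7 := comm_der_le _ _ (commutator_mem_commutator hs ht)
    have h8 := Normal.conj_mem inferInstance _ hs k⁻¹
    have h9 := Normal.conj_mem inferInstance _ ht k⁻¹
    have h10 := hχ _ (comm_der_le _ _ (commutator_mem_commutator h8 h9))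
    rw [← hε _ h8 _ h9, cA (inv_mem hk) hs, cA (inv_mem hk) ht, hε s hs t ht, hχ _ h7,
      ← conjugate_commutatorElement, inv_inv] at h10
    change χ' (ε _ _) = 0
    rw [hε s hs t ht, hχ' _ h7, ev_mul', ev_inv', ev_smul, ← Additive.ofMul.injective h10,
      mul_inv_cancel, ofMul_one])
  obtain ⟨X, hX⟩ := lay l hl hl1 χ hχ
  obtain ⟨σ, h5, hσ⟩ := hW.exists_conj k
  refine hX.false (fun s t => (congrArg χ (br_symm e1 s t)).trans (map_neg χ _))
    (hA.ind fun s hs h6 => by_contra fun h7 => ?_) h5.2 (hW.ind fun x hx => hW.ind fun y hy => ?_)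
    (hA.ind fun s hs => hW.ind fun x hx => hW.ind fun y hy => ?_)
    (hW.fpf (σ := σ.comp σ) (fun x hx => ?_) (c.fpf _ (c.mul_self_notMem h3 hk hkQ)))
  · obtain ⟨n, hn, y, hy, h8⟩ := (fpf_next h21 (inv_mem hk) (c.fpf _ (mt inv_mem_iff.1 hkQ))).surj'
      (fun n hn => Normal.conj_mem inferInstance n hn _) (mem_ck.1 (inv_mem hk) _ (inv_mem hs))
    have h9 := mul_mem hs (h32 hn)
    have h10 : π₂ (s * n) = π₂ s := by rw [hA.map_mul _ hs _ (h32 hn), hA.zero hn, add_zero]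
    obtain ⟨d, hd, h11, h12⟩ := c.lvl4.fr l hl hl1 _ (h21 h9) fun h0 =>
      h7 (h10 ▸ hA.zero (h43 h0))
    refine h12 (delta_triv ((le_ck le_rfl).trans (ck_le_stab hl)) h21 (c.fpf k hkQ)
      (fun e he => ?_) (fun d hd h13 => delta_conj (Z := Q₅) (fun y hy => mem_kr.2
        ⟨h54 hy, hl y hy⟩) hkl (commutator_mem_commutator ?_ hd) h13) d hd h11)
    · have h13 := comm_der_le _ _ (commutator_mem_commutator h9 he)
      refine mem_kr.2 ⟨h13, Additive.ofMul.injective ?_⟩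
      rw [← hχ _ h13, ← hε _ h9 _ he, h10]
      exact h6 _
    · have h13 : (s * n)⁻¹ * (k⁻¹ * (s * n) * k) = n⁻¹ * ⁅s⁻¹, k⁻¹⁆ * (k⁻¹ * n * k) := by
        rw [commutatorElement_def]; group
      have h14 : n⁻¹ * (⁅n, k⁻¹⁆ * y) * (k⁻¹ * n * k) = (k⁻¹ * n⁻¹ * k) * y * (k⁻¹ * n⁻¹ * k)⁻¹ := by
        rw [commutatorElement_def]; group
      rw [h13, h8, h14]
      exact Normal.conj_mem inferInstance y hy _
  · have h6 := commutator_mem_commutator hx hy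
    rw [hσ x hx, hσ y hy, hβ _ (hQ.conj_mem x hx k) _ (hQ.conj_mem y hy k), hβ x hx y hy,
      ← conjugate_commutatorElement, cA hk h6]
  · have h6 := Normal.conj_mem inferInstance _ hs k
    have h7 := hQ.conj_mem x hx k
    have h8 := hQ.conj_mem y hy k
    have h9 := commutator_mem_commutator h6 h7
    have h10 := commutator_mem_commutator hs hx
    change χ (δ (γ _ _) _) = χ (δ (γ _ _) _)
    rw [hγ s hs x hx, hδ _ h10 _ hy, hχ _ (commutator_mem_commutator h10 hy), hσ x hx, hσ y hy,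
      ← cA hk hs, hγ _ h6 _ h7, hδ _ h9 _ h8, hχ _ (commutator_mem_commutator h9 h8),
      ← conjugate_commutatorElement, ← conjugate_commutatorElement, ev_conj hkl]
  · rw [AddMonoidHom.comp_apply, hσ x hx, hσ _ (hQ.conj_mem x hx k)]
    congr 1; simp [mul_assoc]

theorem four (c : Cam Q Q₂) (h : Q₄ = ⊥) : ∃ d e, charDegrees G ⊆ {1, Q.index, d, e} := by
  refine ⟨(ck Q₂ Q₃).index * (relIndex Q₂ Q).sqrt, (ck Q₃ Q₄).index * (relIndex Q₃ Q).sqrt,
    fun a ha => ?_⟩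
  obtain ⟨φ, rfl⟩ := exists_of_cyc c.cyc ha
  by_cases h1 : charDegree φ.1 = 1
  · exact (c.lin_deg h1).imp_right Or.inl
  by_cases h2 : ∀ z : Q, (z : G) ∈ Q₃ → z ∈ charKer φ.1
  · exact Or.inr (Or.inr (Or.inl (c.lvl2.deg_eq (commutator_le_left _ _) h2 fun h0 =>
      h1 (φ.commutator_le_charKer_iff'.1 fun z hz => h0 z (coe_mem_comm hz)))))
  · exact Or.inr (Or.inr (Or.inr (c.lvl3.deg_eq (commutator_le_right _ _) (fun z hz => by
      rw [show z = 1 from Subtype.ext (mem_bot.1 (h ▸ hz))]; exact one_mem _) h2)))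

theorem inf_le_four (c : Cam Q Q₂) {T : Subgroup G} (hT : ⁅T, T⁆ = ⊥)
    (h1 : ∀ d ∈ charDegrees G, d ≠ 1 → ∀ m, d * m ∣ T.index → m = 1) (h2 : T ⊓ Q ≤ Q₂) :
    T ⊓ Q ≤ Q₄ :=
  c.lvl3.inf_le c.cyc (commutator_le_left _ _) hT h1 (c.lvl2.inf_le c.cyc le_rfl hT h1 h2)

end Cam

end Cfsg.Nd
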